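import Mathlib
import Cfsg.Agent.Lib.Orth.Omega

set_option autoImplicit false
set_option linter.unusedSectionVars false
set_option linter.unusedVariables false
set_option linter.unusedSimpArgs false

/-!
Self-adjoint idempotents of a nondegenerate quadratic space: averaging, glueing of isometries,
rank-one projections, representing values.
-/

namespace Cfsg.Agent.Lib.OmNine.Proj

open QuadraticMap Module
open Cfsg.Agent.Lib.Witt.Quadratic Cfsg.Agent.Lib.Orth.Refl

universe u v

variable {F : Type u} {V : Type v} [Field F] [AddCommGroup V] [Module F V] {Q : QuadraticForm F V}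

/-- A self-adjoint idempotent. -/
structure IsProj (Q : QuadraticForm F V) (π : V →ₗ[F] V) : Prop where
  idem : ∀ x, π (π x) = π x
  adj : ∀ x y, polar Q (π x) y = polar Q x (π y)

namespace IsProj

variable {π : V →ₗ[F] V}

theorem ortho (h : IsProj Q π) (x y : V) : polar Q (π x) (y - π y) = 0 := by
  rw [h.adj, map_sub, h.idem, sub_self, polar_zero_right]

theorem Q_split (h : IsProj Q π) (x : V) : Q x = Q (π x) + Q (x - π x) := by
  have h1 : x = π x + (x - π x) := by abel
  conv_lhs => rw [h1]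
  rw [map_add_eq, h.ortho, add_zero]

theorem one_sub (h : IsProj Q π) : IsProj Q (LinearMap.id - π) where
  idem x := by
    simp only [LinearMap.sub_apply, LinearMap.id_apply, map_sub, h.idem]
    abel
  adj x y := by
    simp only [LinearMap.sub_apply, LinearMap.id_apply, polar_sub_left, polar_sub_right, h.adj]

theorem mem_range (h : IsProj Q π) {x : V} : x ∈ LinearMap.range π ↔ π x = x := by
  constructor
  · rintro ⟨y, rfl⟩
    exact h.idem y
  · intro hx
    exact ⟨x, hx⟩

end IsProj

section neg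

/-- Isometries are invertible for the form: moving to the other side. -/
theorem polar_inv {g : V ≃ₗ[F] V} (hg : g ∈ isoGroup Q) (x y : V) :
    polar Q (g x) y = polar Q x (g⁻¹ y) := by
  have h1 := polar_eq_of_preserves g hg x (g⁻¹ y)
  have h2 : g (g⁻¹ y) = y := by
    show (g * g⁻¹) y = y
    rw [mul_inv_cancel]; rfl
  rw [h2] at h1
  exact h1

end neg

section avg

/-- Average of powers. -/
noncomputable def avgLin (z : V ≃ₗ[F] V) (N : ℕ) : V →ₗ[F] V :=
  (N : F)⁻¹ • ∑ i ∈ Finset.range N, ((z ^ i : V ≃ₗ[F] V) : V →ₗ[F] V)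

theorem avgLin_apply (z : V ≃ₗ[F] V) (N : ℕ) (x : V) :
    avgLin z N x = (N : F)⁻¹ • ∑ i ∈ Finset.range N, (z ^ i) x := by
  simp [avgLin, LinearMap.sum_apply]

variable {z : V ≃ₗ[F] V} {N : ℕ}

theorem sum_shift (hz : z ^ N = 1) (x : V) :
    ∑ i ∈ Finset.range N, (z ^ (i + 1)) x = ∑ i ∈ Finset.range N, (z ^ i) x := by
  have h1 := Finset.sum_range_succ (fun i => (z ^ i) x) N
  have h2 := Finset.sum_range_succ' (fun i => (z ^ i) x) N
  rw [h1] at h2
  simp only [hz, pow_zero] at h2
  exact (add_right_cancel h2).symm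

theorem avg_fix (hz : z ^ N = 1) (x : V) : z (avgLin z N x) = avgLin z N x := by
  rw [avgLin_apply, map_smul, map_sum]
  congr 1
  rw [← sum_shift hz x]
  refine Finset.sum_congr rfl fun i _ => ?_
  rw [pow_succ']
  rfl

theorem pow_fix {x : V} (h : z x = x) (i : ℕ) : (z ^ i) x = x := by
  induction i with
  | zero => rfl
  | succ i ih =>
    rw [pow_succ]
    show (z ^ i) (z x) = x
    rw [h, ih]

theorem avg_of_fix (hN : (N : F) ≠ 0) {x : V} (h : z x = x) : avgLin z N x = x := by
  rw [avgLin_apply]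
  simp only [pow_fix h, Finset.sum_const, Finset.card_range]
  rw [← Nat.cast_smul_eq_nsmul F, smul_smul, inv_mul_cancel₀ hN, one_smul]

theorem avg_isProj (hg : z ∈ isoGroup Q) (hz : z ^ N = 1) (hN : (N : F) ≠ 0) :
    IsProj Q (avgLin z N) where
  idem x := avg_of_fix hN (avg_fix hz x)
  adj x y := by
    rw [avgLin_apply, avgLin_apply, polar_smul_left, polar_smul_right]
    congr 1
    have hpol : ∀ (a : V) (s : Finset ℕ) (f : ℕ → V), polar Q (∑ i ∈ s, f i) a = ∑ i ∈ s, polar Q (f i) a := by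
      intro a s f
      exact map_sum ((polarBilin Q : LinearMap.BilinForm F V).flip a) f s
    have hpol' : ∀ (a : V) (s : Finset ℕ) (f : ℕ → V), polar Q a (∑ i ∈ s, f i) = ∑ i ∈ s, polar Q a (f i) := by
      intro a s f
      exact map_sum ((polarBilin Q : LinearMap.BilinForm F V) a) f s
    rw [hpol, hpol']
    have hzi : ∀ i, z ^ i ∈ isoGroup Q := fun i => Subgroup.pow_mem _ hg i
    have key : ∀ i, i < N → polar Q ((z ^ i) x) y = polar Q x ((z ^ (N - 1 - i + 1)) y) := by
      intro i hi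
      rw [polar_inv (hzi i)]
      congr 2
      have h1 : z ^ (N - 1 - i + 1) * z ^ i = 1 := by
        rw [← pow_add]
        have : N - 1 - i + 1 + i = N := by omega
        rw [this, hz]
      rw [inv_eq_of_mul_eq_one_left h1]
    rw [Finset.sum_congr rfl (fun i hi => key i (Finset.mem_range.1 hi))]
    rw [Finset.sum_range_reflect (fun i => polar Q x ((z ^ (i + 1)) y)) N, ← hpol', ← hpol', sum_shift hz y]

end avg

section glue

variable {π : V →ₗ[F] V}

/-- Glue two automorphisms along an idempotent. -/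
noncomputable def Gl (hπ : IsProj Q π) (A B : V ≃ₗ[F] V) (hA : ∀ x, π (A x) = A (π x)) (hB : ∀ x, π (B x) = B (π x)) :
    V ≃ₗ[F] V where
  toFun x := A (π x) + B (x - π x)
  invFun x := A.symm (π x) + B.symm (x - π x)
  map_add' x y := by
    simp only [map_add, map_sub]
    abel
  map_smul' c x := by
    simp only [map_smul, map_sub, smul_add, smul_sub, RingHom.id_apply]
  left_inv x := by
    have h1 : π (A (π x) + B (x - π x)) = A (π x) := by
      rw [map_add, hA, hB, hπ.idem, map_sub, hπ.idem, sub_self, map_zero, add_zero]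
    simp only
    rw [h1, add_sub_cancel_left]
    simp
  right_inv x := by
    have hA' : ∀ x, π (A.symm x) = A.symm (π x) := fun x => by
      apply A.injective
      rw [← hA]
      simp
    have hB' : ∀ x, π (B.symm x) = B.symm (π x) := fun x => by
      apply B.injective
      rw [← hB]
      simp
    have h1 : π (A.symm (π x) + B.symm (x - π x)) = A.symm (π x) := by
      rw [map_add, hA', hB', hπ.idem, map_sub, hπ.idem, sub_self, map_zero, add_zero]
    simp only
    rw [h1, add_sub_cancel_left]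
    simp

theorem Gl_apply (hπ : IsProj Q π) (A B : V ≃ₗ[F] V) (hA : ∀ x, π (A x) = A (π x)) (hB : ∀ x, π (B x) = B (π x)) (x : V) :
    Gl hπ A B hA hB x = A (π x) + B (x - π x) := rfl

theorem comm_pow {A : V ≃ₗ[F] V} (hA : ∀ x, π (A x) = A (π x)) (e : ℕ) : ∀ x, π ((A ^ e) x) = (A ^ e) (π x) := by
  induction e with
  | zero => intro x; rfl
  | succ e ih =>
    intro x
    rw [pow_succ]
    show π ((A ^ e) (A x)) = (A ^ e) (A (π x))
    rw [ih, hA]

theorem Gl_pow_apply (hπ : IsProj Q π) (A B : V ≃ₗ[F] V) (hA : ∀ x, π (A x) = A (π x)) (hB : ∀ x, π (B x) = B (π x))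
    (e : ℕ) (x : V) : (Gl hπ A B hA hB ^ e) x = (A ^ e) (π x) + (B ^ e) (x - π x) := by
  induction e generalizing x with
  | zero =>
    simp
  | succ e ih =>
    rw [pow_succ]
    show (Gl hπ A B hA hB ^ e) (Gl hπ A B hA hB x) = _
    rw [ih, Gl_apply]
    have h1 : π (A (π x) + B (x - π x)) = A (π x) := by
      rw [map_add, hA, hB, hπ.idem, map_sub, hπ.idem, sub_self, map_zero, add_zero]
    rw [h1, add_sub_cancel_left, pow_succ, pow_succ]
    rfl

theorem Gl_mem (hπ : IsProj Q π) {A B : V ≃ₗ[F] V} (hA : ∀ x, π (A x) = A (π x)) (hB : ∀ x, π (B x) = B (π x))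
    (hAi : A ∈ isoGroup Q) (hBi : B ∈ isoGroup Q) : Gl hπ A B hA hB ∈ isoGroup Q := by
  intro x
  rw [Gl_apply, map_add_eq, hAi, hBi, hπ.Q_split x]
  have h1 : polar Q (A (π x)) (B (x - π x)) = 0 := by
    have h2 : A (π x) = π (A (π x)) := by
      rw [hA, hπ.idem]
    have h3 : B (x - π x) = B x - π (B x) := by
      rw [map_sub, hB]
    rw [h2, h3]
    exact hπ.ortho _ _
  rw [h1, add_zero]

/-- Commuting with the idempotent for the identity. -/
theorem comm_one (x : V) : π ((1 : V ≃ₗ[F] V) x) = (1 : V ≃ₗ[F] V) (π x) := rfl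

/-- An isometry commuting with an idempotent splits. -/
theorem mul_Gl (hπ : IsProj Q π) (A : V ≃ₗ[F] V) (hA : ∀ x, π (A x) = A (π x)) :
    A = Gl hπ A 1 hA comm_one * Gl hπ 1 A comm_one hA := by
  ext x
  show A x = Gl hπ A 1 hA comm_one (Gl hπ 1 A comm_one hA x)
  rw [Gl_apply, Gl_apply]
  have h1 : π ((1 : V ≃ₗ[F] V) (π x) + A (x - π x)) = π x := by
    show π (π x + A (x - π x)) = π x
    rw [map_add, hπ.idem, hA, map_sub, hπ.idem, sub_self, map_zero, add_zero]
  rw [h1]
  show A x = A (π x) + (π x + A (x - π x) - π x)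
  rw [add_sub_cancel_left, ← map_add, add_sub_cancel]

theorem comm_Gl (hπ : IsProj Q π) (A B : V ≃ₗ[F] V) (hA : ∀ x, π (A x) = A (π x)) (hB : ∀ x, π (B x) = B (π x)) :
    Commute (Gl hπ A 1 hA comm_one) (Gl hπ 1 B comm_one hB) := by
  ext x
  show Gl hπ A 1 hA comm_one (Gl hπ 1 B comm_one hB x) = Gl hπ 1 B comm_one hB (Gl hπ A 1 hA comm_one x)
  rw [Gl_apply, Gl_apply, Gl_apply, Gl_apply]
  show A (π (π x + B (x - π x))) + ((π x + B (x - π x)) - π (π x + B (x - π x))) =
    π (A (π x) + (x - π x)) + B ((A (π x) + (x - π x)) - π (A (π x) + (x - π x)))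
  have h1 : π (π x + B (x - π x)) = π x := by
    rw [map_add, hπ.idem, hB, map_sub, hπ.idem, sub_self, map_zero, add_zero]
  have h2 : π (A (π x) + (x - π x)) = A (π x) := by
    rw [map_add, hA, hπ.idem, map_sub, hπ.idem, sub_self, add_zero]
  rw [h1, h2, add_sub_cancel_left, add_sub_cancel_left]

end glue

section rank1

variable [FiniteDimensional F V]

/-- Rank one projection onto a nonsingular vector. -/
noncomputable def pU (Q : QuadraticForm F V) (u : V) : V →ₗ[F] V :=
  ((2 * Q u)⁻¹ • pol Q u).smulRight u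

theorem pU_apply (u x : V) : pU Q u x = ((2 * Q u)⁻¹ * polar Q x u) • u := by
  simp [pU, LinearMap.smulRight_apply]

theorem pU_self (h2 : (2 : F) ≠ 0) {u : V} (hu : Q u ≠ 0) : pU Q u u = u := by
  rw [pU_apply, polar_self_eq, inv_mul_cancel₀ (mul_ne_zero h2 hu), one_smul]

theorem isProj_pU (h2 : (2 : F) ≠ 0) {u : V} (hu : Q u ≠ 0) : IsProj Q (pU Q u) where
  idem x := by
    conv_lhs => rw [pU_apply u x]
    rw [map_smul, pU_self h2 hu, pU_apply]
  adj x y := by
    rw [pU_apply, pU_apply, polar_smul_left, polar_smul_right, polar_comm Q u y]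
    simp only [smul_eq_mul]
    ring

theorem pU_of_ortho {u x : V} (h : polar Q x u = 0) : pU Q u x = 0 := by
  rw [pU_apply, h, mul_zero, zero_smul]

variable {π : V →ₗ[F] V}

/-- Removing a nonsingular vector from the range. -/
theorem sub_pU (h2 : (2 : F) ≠ 0) (hπ : IsProj Q π) {u : V} (hu : Q u ≠ 0) (hπu : π u = u) :
    IsProj Q (π - pU Q u) := by
  have h3 : ∀ x, π (pU Q u x) = pU Q u x := fun x => by
    rw [pU_apply, map_smul, hπu]
  have h4 : ∀ x, pU Q u (π x) = pU Q u x := fun x => by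
    rw [pU_apply, pU_apply, hπ.adj, hπu]
  constructor
  · intro x
    simp only [LinearMap.sub_apply, map_sub, hπ.idem, h3, h4]
    have := (isProj_pU h2 hu).idem x
    rw [this]
    abel
  · intro x y
    simp only [LinearMap.sub_apply, polar_sub_left, polar_sub_right, hπ.adj x y, (isProj_pU h2 hu).adj x y]

theorem sub_pU_self (h2 : (2 : F) ≠ 0) {u : V} (hu : Q u ≠ 0) (hπu : π u = u) : (π - pU Q u) u = 0 := by
  rw [LinearMap.sub_apply, hπu, pU_self h2 hu, sub_self]

theorem finrank_sub_pU (h2 : (2 : F) ≠ 0) (hπ : IsProj Q π) {u : V} (hu : Q u ≠ 0) (hπu : π u = u) :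
    finrank F (LinearMap.range (π - pU Q u)) + 1 = finrank F (LinearMap.range π) := by
  set π' := π - pU Q u with hπ'
  have hπ'p := sub_pU h2 hπ hu hπu
  have hu0 : u ≠ 0 := by
    rintro rfl
    simp at hu
  have h3 : π' u = 0 := sub_pU_self h2 hu hπu
  have hdisj : LinearMap.range π' ⊓ Submodule.span F {u} = ⊥ := by
    rw [Submodule.eq_bot_iff]
    rintro x ⟨hx1, hx2⟩
    obtain ⟨c, rfl⟩ := Submodule.mem_span_singleton.1 hx2
    have h4 : π' (c • u) = c • u := hπ'p.mem_range.1 hx1
    rw [map_smul, h3, smul_zero] at h4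
    exact h4.symm
  have hsup : LinearMap.range π' ⊔ Submodule.span F {u} = LinearMap.range π := by
    apply le_antisymm
    · rw [sup_le_iff]
      constructor
      · rintro _ ⟨y, rfl⟩
        rw [hπ.mem_range, hπ', LinearMap.sub_apply, map_sub, hπ.idem, pU_apply, map_smul, hπu]
      · rw [Submodule.span_singleton_le_iff_mem]
        exact hπ.mem_range.2 hπu
    · rintro _ ⟨y, rfl⟩
      have h5 : π y = π' y + pU Q u y := by
        rw [hπ', LinearMap.sub_apply]
        abel
      rw [h5]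
      refine Submodule.add_mem_sup ⟨y, rfl⟩ ?_
      rw [pU_apply]
      exact Submodule.smul_mem _ _ (Submodule.mem_span_singleton_self u)
  have h6 := Submodule.finrank_sup_add_finrank_inf_eq (LinearMap.range π') (Submodule.span F {u})
  rw [hdisj, hsup, finrank_bot, finrank_span_singleton hu0] at h6
  omega

theorem sub_pU_le {u : V} (h2 : (2 : F) ≠ 0) (hπ : IsProj Q π) (hu : Q u ≠ 0) (hπu : π u = u) {x : V}
    (hx : (π - pU Q u) x = x) : π x = x := by
  rw [← hx, LinearMap.sub_apply, map_sub, hπ.idem, pU_apply, map_smul, hπu]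

theorem sub_pU_ortho {u : V} (h2 : (2 : F) ≠ 0) (hπ : IsProj Q π) (hu : Q u ≠ 0) (hπu : π u = u) {x : V}
    (hx : (π - pU Q u) x = x) : polar Q x u = 0 := by
  have h3 := (sub_pU h2 hπ hu hπu).adj x u
  rw [sub_pU_self h2 hu hπu, polar_zero_right, hx] at h3
  exact h3

/-- A nonzero vector of the range pairs non-trivially with the range. -/
theorem exists_pair (hQ : (polarBilin Q).Nondegenerate) (hπ : IsProj Q π) {x : V} (hx : x ≠ 0) (hπx : π x = x) :
    ∃ z, π z = z ∧ polar Q x z ≠ 0 := by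
  by_contra hc
  push Not at hc
  apply hx
  apply hQ.1
  intro y
  show polar Q x y = 0
  have h1 := hc (π y) (hπ.idem y)
  rw [← hπ.adj, hπx] at h1
  exact h1

theorem exists_nonsing (h2 : (2 : F) ≠ 0) (hQ : (polarBilin Q).Nondegenerate) (hπ : IsProj Q π)
    (hr : 1 ≤ finrank F (LinearMap.range π)) : ∃ u, π u = u ∧ Q u ≠ 0 := by
  obtain ⟨x, hx, hx0⟩ : ∃ x ∈ LinearMap.range π, x ≠ 0 := by
    by_contra hc
    push Not at hc
    have : LinearMap.range π = ⊥ := (Submodule.eq_bot_iff _).2 hc
    rw [this, finrank_bot] at hr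
    omega
  have hπx := hπ.mem_range.1 hx
  obtain ⟨z, hz, hxz⟩ := exists_pair hQ hπ hx0 hπx
  by_cases h1 : Q x = 0
  · by_cases h3 : Q z = 0
    · refine ⟨x + z, by rw [map_add, hπx, hz], ?_⟩
      rw [map_add_eq, h1, h3, zero_add, zero_add]
      exact hxz
    · exact ⟨z, hz, h3⟩
  · exact ⟨x, hπx, h1⟩

/-- Binary forms over a finite field of odd characteristic represent everything. -/
theorem exists_sq_add_sq [Fintype F] (h2 : (2 : F) ≠ 0) {A B : F} (c : F) (hA : A ≠ 0) (hB : B ≠ 0) :
    ∃ x y : F, x ^ 2 * A + y ^ 2 * B = c := by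
  classical
  have hodd : Fintype.card F % 2 = 1 := by
    have h5 : ringChar F ≠ 2 := by
      intro h3
      apply h2
      have := ringChar.Nat.cast_ringChar (R := F)
      rw [h3] at this
      exact_mod_cast this
    exact FiniteField.odd_card_of_char_ne_two h5
  open Polynomial in
  obtain ⟨x, y, h⟩ := FiniteField.exists_root_sum_quadratic (f := C A * X ^ 2) (g := C B * X ^ 2 - C c)
    (by rw [degree_C_mul_X_pow 2 hA]; rfl)
    (by
      rw [degree_sub_C (by rw [degree_C_mul_X_pow 2 hB]; norm_num)]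
      rw [degree_C_mul_X_pow 2 hB]; rfl) hodd
  refine ⟨x, y, ?_⟩
  simp only [Polynomial.eval_mul, Polynomial.eval_C, Polynomial.eval_pow, Polynomial.eval_X,
    Polynomial.eval_sub] at h
  linear_combination h

/-- The range of a projection of rank at least two represents every value. -/
theorem exists_value [Fintype F] (h2 : (2 : F) ≠ 0) (hQ : (polarBilin Q).Nondegenerate) (hπ : IsProj Q π)
    (hr : 2 ≤ finrank F (LinearMap.range π)) (c : F) : ∃ v, π v = v ∧ Q v = c := by
  obtain ⟨u₁, h1, hu₁⟩ := exists_nonsing h2 hQ hπ (by omega)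
  have hπ' := sub_pU h2 hπ hu₁ h1
  have hrk := finrank_sub_pU h2 hπ hu₁ h1
  obtain ⟨u₂, h3, hu₂⟩ := exists_nonsing h2 hQ hπ' (by omega)
  have h4 := sub_pU_le h2 hπ hu₁ h1 h3
  have h5 := sub_pU_ortho h2 hπ hu₁ h1 h3
  obtain ⟨x, y, hxy⟩ := exists_sq_add_sq h2 c hu₁ hu₂
  refine ⟨x • u₁ + y • u₂, by rw [map_add, map_smul, map_smul, h1, h4], ?_⟩
  rw [map_add_eq, QuadraticMap.map_smul, QuadraticMap.map_smul, polar_smul_left, polar_smul_right,
    polar_comm Q u₁ u₂, h5]
  simp only [smul_eq_mul]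
  rw [← hxy]
  ring

end rank1

end Cfsg.Agent.Lib.OmNine.Proj
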