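import Mathlib
import Cfsg.Agent.Lib.OmNine.Proj

set_option autoImplicit false
set_option linter.unusedSectionVars false
set_option linter.unusedVariables false
set_option linter.unusedSimpArgs false

/-!
Long unipotent Jordan blocks: skew nilpotent chains inside the range of a projection and their
Cayley transforms.
-/

namespace Cfsg.Agent.Lib.OmNine.Chain

open QuadraticMap Module
open Cfsg.Agent.Lib.Witt.Quadratic Cfsg.Agent.Lib.Orth.Refl Cfsg.Agent.Lib.OmNine.Proj

universe u v

variable {F : Type u} {V : Type v} [Field F] [AddCommGroup V] [Module F V] {Q : QuadraticForm F V}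
  [FiniteDimensional F V]

/-- A hyperbolic pair in the range of a projection of rank at least three, with the complement. -/
theorem exists_hyp [Fintype F] (h2 : (2 : F) ≠ 0) (hQ : (polarBilin Q).Nondegenerate) {π : V →ₗ[F] V}
    (hπ : IsProj Q π) (hr : 3 ≤ finrank F (LinearMap.range π)) :
    ∃ e f : V, ∃ π' : V →ₗ[F] V, IsProj Q π' ∧ finrank F (LinearMap.range π') + 2 = finrank F (LinearMap.range π) ∧
      π e = e ∧ π f = f ∧ Q e = 0 ∧ Q f = 0 ∧ polar Q e f = 1 ∧
      (∀ x, π' x = x → π x = x ∧ polar Q x e = 0 ∧ polar Q x f = 0) ∧ π' e = 0 ∧ π' f = 0 := by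
  -- three orthogonal nonsingular vectors
  obtain ⟨u₁, h1, hu₁⟩ := exists_nonsing h2 hQ hπ (by omega)
  have hπ₁ := sub_pU h2 hπ hu₁ h1
  have hrk₁ := finrank_sub_pU h2 hπ hu₁ h1
  obtain ⟨u₂, h1₂, hu₂⟩ := exists_nonsing h2 hQ hπ₁ (by omega)
  have hπ₂ := sub_pU h2 hπ₁ hu₂ h1₂
  have hrk₂ := finrank_sub_pU h2 hπ₁ hu₂ h1₂
  obtain ⟨u₃, h2₃, hu₃⟩ := exists_nonsing h2 hQ hπ₂ (by omega)
  have h12 := sub_pU_ortho h2 hπ hu₁ h1 h1₂
  have h2' := sub_pU_le h2 hπ hu₁ h1 h1₂
  have h3' := sub_pU_le h2 hπ₁ hu₂ h1₂ h2₃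
  have h3'' := sub_pU_le h2 hπ hu₁ h1 h3'
  have h31 := sub_pU_ortho h2 hπ hu₁ h1 h3'
  have h32 := sub_pU_ortho h2 hπ₁ hu₂ h1₂ h2₃
  obtain ⟨x, y, hxy⟩ := exists_sq_add_sq h2 (- Q u₃) hu₁ hu₂
  obtain ⟨e, he⟩ : ∃ e, e = x • u₁ + y • u₂ + u₃ := ⟨_, rfl⟩
  have hπe : π e = e := by
    rw [he, map_add, map_add, map_smul, map_smul, h1, h2', h3'']
  have hQe : Q e = 0 := by
    rw [he, map_add_eq, map_add_eq, QuadraticMap.map_smul, QuadraticMap.map_smul, polar_smul_left, polar_smul_right,
      polar_add_left, polar_smul_left, polar_smul_left, polar_comm Q u₁ u₂, h12, polar_comm Q u₁ u₃, h31,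
      polar_comm Q u₂ u₃, h32]
    simp only [smul_eq_mul]
    linear_combination hxy
  have he0 : e ≠ 0 := by
    intro h0
    have h5 : polar Q e u₃ = 2 * Q u₃ := by
      rw [he, polar_add_left, polar_add_left, polar_smul_left, polar_smul_left, polar_comm Q u₁ u₃, h31,
        polar_comm Q u₂ u₃, h32, polar_self_eq]
      simp
    rw [h0, polar_zero_left] at h5
    exact mul_ne_zero h2 hu₃ h5.symm
  obtain ⟨z₀, hz₀, hez₀⟩ := exists_pair hQ hπ he0 hπe
  obtain ⟨z, hz⟩ : ∃ z, z = (polar Q e z₀)⁻¹ • z₀ := ⟨_, rfl⟩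
  have hez : polar Q e z = 1 := by
    rw [hz, polar_smul_right, smul_eq_mul, inv_mul_cancel₀ hez₀]
  have hπz : π z = z := by
    rw [hz, map_smul, hz₀]
  obtain ⟨f, hf⟩ : ∃ f, f = z - Q z • e := ⟨_, rfl⟩
  have hπf : π f = f := by
    rw [hf, map_sub, map_smul, hπz, hπe]
  have hef : polar Q e f = 1 := by
    rw [hf, polar_sub_right, polar_smul_right, hez, polar_self_eq, hQe]
    simp
  have hQf : Q f = 0 := by
    rw [hf, sub_eq_add_neg, map_add_eq, QuadraticMap.map_neg, QuadraticMap.map_smul, hQe, polar_neg_right,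
      polar_smul_right, polar_comm, hez]
    simp
  -- the two orthogonal vectors
  have hQp : Q (e + f) = 1 := by
    rw [map_add_eq, hQe, hQf, hef]
    simp
  have hQm : Q (e - f) = -1 := by
    rw [sub_eq_add_neg, map_add_eq, QuadraticMap.map_neg, polar_neg_right, hQe, hQf, hef]
    simp
  have hpm : polar Q (e - f) (e + f) = 0 := by
    rw [polar_sub_left, polar_add_right, polar_add_right, polar_self_eq, polar_self_eq, hQe, hQf, polar_comm Q f e, hef]
    simp
  have hQp0 : Q (e + f) ≠ 0 := by rw [hQp]; exact one_ne_zero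
  have hQm0 : Q (e - f) ≠ 0 := by rw [hQm]; exact neg_ne_zero.2 one_ne_zero
  have hπp : π (e + f) = e + f := by rw [map_add, hπe, hπf]
  have hπm : π (e - f) = e - f := by rw [map_sub, hπe, hπf]
  have hπ'1 := sub_pU h2 hπ hQp0 hπp
  have hrk'1 := finrank_sub_pU h2 hπ hQp0 hπp
  have hm1 : (π - pU Q (e + f)) (e - f) = e - f := by
    rw [LinearMap.sub_apply, hπm, pU_of_ortho hpm, sub_zero]
  have hπ'2 := sub_pU h2 hπ'1 hQm0 hm1
  have hrk'2 := finrank_sub_pU h2 hπ'1 hQm0 hm1
  refine ⟨e, f, (π - pU Q (e + f)) - pU Q (e - f), hπ'2, by omega, hπe, hπf, hQe, hQf, hef, ?_, ?_, ?_⟩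
  · intro t ht
    have h6 := sub_pU_le h2 hπ'1 hQm0 hm1 ht
    have h7 := sub_pU_le h2 hπ hQp0 hπp h6
    have h8 := sub_pU_ortho h2 hπ'1 hQm0 hm1 ht
    have h9 := sub_pU_ortho h2 hπ hQp0 hπp h6
    rw [polar_add_right] at h9
    rw [polar_sub_right] at h8
    refine ⟨h7, ?_, ?_⟩
    · have : (2 : F) * polar Q t e = 0 := by linear_combination h9 + h8
      exact (mul_eq_zero.1 this).resolve_left h2
    · have : (2 : F) * polar Q t f = 0 := by linear_combination h9 - h8
      exact (mul_eq_zero.1 this).resolve_left h2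
  · -- the two rank-one parts kill `e`
    have h6 : pU Q (e + f) e = (1 / 2 : F) • (e + f) := by
      rw [pU_apply, hQp, polar_add_right, polar_self_eq, hQe, hef]
      simp
    have h7 : pU Q (e - f) e = (1 / 2 : F) • (e - f) := by
      rw [pU_apply, hQm, polar_sub_right, polar_self_eq, hQe, hef]
      congr 1
      field_simp
      ring
    rw [LinearMap.sub_apply, LinearMap.sub_apply, hπe, h6, h7, ← sub_eq_zero.2 (rfl : e = e)]
    have h8 : e = (1 / 2 : F) • (e + f) + (1 / 2 : F) • (e - f) := by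
      rw [← smul_add]
      have : e + f + (e - f) = (2 : F) • e := by
        rw [two_smul]; abel
      rw [this, smul_smul]
      field_simp
      simp
    nth_rewrite 1 [h8]
    abel
  · have h6 : pU Q (e + f) f = (1 / 2 : F) • (e + f) := by
      rw [pU_apply, hQp, polar_add_right, polar_self_eq, hQf, polar_comm, hef]
      simp
    have h7 : pU Q (e - f) f = (-1 / 2 : F) • (e - f) := by
      rw [pU_apply, hQm, polar_sub_right, polar_self_eq, hQf, polar_comm, hef]
      congr 1
      field_simp
      ring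
    rw [LinearMap.sub_apply, LinearMap.sub_apply, hπf, h6, h7, ← sub_eq_zero.2 (rfl : f = f)]
    have h8 : f = (1 / 2 : F) • (e + f) + (-1 / 2 : F) • (e - f) := by
      have : (-1 / 2 : F) = -(1/2 : F) := by ring
      rw [this, neg_smul, ← sub_eq_add_neg, ← smul_sub]
      have : e + f - (e - f) = (2 : F) • f := by
        rw [two_smul]; abel
      rw [this, smul_smul]
      field_simp
      simp
    nth_rewrite 1 [h8]
    abel

/-- The skew map `z ↦ polar(z,a) b - polar(z,b) a`. -/
noncomputable def skewAB (Q : QuadraticForm F V) (a b : V) : V →ₗ[F] V :=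
  (pol Q a).smulRight b - (pol Q b).smulRight a

theorem skewAB_apply (a b z : V) : skewAB Q a b z = polar Q z a • b - polar Q z b • a := by
  simp only [skewAB, LinearMap.sub_apply, LinearMap.smulRight_apply]
  rw [pol_apply, pol_apply]

/-- `y - 1` as an endomorphism. -/
noncomputable def uni (y : V ≃ₗ[F] V) : Module.End F V := (y : V →ₗ[F] V) - LinearMap.id

theorem uni_apply (y : V ≃ₗ[F] V) (x : V) : uni y x = y x - x := rfl

/-- A skew nilpotent chain inside a projection. -/
structure IsChain (Q : QuadraticForm F V) (π : V →ₗ[F] V) (N : Module.End F V) (k : ℕ) : Prop where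
  skew : ∀ x y, polar Q (N x) y = - polar Q x (N y)
  range : ∀ x, π (N x) = N x
  nil : N ^ (k + 1) = 0

theorem IsChain.kill {π : V →ₗ[F] V} {N : Module.End F V} {k : ℕ} (hQ : (polarBilin Q).Nondegenerate)
    (hπ : IsProj Q π) (h : IsChain Q π N k) {x : V} (hx : π x = 0) : N x = 0 := by
  apply hQ.1
  intro y
  show polar Q (N x) y = 0
  rw [h.skew, ← h.range y, ← hπ.adj, hx, polar_zero_left, neg_zero]

/-- Existence of chains. -/
theorem chain [Fintype F] (h2 : (2 : F) ≠ 0) (hQ : (polarBilin Q).Nondegenerate) (r : ℕ) :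
    ∀ (π : V →ₗ[F] V), IsProj Q π → 2 * r + 1 ≤ finrank F (LinearMap.range π) →
      ∃ N : Module.End F V, IsChain Q π N (2 * r) ∧ ∃ x, π x = x ∧ polar Q ((N ^ (2 * r)) x) x ≠ 0 := by
  induction r with
  | zero =>
    intro π hπ hr
    obtain ⟨u, hu, hQu⟩ := exists_nonsing h2 hQ hπ (by omega)
    refine ⟨0, ⟨fun x y => by simp, fun x => by simp, by simp⟩, u, hu, ?_⟩
    simp only [mul_zero, pow_zero, Module.End.one_apply]
    rw [polar_self_eq]
    exact mul_ne_zero h2 hQu
  | succ r ih =>
    intro π hπ hr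
    obtain ⟨e, f, π', hπ', hrk, hπe, hπf, hQe, hQf, hef, hsub, hπ'e, hπ'f⟩ := exists_hyp h2 hQ hπ (by omega)
    obtain ⟨N', hN', x', hx', hpx'⟩ := ih π' hπ' (by omega)
    have hN'f : N' f = 0 := hN'.kill hQ hπ' hπ'f
    have hN'e : N' e = 0 := hN'.kill hQ hπ' hπ'e
    obtain ⟨hx'π, hx'e, hx'f⟩ := hsub x' hx'
    set N : Module.End F V := N' + skewAB Q e x' with hN
    have hNa : ∀ z, N z = N' z + (polar Q z e • x' - polar Q z x' • e) := fun z => by
      rw [hN, LinearMap.add_apply, skewAB_apply]
    have hNe : N e = 0 := by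
      rw [hNa, hN'e, polar_self_eq, hQe, polar_comm, hx'e]
      simp
    have hNf : N f = x' := by
      rw [hNa, hN'f, polar_comm, hef, polar_comm Q f x', hx'f]
      simp
    -- action on the range of `π'`
    have hNy : ∀ y, π' y = y → N y = N' y - polar Q y x' • e := by
      intro y hy
      rw [hNa, (hsub y hy).2.1]
      simp only [zero_smul, zero_sub]
      abel
    have hrange' : ∀ k y, π' y = y → π' ((N' ^ k) y) = (N' ^ k) y := by
      intro k y hy
      induction k with
      | zero => simpa using hy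
      | succ k ih =>
        rw [pow_succ']
        exact hN'.range _
    have hpow : ∀ k y, π' y = y → (N ^ (k + 1)) y = (N' ^ (k + 1)) y - polar Q ((N' ^ k) y) x' • e := by
      intro k y hy
      induction k with
      | zero =>
        simp only [zero_add, pow_one, pow_zero, Module.End.one_apply]
        exact hNy y hy
      | succ k ih =>
        rw [pow_succ', Module.End.mul_apply, ih, map_sub, map_smul, hNe, smul_zero, sub_zero,
          hNy _ (hrange' _ _ hy), ← Module.End.mul_apply, ← pow_succ']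
    refine ⟨N, ⟨?_, ?_, ?_⟩, f, hπf, ?_⟩
    · intro a b
      rw [hNa, hNa, polar_add_left, polar_add_right, hN'.skew, polar_sub_left, polar_sub_right, polar_smul_left,
        polar_smul_left, polar_smul_right, polar_smul_right, polar_comm Q x' b, polar_comm Q e b]
      simp only [smul_eq_mul]
      ring
    · intro z
      have h5 : π (N' z) = N' z := (hsub _ (hN'.range z)).1
      rw [hNa, map_add, map_sub, map_smul, map_smul, h5, hπe, hx'π]
    · ext1 z
      have h5 : π' (N' z + polar Q z e • x') = N' z + polar Q z e • x' := by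
        rw [map_add, map_smul, hN'.range, hx']
      have hNz : N z = (N' z + polar Q z e • x') - polar Q z x' • e := by
        rw [hNa]
        abel
      have h6 : 2 * (r + 1) + 1 = (2 * r + 1 + 1) + 1 := by ring
      have h7 : (N ^ (2 * (r + 1) + 1)) z = (N ^ (2 * r + 1 + 1)) (N z) := by
        rw [h6, pow_succ]
        rfl
      have h8 : (N ^ (2 * r + 1 + 1)) e = 0 := by
        rw [pow_succ, Module.End.mul_apply, hNe, map_zero]
      have h9 : N' ^ (2 * r + 1 + 1) = 0 := by rw [pow_succ, hN'.nil, zero_mul]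
      rw [h7, hNz, map_sub, map_smul, h8, smul_zero, sub_zero, hpow (2 * r + 1) _ h5, h9, hN'.nil]
      simp
    · have h6 : 2 * (r + 1) = (2 * r + 1) + 1 := by ring
      rw [h6, pow_succ, Module.End.mul_apply, hNf, hpow (2 * r) x' hx', hN'.nil]
      simp only [LinearMap.zero_apply, zero_sub, polar_neg_left, polar_smul_left, hef, smul_eq_mul, mul_one]
      exact neg_ne_zero.2 hpx'

/-- From a skew nilpotent chain to a unipotent isometry (the Cayley transform). -/
theorem cayley (h2 : (2 : F) ≠ 0) (hQ : (polarBilin Q).Nondegenerate) {π : V →ₗ[F] V} (hπ : IsProj Q π)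
    {N : Module.End F V} {k : ℕ} (hN : IsChain Q π N k) :
    ∃ y : V ≃ₗ[F] V, y ∈ isoGroup Q ∧ (∀ x, π x = 0 → y x = x) ∧ (∀ x, π (y x) = y (π x)) ∧
      (uni y ^ (k + 1) = 0) ∧ ∀ x, π x = x → ∃ x', π x' = x' ∧ (uni y ^ k) x' = (N ^ k) x := by
  classical
  set M : Module.End F V := (2 : F)⁻¹ • N with hM
  have hMnil : IsNilpotent M := by
    refine ⟨k + 1, ?_⟩
    rw [hM, smul_pow, hN.nil, smul_zero]
  have hU1 : IsUnit (1 - M) := hMnil.isUnit_one_sub
  have hU2 : IsUnit (1 + M) := hMnil.isUnit_one_add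
  obtain ⟨L, hL⟩ := hU1
  obtain ⟨R, hR⟩ := hU2
  have hLM : Commute ((L⁻¹ : (Module.End F V)ˣ) : Module.End F V) M := by
    have h3 : Commute (L : Module.End F V) M := by
      rw [hL]
      exact (Commute.one_left M).sub_left (Commute.refl M)
    exact h3.units_inv_left
  set Li : Module.End F V := ((L⁻¹ : (Module.End F V)ˣ) : Module.End F V) with hLi
  have hLLi : (1 - M) * Li = 1 := by
    rw [← hL]
    exact L.mul_inv
  have hLiL : Li * (1 - M) = 1 := by
    rw [← hL]
    exact L.inv_mul
  set u : (Module.End F V)ˣ := R * L⁻¹ with hu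
  set y : V ≃ₗ[F] V := LinearMap.GeneralLinearGroup.generalLinearEquiv F V u with hy
  have hya : ∀ x, y x = (1 + M) (Li x) := by
    intro x
    show (u : Module.End F V) x = _
    rw [hu, Units.val_mul, hR]
    rfl
  have hNM : ∀ x, N x = (2 : F) • M x := fun x => by
    rw [hM, LinearMap.smul_apply, smul_smul, mul_inv_cancel₀ h2, one_smul]
  have hMskew : ∀ a b, polar Q (M a) b = - polar Q a (M b) := fun a b => by
    rw [hM, LinearMap.smul_apply, LinearMap.smul_apply, polar_smul_left, polar_smul_right, hN.skew]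
    simp
  have hMself : ∀ a, polar Q a (M a) = 0 := fun a => by
    have h3 := hMskew a a
    rw [polar_comm] at h3
    have h4 : (2 : F) * polar Q a (M a) = 0 := by linear_combination h3
    exact (mul_eq_zero.1 h4).resolve_left h2
  have hLa : ∀ x, x = Li x - M (Li x) := fun x => by
    have h3 := congrArg (fun T : Module.End F V => T x) hLLi
    simpa using h3.symm
  have hyiso : y ∈ isoGroup Q := by
    intro x
    rw [hya]
    conv_rhs => rw [hLa x]
    set w := Li x
    show Q (w + M w) = Q (w - M w)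
    rw [map_add_eq, sub_eq_add_neg, map_add_eq, QuadraticMap.map_neg, polar_neg_right, hMself]
    simp
  -- `π` and `M`
  have hπMr : ∀ x, π (M x) = M x := fun x => by
    rw [hM, LinearMap.smul_apply, map_smul, hN.range]
  have hkill : ∀ x, π x = 0 → M x = 0 := fun x hx => by
    rw [hM, LinearMap.smul_apply, hN.kill hQ hπ hx, smul_zero]
  have hMπ : ∀ x, M (π x) = M x := fun x => by
    have h3 : M (x - π x) = 0 := hkill _ (by rw [map_sub, hπ.idem, sub_self])
    rw [map_sub, sub_eq_zero] at h3
    exact h3.symm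
  have hπL : ∀ x, π (Li x) = Li (π x) := by
    intro x
    -- `Li π = Li π L Li = Li L π Li = π Li`
    have h3 : ∀ z, π ((1 - M) z) = (1 - M : Module.End F V) (π z) := fun z => by
      simp only [LinearMap.sub_apply, Module.End.one_apply, map_sub, hπMr, hMπ]
    have h4 : (1 - M : Module.End F V) (π (Li x)) = (1 - M : Module.End F V) (Li (π x)) := by
      rw [← h3]
      have h5 : (1 - M : Module.End F V) (Li x) = x := by
        have := congrArg (fun T : Module.End F V => T x) hLLi
        simpa using this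
      have h6 : (1 - M : Module.End F V) (Li (π x)) = π x := by
        have := congrArg (fun T : Module.End F V => T (π x)) hLLi
        simpa using this
      rw [h5, h6]
    have hinj : Function.Injective (1 - M : Module.End F V) := by
      intro a b hab
      have := congrArg Li hab
      have h5 : ∀ z, Li ((1 - M : Module.End F V) z) = z := fun z => by
        have := congrArg (fun T : Module.End F V => T z) hLiL
        simpa using this
      rwa [h5, h5] at this
    exact hinj h4
  have hAeq : uni y = N * Li := by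
    ext1 x
    rw [uni_apply, hya, Module.End.mul_apply]
    conv_lhs =>
      rw [LinearMap.add_apply, Module.End.one_apply]
      rw [show Li x + M (Li x) - x = Li x + M (Li x) - (Li x - M (Li x)) by rw [← hLa x]]
    rw [hNM, two_smul]
    abel
  have hcommNL : Commute N Li := by
    have h3 : N = (2 : F) • M := by
      ext1 x
      rw [hNM]
      rfl
    rw [h3]
    exact Commute.smul_left hLM.symm _
  have hApow : ∀ n, uni y ^ n = N ^ n * Li ^ n := fun n => by
    rw [hAeq, hcommNL.mul_pow]
  refine ⟨y, hyiso, ?_, ?_, ?_, ?_⟩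
  · intro x hx
    have h3 : Li x = x := by
      have h4 := hLa (Li x)
      have h5 : (1 - M : Module.End F V) (Li x) = x := by
        have := congrArg (fun T : Module.End F V => T x) hLLi
        simpa using this
      have h6 : π (Li x) = 0 := by rw [hπL, hx, map_zero]
      have h7 : (1 - M : Module.End F V) (Li x) = Li x := by
        simp [hkill _ h6]
      rw [← h7, h5]
    rw [hya, h3]
    simp [hkill x hx]
  · intro x
    rw [hya, hya]
    simp only [LinearMap.add_apply, Module.End.one_apply, map_add, hπMr, hπL, hMπ]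
    rw [← hπL, hMπ]
  · rw [hApow, hN.nil, zero_mul]
  · intro x hx
    refine ⟨((1 - M : Module.End F V) ^ k) x, ?_, ?_⟩
    · have h3 : ∀ n, π (((1 - M : Module.End F V) ^ n) x) = ((1 - M : Module.End F V) ^ n) x := by
        intro n
        induction n with
        | zero => simpa using hx
        | succ n ih =>
          rw [pow_succ', Module.End.mul_apply]
          simp only [LinearMap.sub_apply, Module.End.one_apply, map_sub, hπMr, ih]
      exact h3 k
    · have hcomm : Commute Li (1 - M) := by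
        rw [Commute, SemiconjBy, hLiL, hLLi]
      rw [hApow, Module.End.mul_apply, ← Module.End.mul_apply (Li ^ k), ← hcomm.mul_pow, hLiL, one_pow]
      rfl

/-- A unipotent isometry with a long Jordan block inside the range of a projection. -/
theorem exists_unipotent [Fintype F] (h2 : (2 : F) ≠ 0) (hQ : (polarBilin Q).Nondegenerate) {π : V →ₗ[F] V}
    (hπ : IsProj Q π) (r : ℕ) (hr : 2 * r + 1 ≤ finrank F (LinearMap.range π)) :
    ∃ y : V ≃ₗ[F] V, y ∈ isoGroup Q ∧ (∀ x, π x = 0 → y x = x) ∧ (∀ x, π (y x) = y (π x)) ∧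
      (uni y ^ (2 * r + 1) = 0) ∧ ∃ x, π x = x ∧ (uni y ^ (2 * r)) x ≠ 0 := by
  obtain ⟨N, hN, x, hx, hpx⟩ := chain h2 hQ r π hπ hr
  obtain ⟨y, h1, h3, h4, h5, h6⟩ := cayley h2 hQ hπ hN
  obtain ⟨x', h7, h8⟩ := h6 x hx
  refine ⟨y, h1, h3, h4, h5, x', h7, ?_⟩
  rw [h8]
  intro h0
  rw [h0, polar_zero_left] at hpx
  exact hpx rfl

end Cfsg.Agent.Lib.OmNine.Chain
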