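import Mathlib
import Cfsg.Agent.Lib.OmNine.Chain
import Cfsg.Agent.Lib.Orth.Omega

set_option autoImplicit false
set_option linter.unusedSectionVars false
set_option linter.unusedVariables false
set_option linter.unusedSimpArgs false

/-!
Isometries of a subspace extended by the identity: the invariants `rp`, `sn`, the order; the converse;
existence of embeddings. Also the elements with trivial invariants.
-/

namespace Cfsg.Agent.Lib.OmNine.Lift

open QuadraticMap Module
open Cfsg.Agent.Lib.Witt.Quadratic Cfsg.Agent.Lib.Orth.Refl Cfsg.Agent.Lib.Orth.Spin Cfsg.Agent.Lib.Orth.Gen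
  Cfsg.Agent.Lib.Orth.Omega Cfsg.Agent.Lib.OmNine.Proj

universe u v w

section base

variable {F : Type u} {V : Type v} [Field F] [AddCommGroup V] [Module F V] {Q : QuadraticForm F V}
  [FiniteDimensional F V] [Finite F]

theorem hcase2 (h2 : (2 : F) ≠ 0) : ∃ c : F, c ≠ 0 ∧ c ≠ 1 := by
  refine ⟨2, h2, fun h => ?_⟩
  have : (1 : F) = 0 := by linear_combination h
  exact one_ne_zero this

theorem hgenO (h2 : (2 : F) ≠ 0) (hQ : (polarBilin Q).Nondegenerate) : ∀ g ∈ isoGroup Q, g ∈ W Q :=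
  fun g hg => mem_W hQ (Or.inl (hcase2 h2)) hg

/-- Elements with trivial invariants. -/
structure IsOm (Q : QuadraticForm F V) (g : V ≃ₗ[F] V) : Prop where
  mem : g ∈ isoGroup Q
  rp0 : rp g = 0
  sn0 : sn Q g = 0

variable (h2 : (2 : F) ≠ 0) (hQ : (polarBilin Q).Nondegenerate)
include h2 hQ

theorem rpM {g h : V ≃ₗ[F] V} (hg : g ∈ isoGroup Q) (hh : h ∈ isoGroup Q) : rp (g * h) = rp g + rp h :=
  rp_mul hQ (hgenO h2 hQ) hg hh

theorem snM {g h : V ≃ₗ[F] V} (hg : g ∈ isoGroup Q) (hh : h ∈ isoGroup Q) : sn Q (g * h) = sn Q g + sn Q h :=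
  sn_mul hQ (hgenO h2 hQ) hg hh

theorem rp_pow' {g : V ≃ₗ[F] V} (hg : g ∈ isoGroup Q) (n : ℕ) : rp (g ^ n) = (n : ZMod 2) * rp g := by
  induction n with
  | zero => simpa using rp_one
  | succ n ih =>
    rw [pow_succ, rpM h2 hQ (Subgroup.pow_mem _ hg n) hg, ih]
    push_cast
    ring

theorem sn_pow' {g : V ≃ₗ[F] V} (hg : g ∈ isoGroup Q) (n : ℕ) : sn Q (g ^ n) = (n : ZMod 2) * sn Q g := by
  induction n with
  | zero => simpa using sn_one hQ
  | succ n ih =>
    rw [pow_succ, snM h2 hQ (Subgroup.pow_mem _ hg n) hg, ih]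
    push_cast
    ring

theorem isOm_of_odd {g : V ≃ₗ[F] V} (hg : g ∈ isoGroup Q) {n : ℕ} (hn : Odd n) (h1 : g ^ n = 1) : IsOm Q g := by
  have hn2 : (n : ZMod 2) = 1 := by
    obtain ⟨k, rfl⟩ := hn
    push_cast
    have : (2 : ZMod 2) = 0 := by decide
    rw [this]
    simp
  refine ⟨hg, ?_, ?_⟩
  · have := rp_pow' h2 hQ hg n
    rw [h1, rp_one, hn2, one_mul] at this
    exact this.symm
  · have := sn_pow' h2 hQ hg n
    rw [h1, sn_one hQ, hn2, one_mul] at this
    exact this.symm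

theorem IsOm.mul' {g h : V ≃ₗ[F] V} (hg : IsOm Q g) (hh : IsOm Q h) : IsOm Q (g * h) :=
  ⟨Subgroup.mul_mem _ hg.mem hh.mem, by rw [rpM h2 hQ hg.mem hh.mem, hg.rp0, hh.rp0, add_zero],
    by rw [snM h2 hQ hg.mem hh.mem, hg.sn0, hh.sn0, add_zero]⟩

theorem IsOm.pow' {g : V ≃ₗ[F] V} (hg : IsOm Q g) (n : ℕ) : IsOm Q (g ^ n) :=
  ⟨Subgroup.pow_mem _ hg.mem n, by rw [rp_pow' h2 hQ hg.mem, hg.rp0, mul_zero],
    by rw [sn_pow' h2 hQ hg.mem, hg.sn0, mul_zero]⟩

theorem rp_inv' {g : V ≃ₗ[F] V} (hg : g ∈ isoGroup Q) : rp g⁻¹ = rp g := by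
  have h1 := rpM h2 hQ (Subgroup.inv_mem _ hg) hg
  rw [inv_mul_cancel, rp_one] at h1
  have h3 : ∀ a b : ZMod 2, 0 = a + b → a = b := by decide
  exact h3 _ _ h1

theorem sn_inv' {g : V ≃ₗ[F] V} (hg : g ∈ isoGroup Q) : sn Q g⁻¹ = sn Q g := by
  have h1 := snM h2 hQ (Subgroup.inv_mem _ hg) hg
  rw [inv_mul_cancel, sn_one hQ] at h1
  have h3 : ∀ a b : ZMod 2, 0 = a + b → a = b := by decide
  exact h3 _ _ h1

theorem rp_conj {g t : V ≃ₗ[F] V} (hg : g ∈ isoGroup Q) (ht : t ∈ isoGroup Q) : rp (t * g * t⁻¹) = rp g := by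
  rw [rpM h2 hQ (Subgroup.mul_mem _ ht hg) (Subgroup.inv_mem _ ht), rpM h2 hQ ht hg, rp_inv' h2 hQ ht]
  have h3 : ∀ a b : ZMod 2, a + b + a = b := by decide
  exact h3 _ _

theorem sn_conj {g t : V ≃ₗ[F] V} (hg : g ∈ isoGroup Q) (ht : t ∈ isoGroup Q) : sn Q (t * g * t⁻¹) = sn Q g := by
  rw [snM h2 hQ (Subgroup.mul_mem _ ht hg) (Subgroup.inv_mem _ ht), snM h2 hQ ht hg, sn_inv' h2 hQ ht]
  have h3 : ∀ a b : ZMod 2, a + b + a = b := by decide
  exact h3 _ _

theorem IsOm.conj' {g t : V ≃ₗ[F] V} (hg : IsOm Q g) (ht : t ∈ isoGroup Q) : IsOm Q (t * g * t⁻¹) :=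
  ⟨Subgroup.mul_mem _ (Subgroup.mul_mem _ ht hg.mem) (Subgroup.inv_mem _ ht),
    by rw [rp_conj h2 hQ hg.mem ht, hg.rp0], by rw [sn_conj h2 hQ hg.mem ht, hg.sn0]⟩

end base

section lift

variable {F : Type u} {Y : Type v} {V : Type w} [Field F] [AddCommGroup V] [Module F V] [AddCommGroup Y] [Module F Y]
  {QY : QuadraticForm F Y} {Q : QuadraticForm F V} [FiniteDimensional F V] [FiniteDimensional F Y]

/-- The adjoint of an embedding. -/
noncomputable def adjι (hY : (polarBilin QY).Nondegenerate) (ι : Y →ₗ[F] V) : V →ₗ[F] Y :=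
  ((LinearMap.BilinForm.toDual (polarBilin QY) hY).symm : Dual F Y →ₗ[F] Y) ∘ₗ
    (LinearMap.lcomp (R := F) (S := F) F ι) ∘ₗ (polarBilin Q : V →ₗ[F] V →ₗ[F] F)

variable (hY : (polarBilin QY).Nondegenerate) {ι : Y →ₗ[F] V} (hι : ∀ y, Q (ι y) = QY y)

theorem polar_adj (x : V) (y : Y) : polar QY (adjι (Q := Q) hY ι x) y = polar Q x (ι y) :=
  LinearMap.BilinForm.apply_toDual_symm_apply (B := polarBilin QY) (hB := hY) _ y

include hι

theorem polar_ι (x y : Y) : polar Q (ι x) (ι y) = polar QY x y := by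
  simp only [polar, ← map_add, hι]

theorem adj_ι (y : Y) : adjι (Q := Q) hY ι (ι y) = y := by
  have h1 : ∀ z, polar QY (adjι (Q := Q) hY ι (ι y) - y) z = 0 := fun z => by
    rw [polar_sub_left, polar_adj, polar_ι hι, sub_self]
  have h3 := hY.1 _ h1
  exact sub_eq_zero.1 h3

omit hι in
/-- The underlying linear map of the extension. -/
noncomputable def liftF (hY : (polarBilin QY).Nondegenerate) (ι : Y →ₗ[F] V) (g : Y ≃ₗ[F] Y) : V →ₗ[F] V :=
  LinearMap.id + ι ∘ₗ ((g : Y →ₗ[F] Y) - LinearMap.id) ∘ₗ adjι (Q := Q) hY ι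

omit hι in
theorem liftF_apply (g : Y ≃ₗ[F] Y) (x : V) :
    liftF (Q := Q) hY ι g x = x + ι (g (adjι (Q := Q) hY ι x) - adjι (Q := Q) hY ι x) := rfl

theorem adj_liftF (g : Y ≃ₗ[F] Y) (x : V) :
    adjι (Q := Q) hY ι (liftF (Q := Q) hY ι g x) = g (adjι (Q := Q) hY ι x) := by
  rw [liftF_apply, map_add, adj_ι hY hι, add_sub_cancel]

theorem liftF_mul (g g' : Y ≃ₗ[F] Y) (x : V) :
    liftF (Q := Q) hY ι g (liftF (Q := Q) hY ι g' x) = liftF (Q := Q) hY ι (g * g') x := by
  rw [liftF_apply hY g, adj_liftF hY hι, liftF_apply hY g' x, liftF_apply hY (g * g') x, add_assoc, ← map_add]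
  congr 2
  show _ = g (g' _) - _
  abel

omit hι in
theorem liftF_one (x : V) : liftF (Q := Q) hY ι 1 x = x := by
  rw [liftF_apply]
  show x + ι (_ - _) = x
  simp

/-- The extension of an automorphism by the identity. -/
noncomputable def liftE (hY : (polarBilin QY).Nondegenerate) (ι : Y →ₗ[F] V) (hι : ∀ y, Q (ι y) = QY y) :
    (Y ≃ₗ[F] Y) →* (V ≃ₗ[F] V) where
  toFun g :=
    { toFun := liftF (Q := Q) hY ι g
      invFun := liftF (Q := Q) hY ι g⁻¹
      map_add' := map_add _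
      map_smul' := map_smul _
      left_inv := fun x => by
        show liftF hY ι g⁻¹ (liftF hY ι g x) = x
        rw [liftF_mul hY hι, inv_mul_cancel, liftF_one]
      right_inv := fun x => by
        show liftF hY ι g (liftF hY ι g⁻¹ x) = x
        rw [liftF_mul hY hι, mul_inv_cancel, liftF_one] }
  map_one' := by
    ext x
    exact liftF_one hY x
  map_mul' a b := by
    ext x
    exact (liftF_mul hY hι a b x).symm

theorem liftE_apply (g : Y ≃ₗ[F] Y) (x : V) :
    liftE hY ι hι g x = x + ι (g (adjι (Q := Q) hY ι x) - adjι (Q := Q) hY ι x) := rfl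

theorem liftE_ι (g : Y ≃ₗ[F] Y) (y : Y) : liftE hY ι hι g (ι y) = ι (g y) := by
  rw [liftE_apply, adj_ι hY hι]
  simp

include hY in
theorem ι_inj : Function.Injective ι := fun a b hab => by
  have := congrArg (adjι (Q := Q) hY ι) hab
  rwa [adj_ι hY hι, adj_ι hY hι] at this

theorem liftE_injective : Function.Injective (liftE hY ι hι) := by
  intro a b hab
  ext y
  have h1 := DFunLike.congr_fun hab (ι y)
  rw [liftE_ι, liftE_ι] at h1
  exact ι_inj hY hι h1

theorem orderOf_liftE (g : Y ≃ₗ[F] Y) : orderOf (liftE hY ι hι g) = orderOf g :=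
  orderOf_injective _ (liftE_injective hY hι) g

/-- The projection onto the image. -/
noncomputable def prι (hY : (polarBilin QY).Nondegenerate) (ι : Y →ₗ[F] V) : V →ₗ[F] V :=
  ι ∘ₗ adjι (Q := Q) hY ι

omit hι in
theorem prι_apply (x : V) : prι (Q := Q) hY ι x = ι (adjι (Q := Q) hY ι x) := rfl

theorem isProj_prι : IsProj Q (prι (Q := Q) hY ι) where
  idem x := by rw [prι_apply, prι_apply, adj_ι hY hι]
  adj x y := by
    rw [prι_apply, prι_apply, polar_comm Q (ι _) y, ← polar_adj hY, ← polar_adj hY, polar_comm QY]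

theorem range_prι : LinearMap.range (prι (Q := Q) hY ι) = LinearMap.range ι := by
  apply le_antisymm
  · rintro _ ⟨x, rfl⟩
    exact ⟨_, rfl⟩
  · rintro _ ⟨y, rfl⟩
    exact ⟨ι y, by rw [prι_apply, adj_ι hY hι]⟩

theorem rank_prι : finrank F (LinearMap.range (prι (Q := Q) hY ι)) = finrank F Y := by
  rw [range_prι hY hι]
  exact LinearMap.finrank_range_of_inj (ι_inj hY hι)

theorem liftE_mem {g : Y ≃ₗ[F] Y} (hg : g ∈ isoGroup QY) : liftE hY ι hι g ∈ isoGroup Q := by
  intro x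
  rw [liftE_apply]
  -- write `x = ι a + c` with `c` orthogonal to the image
  set a := adjι (Q := Q) hY ι x with ha
  set c := x - ι a with hc
  have hx : x = ι a + c := by rw [hc]; abel
  have hortho : ∀ y, polar Q (ι y) c = 0 := fun y => by
    rw [hc, polar_sub_right, polar_ι hι, polar_comm Q (ι y) x, ← polar_adj hY, polar_comm QY y a, ← ha, sub_self]
  have h1 : x + ι (g a - a) = ι (g a) + c := by
    rw [map_sub, hc]
    abel
  rw [h1, map_add_eq, hortho, add_zero, hι, hg]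
  conv_rhs => rw [hx, map_add_eq, hortho, add_zero, hι]

theorem liftE_refl {v : Y} : liftE hY ι hι (refl QY v) = refl Q (ι v) := by
  ext x
  rw [liftE_apply]
  simp only [refl_apply, hι, polar_adj, map_sub, map_smul]
  simp only [sub_sub_cancel_left, map_neg, map_smul]
  abel

/-- Reflection words extend to reflection words with the same values. -/
theorem liftE_word (vs : List Y) :
    liftE hY ι hι (vs.map (refl QY)).prod = ((vs.map ι).map (refl Q)).prod := by
  induction vs with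
  | nil => simp
  | cons v vs ih =>
    simp only [List.map_cons, List.prod_cons, map_mul, ih]
    rw [liftE_refl]

variable [Finite F] (h2 : (2 : F) ≠ 0) (hQ : (polarBilin Q).Nondegenerate)

include h2 hQ hι

theorem rp_liftE {g : Y ≃ₗ[F] Y} (hg : g ∈ isoGroup QY) : rp (liftE hY ι hι g) = rp g := by
  have hW : g ∈ W QY := hgenO h2 hY g hg
  obtain ⟨vs, hvs, rfl⟩ := exists_list_of_mem_W hW
  have hvs' : ∀ v ∈ vs.map ι, Q v ≠ 0 := by
    intro v hv
    obtain ⟨w, hw, rfl⟩ := List.mem_map.1 hv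
    rw [hι]
    exact hvs w hw
  rw [liftE_word hY hι vs, (rp_word hQ _ hvs').2.1, (rp_word hY _ hvs).2.1, List.length_map]

theorem sn_liftE {g : Y ≃ₗ[F] Y} (hg : g ∈ isoGroup QY) : sn Q (liftE hY ι hι g) = sn QY g := by
  have hW : g ∈ W QY := hgenO h2 hY g hg
  obtain ⟨vs, hvs, rfl⟩ := exists_list_of_mem_W hW
  have hvs' : ∀ v ∈ vs.map ι, Q v ≠ 0 := by
    intro v hv
    obtain ⟨w, hw, rfl⟩ := List.mem_map.1 hv
    rw [hι]
    exact hvs w hw
  rw [liftE_word hY hι vs, (rp_word hQ _ hvs').2.2, (rp_word hY _ hvs).2.2, List.map_map]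
  congr 1
  refine List.map_congr_left fun v _ => ?_
  show sqc (Q (ι v)) = sqc (QY v)
  rw [hι]

theorem isOm_liftE {g : Y ≃ₗ[F] Y} (hg : IsOm QY g) : IsOm Q (liftE hY ι hι g) :=
  ⟨liftE_mem hY hι hg.mem, by rw [rp_liftE hY hι h2 hQ hg.mem, hg.rp0], by rw [sn_liftE hY hι h2 hQ hg.mem, hg.sn0]⟩

omit h2 hQ [Finite F] in
/-- Converse: an isometry which is trivial on the orthogonal complement of the image comes from the subspace. -/
theorem exists_lift_of_fix (hQ : (polarBilin Q).Nondegenerate) {g : V ≃ₗ[F] V} (hg : g ∈ isoGroup Q)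
    (hfix : ∀ x, adjι (Q := Q) hY ι x = 0 → g x = x) :
    ∃ g₁ : Y ≃ₗ[F] Y, g₁ ∈ isoGroup QY ∧ liftE hY ι hι g₁ = g := by
  have hinv : ∀ x, adjι (Q := Q) hY ι x = 0 → g⁻¹ x = x := fun x hx => by
    conv_lhs => rw [← hfix x hx]
    show (g⁻¹ * g) x = x
    rw [inv_mul_cancel]
    rfl
  have hker : ∀ x, adjι (Q := Q) hY ι (x - prι (Q := Q) hY ι x) = 0 := fun x => by
    rw [map_sub, prι_apply, adj_ι hY hι, sub_self]
  have hgι : ∀ (h : V ≃ₗ[F] V), h ∈ isoGroup Q → (∀ x, adjι (Q := Q) hY ι x = 0 → h⁻¹ x = x) → ∀ y,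
      h (ι y) = ι (adjι (Q := Q) hY ι (h (ι y))) := by
    intro h hh hh' y
    -- `h (ι y) - prι (h (ι y))` is orthogonal to everything
    have h1 : ∀ z, polar Q (h (ι y) - ι (adjι (Q := Q) hY ι (h (ι y)))) z = 0 := by
      intro z
      have hπ := isProj_prι (Q := Q) hY hι
      have h3 : polar Q (h (ι y) - prι (Q := Q) hY ι (h (ι y))) (prι (Q := Q) hY ι z) = 0 := by
        have := hπ.ortho z (h (ι y))
        rw [polar_comm]
        exact this
      have h4 : polar Q (h (ι y)) (z - prι (Q := Q) hY ι z) = 0 := by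
        rw [polar_inv hh, hh' _ (hker z)]
        have := hπ.ortho (ι y) z
        have h5 : prι (Q := Q) hY ι (ι y) = ι y := by rw [prι_apply, adj_ι hY hι]
        rwa [h5] at this
      have h5 : polar Q (prι (Q := Q) hY ι (h (ι y))) (z - prι (Q := Q) hY ι z) = 0 := hπ.ortho _ _
      have h7 : z = prι (Q := Q) hY ι z + (z - prι (Q := Q) hY ι z) := by abel
      have h8 : polar Q (h (ι y) - prι (Q := Q) hY ι (h (ι y))) (z - prι (Q := Q) hY ι z) = 0 := by
        rw [polar_sub_left, h4, h5, sub_self]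
      rw [h7, polar_add_right]
      show polar Q (h (ι y) - prι (Q := Q) hY ι (h (ι y))) _ + polar Q (h (ι y) - prι (Q := Q) hY ι (h (ι y))) _ = 0
      rw [h3, h8, add_zero]
    exact sub_eq_zero.1 (hQ.1 _ h1)
  have hinv2 : ∀ x, adjι (Q := Q) hY ι x = 0 → g⁻¹⁻¹ x = x := fun x hx => by
    rw [inv_inv]
    exact hfix x hx
  have hg1 := hgι g hg hinv
  have hg2 := hgι g⁻¹ (Subgroup.inv_mem _ hg) hinv2
  let g₁ : Y ≃ₗ[F] Y :=
    { toFun := fun y => adjι (Q := Q) hY ι (g (ι y))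
      invFun := fun y => adjι (Q := Q) hY ι (g⁻¹ (ι y))
      map_add' := fun a b => by simp only [map_add]
      map_smul' := fun c a => by simp only [map_smul, RingHom.id_apply]
      left_inv := fun y => by
        show adjι (Q := Q) hY ι (g⁻¹ (ι (adjι (Q := Q) hY ι (g (ι y))))) = y
        rw [← hg1]
        show adjι (Q := Q) hY ι ((g⁻¹ * g) (ι y)) = y
        rw [inv_mul_cancel]
        exact adj_ι hY hι y
      right_inv := fun y => by
        show adjι (Q := Q) hY ι (g (ι (adjι (Q := Q) hY ι (g⁻¹ (ι y))))) = y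
        rw [← hg2]
        show adjι (Q := Q) hY ι ((g * g⁻¹) (ι y)) = y
        rw [mul_inv_cancel]
        exact adj_ι hY hι y }
  have hg₁ : ∀ y, ι (g₁ y) = g (ι y) := fun y => (hg1 y).symm
  refine ⟨g₁, ?_, ?_⟩
  · intro y
    rw [← hι, hg₁, hg, hι]
  · ext x
    rw [liftE_apply]
    have h1 : x = ι (adjι (Q := Q) hY ι x) + (x - ι (adjι (Q := Q) hY ι x)) := by abel
    have h3 : g (x - ι (adjι (Q := Q) hY ι x)) = x - ι (adjι (Q := Q) hY ι x) := hfix _ (hker x)
    conv_rhs => rw [h1, map_add, h3, ← hg₁]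
    rw [map_sub]
    abel

end lift

section embedding

variable {F : Type u} {Y : Type v} {V : Type w} [Field F] [Fintype F] [AddCommGroup V] [Module F V] [AddCommGroup Y]
  [Module F Y] {QY : QuadraticForm F Y} {Q : QuadraticForm F V} [FiniteDimensional F V] [FiniteDimensional F Y]

/-- Orthogonal vectors with prescribed values. -/
theorem exists_values (h2 : (2 : F) ≠ 0) (hQ : (polarBilin Q).Nondegenerate) (n : ℕ) :
    ∀ (π : V →ₗ[F] V), IsProj Q π → n + 1 ≤ finrank F (LinearMap.range π) → ∀ c : Fin n → F, (∀ i, c i ≠ 0) →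
      ∃ v : Fin n → V, (∀ i, π (v i) = v i) ∧ (∀ i, Q (v i) = c i) ∧ ∀ i j, i ≠ j → polar Q (v i) (v j) = 0 := by
  induction n with
  | zero =>
    intro π _ _ c _
    exact ⟨Fin.elim0, fun i => i.elim0, fun i => i.elim0, fun i => i.elim0⟩
  | succ n ih =>
    intro π hπ hr c hc
    obtain ⟨v₀, h1, h3⟩ := exists_value h2 hQ hπ (by omega) (c 0)
    have hv₀ : Q v₀ ≠ 0 := by rw [h3]; exact hc 0
    have hπ' := sub_pU h2 hπ hv₀ h1
    have hrk := finrank_sub_pU h2 hπ hv₀ h1
    obtain ⟨v, h4, h5, h6⟩ := ih _ hπ' (by omega) (fun i => c i.succ) (fun i => hc _)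
    have h7 : ∀ i, polar Q (v i) v₀ = 0 := fun i => sub_pU_ortho h2 hπ hv₀ h1 (h4 i)
    refine ⟨Fin.cons v₀ v, ?_, ?_, ?_⟩
    · intro i
      refine Fin.cases ?_ (fun j => ?_) i
      · simpa using h1
      · simpa using sub_pU_le h2 hπ hv₀ h1 (h4 j)
    · intro i
      refine Fin.cases ?_ (fun j => ?_) i
      · simpa using h3
      · simpa using h5 j
    · intro i j
      refine Fin.cases ?_ (fun i' => ?_) i <;> refine Fin.cases ?_ (fun j' => ?_) j
      · simp
      · intro _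
        simp only [Fin.cons_zero, Fin.cons_succ]
        rw [polar_comm]
        exact h7 j'
      · intro _
        simp only [Fin.cons_zero, Fin.cons_succ]
        exact h7 i'
      · intro hij
        simp only [Fin.cons_succ]
        exact h6 i' j' (fun h => hij (by rw [h]))

/-- Embedding a nondegenerate space in a larger one. -/
theorem exists_emb (h2 : (2 : F) ≠ 0) (hQ : (polarBilin Q).Nondegenerate) (hY : (polarBilin QY).Nondegenerate)
    (hdim : finrank F Y + 1 ≤ finrank F V) : ∃ ι : Y →ₗ[F] V, ∀ y, Q (ι y) = QY y := by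
  classical
  haveI : Invertible (2 : F) := invertibleOfNonzero h2
  have hsym : LinearMap.IsSymm (polarBilin QY : LinearMap.BilinForm F Y) :=
    ⟨fun x y => by
      show polar QY x y = polar QY y x
      exact polar_comm QY x y⟩
  obtain ⟨b, hb⟩ := LinearMap.BilinForm.exists_orthogonal_basis hsym
  have hb0 : ∀ i, QY (b i) ≠ 0 := fun i h => by
    have := hb.not_isOrtho_basis_self_of_separatingLeft hY.1 i
    apply this
    show polar QY (b i) (b i) = 0
    rw [polar_self_eq, h, mul_zero]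
  obtain ⟨v, h1, h3, h4⟩ := exists_values h2 hQ (finrank F Y) LinearMap.id
    ⟨fun x => rfl, fun x y => rfl⟩ (by
      have : LinearMap.range (LinearMap.id : V →ₗ[F] V) = ⊤ := LinearMap.range_id
      rw [this, finrank_top]
      exact hdim) (fun i => QY (b i)) hb0
  refine ⟨b.constr F v, ?_⟩
  have hbv : ∀ i, b.constr F v (b i) = v i := fun i => by simp
  have hpol : ∀ x y, polar Q (b.constr F v x) (b.constr F v y) = polar QY x y := by
    intro x y
    have key : (polarBilin Q).compl₁₂ (b.constr F v) (b.constr F v) = polarBilin QY := by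
      apply b.ext
      intro i
      apply b.ext
      intro j
      show polar Q (b.constr F v (b i)) (b.constr F v (b j)) = polar QY (b i) (b j)
      rw [hbv, hbv]
      by_cases hij : i = j
      · subst hij
        rw [polar_self_eq, polar_self_eq, h3]
      · rw [h4 i j hij]
        exact (hb hij).symm
    exact LinearMap.congr_fun (LinearMap.congr_fun key x) y
  intro y
  have h5 := hpol y y
  rw [polar_self_eq, polar_self_eq] at h5
  exact mul_left_cancel₀ h2 h5

end embedding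

end Cfsg.Agent.Lib.OmNine.Lift
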