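import Mathlib
import Cfsg.Agent.Lib.OmNine.Lift

set_option autoImplicit false
set_option linter.unusedSectionVars false
set_option linter.unusedVariables false
set_option linter.unusedSimpArgs false

/-!
Decomposition of an isometry along the fixed space of its `p`-regular part, `p`-power facts about
unipotent maps, nilpotency bound on the range of a projection.
-/

namespace Cfsg.Agent.Lib.OmNine.Split

open QuadraticMap Module Polynomial
open Cfsg.Agent.Lib.Witt.Quadratic Cfsg.Agent.Lib.Orth.Refl Cfsg.Agent.Lib.Orth.Spin Cfsg.Agent.Lib.Orth.Gen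
  Cfsg.Agent.Lib.Orth.Wall Cfsg.Agent.Lib.Orth.Omega Cfsg.Agent.Lib.OmNine.Proj Cfsg.Agent.Lib.OmNine.Chain
  Cfsg.Agent.Lib.OmNine.Lift

universe u v

variable {F : Type u} {V : Type v} [Field F] [AddCommGroup V] [Module F V] {Q : QuadraticForm F V}

section rank

variable [FiniteDimensional F V] {π : V →ₗ[F] V}

theorem range_one_sub (hπ : IsProj Q π) : LinearMap.range (LinearMap.id - π) = LinearMap.ker π := by
  apply le_antisymm
  · rintro _ ⟨y, rfl⟩
    rw [LinearMap.mem_ker, LinearMap.sub_apply, map_sub, hπ.idem]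
    simp
  · intro x hx
    refine ⟨x, ?_⟩
    rw [LinearMap.sub_apply, LinearMap.mem_ker.1 hx]
    simp

theorem rank_one_sub (hπ : IsProj Q π) :
    finrank F (LinearMap.range (LinearMap.id - π)) + finrank F (LinearMap.range π) = finrank F V := by
  rw [range_one_sub hπ, add_comm]
  exact LinearMap.finrank_range_add_finrank_ker π

/-- An isometry fixing the range of a projection commutes with it. -/
theorem proj_of_fix (hQ : (polarBilin Q).Nondegenerate) (hπ : IsProj Q π) {h : V ≃ₗ[F] V} (hh : h ∈ isoGroup Q)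
    (hfix : ∀ x, π x = x → h x = x) (x : V) : π (h x) = π x := by
  have h1 : ∀ y, polar Q (π (h x) - π x) y = 0 := fun y => by
    rw [polar_sub_left, hπ.adj, hπ.adj]
    have h3 : h (π y) = π y := hfix _ (hπ.idem y)
    have h4 := polar_eq_of_preserves h hh x (π y)
    rw [h3] at h4
    rw [h4, sub_self]
  exact sub_eq_zero.1 (hQ.1 _ h1)

theorem rk_add_fix (g : V ≃ₗ[F] V) : rk g + finrank F (fixSp g) = finrank F V :=
  LinearMap.finrank_range_add_finrank_ker _

/-- Fixed vectors and the range of a projection: the rank of the element. -/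
theorem rk_of_fix_range (hπ : IsProj Q π) {g : V ≃ₗ[F] V} (h : ∀ x, g x = x ↔ π x = x) :
    rk g + finrank F (LinearMap.range π) = finrank F V := by
  have h1 : fixSp g = LinearMap.range π := by
    ext x
    rw [mem_fixSp, h, hπ.mem_range]
  rw [← h1]
  exact rk_add_fix g

theorem rk_of_fix_ker (hπ : IsProj Q π) {g : V ≃ₗ[F] V} (h : ∀ x, g x = x ↔ π x = 0) :
    rk g = finrank F (LinearMap.range π) := by
  have h1 : fixSp g = LinearMap.ker π := by
    ext x
    rw [mem_fixSp, h, LinearMap.mem_ker]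
  have h3 := rk_add_fix g
  have h4 := LinearMap.finrank_range_add_finrank_ker π
  rw [h1] at h3
  omega

/-- A nilpotent map vanishing off the range of a projection has index at most the rank. -/
theorem nil_on_range (hπ : IsProj Q π) {f : Module.End F V} (hc : ∀ x, π (f x) = f (π x))
    (hk : ∀ x, π x = 0 → f x = 0) (hn : IsNilpotent f) (hd : 1 ≤ finrank F (LinearMap.range π)) :
    f ^ finrank F (LinearMap.range π) = 0 := by
  set W := LinearMap.range π with hW
  have hfW : ∀ x ∈ W, f x ∈ W := by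
    intro x hx
    rw [hπ.mem_range] at hx ⊢
    rw [hc, hx]
  set f' : Module.End F W := f.restrict hfW with hf'
  have hpow : ∀ (n : ℕ) (x : W), ((f' ^ n) x : V) = (f ^ n) x := by
    intro n x
    induction n generalizing x with
    | zero => rfl
    | succ n ih =>
      rw [pow_succ, pow_succ]
      show ((f' ^ n) (f' x) : V) = (f ^ n) (f x)
      rw [ih]
      rfl
  have hn' : IsNilpotent f' := by
    obtain ⟨n, hn⟩ := hn
    refine ⟨n, ?_⟩
    ext x
    rw [hpow, hn]
    rfl
  have hch := (LinearMap.isNilpotent_iff_charpoly f').1 hn'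
  have hz : f' ^ finrank F W = 0 := by
    have h1 := LinearMap.aeval_self_charpoly f'
    rw [hch] at h1
    simpa using h1
  obtain ⟨d, hd'⟩ : ∃ d, finrank F W = d + 1 := ⟨finrank F W - 1, by omega⟩
  ext x
  have h1 : (f ^ finrank F W) (π x) = 0 := by
    have h3 := hpow (finrank F W) ⟨π x, LinearMap.mem_range_self _ _⟩
    rw [hz] at h3
    exact h3.symm
  have h2 : x = π x + (x - π x) := by abel
  have h3 : f (x - π x) = 0 := hk _ (by rw [map_sub, hπ.idem, sub_self])
  have h4 : (f ^ finrank F W) (x - π x) = 0 := by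
    rw [hd', pow_succ]
    show (f ^ d) (f (x - π x)) = 0
    rw [h3, map_zero]
  rw [h2, map_add, h1, h4, add_zero]
  rfl

end rank

section gl

variable {π : V →ₗ[F] V}

theorem Gl_mul_Gl (hπ : IsProj Q π) {A B A' B' : V ≃ₗ[F] V} (hA : ∀ x, π (A x) = A (π x)) (hB : ∀ x, π (B x) = B (π x))
    (hA' : ∀ x, π (A' x) = A' (π x)) (hB' : ∀ x, π (B' x) = B' (π x)) (hAA : ∀ x, π ((A * A') x) = (A * A') (π x))
    (hBB : ∀ x, π ((B * B') x) = (B * B') (π x)) :
    Gl hπ A B hA hB * Gl hπ A' B' hA' hB' = Gl hπ (A * A') (B * B') hAA hBB := by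
  ext x
  show Gl hπ A B hA hB (Gl hπ A' B' hA' hB' x) = _
  rw [Gl_apply, Gl_apply, Gl_apply]
  have h1 : π (A' (π x) + B' (x - π x)) = A' (π x) := by
    rw [map_add, hA', hB', hπ.idem, map_sub, hπ.idem, sub_self, map_zero, add_zero]
  rw [h1, add_sub_cancel_left]
  rfl

theorem proj_Gl (hπ : IsProj Q π) {A B : V ≃ₗ[F] V} (hA : ∀ x, π (A x) = A (π x)) (hB : ∀ x, π (B x) = B (π x)) (x : V) :
    π (Gl hπ A B hA hB x) = A (π x) := by
  rw [Gl_apply, map_add, hA, hB, hπ.idem, map_sub, hπ.idem, sub_self, map_zero, add_zero]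

theorem Gl_proj (hπ : IsProj Q π) {A B : V ≃ₗ[F] V} (hA : ∀ x, π (A x) = A (π x)) (hB : ∀ x, π (B x) = B (π x)) (x : V) :
    Gl hπ A B hA hB (π x) = A (π x) := by
  rw [Gl_apply, hπ.idem, sub_self, map_zero, add_zero]

theorem comm_mul {A B : V ≃ₗ[F] V} (hA : ∀ x, π (A x) = A (π x)) (hB : ∀ x, π (B x) = B (π x)) :
    ∀ x, π ((A * B) x) = (A * B) (π x) := fun x => by
  show π (A (B x)) = A (B (π x))
  rw [hA, hB]

/-- Negation as an automorphism. -/
noncomputable def negE (V : Type v) [AddCommGroup V] [Module F V] : V ≃ₗ[F] V := LinearEquiv.neg F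

@[simp] theorem negE_apply (x : V) : negE (F := F) V x = -x := rfl

theorem negE_mem : negE (F := F) V ∈ isoGroup Q := fun x => by
  rw [negE_apply, QuadraticMap.map_neg]

theorem negE_mul_comm (g : V ≃ₗ[F] V) : negE (F := F) V * g = g * negE V := by
  ext x
  show - g x = g (- x)
  rw [map_neg]

theorem comm_neg (x : V) : π (negE (F := F) V x) = negE (F := F) V (π x) := by
  simp

theorem negE_pow_odd {n : ℕ} (hn : Odd n) (x : V) : ((negE (F := F) V) ^ n) x = - x := by
  obtain ⟨k, rfl⟩ := hn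
  have h1 : ∀ k : ℕ, ((negE (F := F) V) ^ (2 * k)) x = x := by
    intro k
    induction k with
    | zero => simp
    | succ k ih =>
      rw [show 2 * (k + 1) = 2 * k + 1 + 1 by ring, pow_succ, pow_succ]
      show ((negE (F := F) V) ^ (2 * k)) (- - x) = x
      rw [neg_neg, ih]
  rw [pow_succ]
  show ((negE (F := F) V) ^ (2 * k)) (-x) = -x
  rw [map_neg, h1]

end gl

section charp

variable {p : ℕ} [Fact p.Prime] [CharP F p] [FiniteDimensional F V]

/-- `y ↦ y` as a map to endomorphisms. -/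
noncomputable def toE (V : Type v) [AddCommGroup V] [Module F V] : (V ≃ₗ[F] V) →* Module.End F V :=
  LinearEquiv.automorphismGroup.toLinearMapMonoidHom

theorem toE_apply (y : V ≃ₗ[F] V) (x : V) : toE V y x = y x := rfl

theorem toE_pow_apply (y : V ≃ₗ[F] V) (n : ℕ) (x : V) : ((toE V y) ^ n) x = (y ^ n) x := by
  rw [← map_pow]
  rfl

theorem uni_eq (y : V ≃ₗ[F] V) : uni y = toE V y - 1 := rfl

theorem poly_sub_pow (j : ℕ) : (X - 1 : F[X]) ^ (p ^ j) = X ^ (p ^ j) - 1 := by
  rw [sub_pow_char_pow, one_pow]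

theorem uni_pow_char (y : V ≃ₗ[F] V) (j : ℕ) : uni y ^ (p ^ j) = uni (y ^ (p ^ j)) := by
  have h1 := congrArg (aeval (toE V y)) (poly_sub_pow (F := F) (p := p) j)
  simp only [map_pow, map_sub, aeval_X, map_one] at h1
  rw [uni_eq, h1, uni_eq, map_pow]

theorem uni_eq_zero {y : V ≃ₗ[F] V} : uni y = 0 ↔ y = 1 := by
  constructor
  · intro h
    ext x
    have h1 := congrArg (fun f : Module.End F V => f x) h
    simp only [uni_apply, LinearMap.zero_apply] at h1
    exact sub_eq_zero.1 h1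
  · rintro rfl
    ext x
    rw [uni_apply]
    exact sub_self x

theorem pow_eq_one_iff_uni {y : V ≃ₗ[F] V} {j : ℕ} : y ^ (p ^ j) = 1 ↔ uni y ^ (p ^ j) = 0 := by
  rw [uni_pow_char y j, uni_eq_zero]

theorem poly_geom (j : ℕ) :
    (∑ i ∈ Finset.range (p ^ j), (X : F[X]) ^ i) = (X - 1) ^ (p ^ j - 1) := by
  have hp : 0 < p ^ j := pow_pos (Fact.out : p.Prime).pos _
  have h1 := geom_sum_mul (X : F[X]) (p ^ j)
  rw [← poly_sub_pow (F := F) (p := p) j] at h1
  have h3 : (X - 1 : F[X]) ^ (p ^ j) = (X - 1) ^ (p ^ j - 1) * (X - 1) := by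
    rw [← pow_succ, Nat.sub_add_cancel hp]
  rw [h3] at h1
  exact mul_right_cancel₀ (X_sub_C_ne_zero (1 : F) |> fun h => by simpa using h) h1

theorem geom_eq (y : V ≃ₗ[F] V) (j : ℕ) (x : V) :
    ∑ i ∈ Finset.range (p ^ j), (y ^ i) x = (uni y ^ (p ^ j - 1)) x := by
  have h1 := congrArg (aeval (toE V y)) (poly_geom (F := F) (p := p) j)
  simp only [map_sum, map_pow, map_sub, aeval_X, map_one] at h1
  rw [uni_eq, ← h1, LinearMap.sum_apply]
  refine Finset.sum_congr rfl fun i _ => ?_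
  rw [toE_pow_apply]

/-- The order of an element with a long block. -/
theorem orderOf_of_block {y : V ≃ₗ[F] V} {j : ℕ} (h1 : uni y ^ (p ^ j) = 0) (h3 : uni y ^ (p ^ j - 1) ≠ 0) :
    orderOf y = p ^ j := by
  have hp : p.Prime := Fact.out
  have h4 : y ^ (p ^ j) = 1 := pow_eq_one_iff_uni.2 h1
  obtain ⟨k, hk, hk2⟩ := (Nat.dvd_prime_pow hp).1 (orderOf_dvd_of_pow_eq_one h4)
  rcases hk.lt_or_eq with h5 | rfl
  · exfalso
    apply h3
    have h6 : y ^ (p ^ (j - 1)) = 1 := by
      have h7 : p ^ k ∣ p ^ (j - 1) := pow_dvd_pow _ (by omega)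
      rw [← hk2] at h7
      exact orderOf_dvd_iff_pow_eq_one.1 h7
    have h8 : uni y ^ (p ^ (j - 1)) = 0 := pow_eq_one_iff_uni.1 h6
    have h9 : p ^ (j - 1) ≤ p ^ j - 1 := by
      have h10 : p ^ j = p ^ (j - 1) * p := by
        rw [← pow_succ]
        congr 1
        omega
      have h11 : 0 < p ^ (j - 1) := pow_pos hp.pos _
      have h12 := hp.two_le
      rw [h10]
      have : p ^ (j - 1) * 2 ≤ p ^ (j - 1) * p := Nat.mul_le_mul_left _ h12
      omega
    exact pow_eq_zero_of_le h9 h8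
  · exact hk2

/-- Periodic sums. -/
theorem sum_periodic {f : ℕ → V} {b : ℕ} (hf : ∀ i, f (i + b) = f i) (c : ℕ) :
    ∑ i ∈ Finset.range (b * c), f i = c • ∑ i ∈ Finset.range b, f i := by
  have hf' : ∀ (k i : ℕ), f (b * k + i) = f i := by
    intro k i
    induction k with
    | zero => simp
    | succ k ih =>
      rw [show b * (k + 1) + i = (b * k + i) + b by ring, hf, ih]
  induction c with
  | zero => simp
  | succ c ih =>
    rw [mul_add, mul_one, Finset.sum_range_add, ih, succ_nsmul]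
    congr 1
    exact Finset.sum_congr rfl fun i _ => hf' c i

end charp

section avg2

/-- Commuting with the average. -/
theorem avg_comm {z g : V ≃ₗ[F] V} {N : ℕ} (hc : g * z = z * g) (x : V) :
    avgLin z N (g x) = g (avgLin z N x) := by
  have hc' : ∀ i : ℕ, g * z ^ i = z ^ i * g := fun i => (Commute.pow_right hc i)
  rw [avgLin_apply, avgLin_apply, map_smul, map_sum]
  congr 1
  refine Finset.sum_congr rfl fun i _ => ?_
  have := DFunLike.congr_fun (hc' i) x
  exact this.symm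

theorem avg_fix_iff {z : V ≃ₗ[F] V} {N : ℕ} (hz : z ^ N = 1) (hN : (N : F) ≠ 0) (x : V) :
    avgLin z N x = x ↔ z x = x := by
  constructor
  · intro h
    rw [← h]
    exact avg_fix hz x
  · exact avg_of_fix hN

end avg2

section decomposition

variable [FiniteDimensional F V] [Finite F] {p : ℕ} [Fact p.Prime] [CharP F p]

theorem finite_equiv : Finite (V ≃ₗ[F] V) := by
  haveI : Finite V := Module.finite_of_finite F
  exact Finite.of_injective (fun g : V ≃ₗ[F] V => (g : V → V)) (fun a b h => by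
    ext x
    exact congrFun h x)

theorem orderOf_pos' (g : V ≃ₗ[F] V) : 0 < orderOf g := by
  haveI := finite_equiv (F := F) (V := V)
  exact orderOf_pos g

/-- Data of the `p`-decomposition. -/
theorem exists_pk (g : V ≃ₗ[F] V) : ∃ k m, orderOf g = p ^ k * m ∧ (m : F) ≠ 0 := by
  have hp : p.Prime := Fact.out
  obtain ⟨k, m, hm, he⟩ := Nat.exists_eq_pow_mul_and_not_dvd (orderOf_pos' (F := F) g).ne' p hp.ne_one
  refine ⟨k, m, he, fun h => hm ?_⟩
  exact (CharP.cast_eq_zero_iff F p m).1 h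

/-- The decomposition of an isometry along the fixed space of its `p`-regular part. -/
theorem split (hQ : (polarBilin Q).Nondegenerate) {g : V ≃ₗ[F] V} (hg : g ∈ isoGroup Q) :
    ∃ (π : V →ₗ[F] V) (τ h : V ≃ₗ[F] V) (k : ℕ), IsProj Q π ∧ τ ∈ isoGroup Q ∧ h ∈ isoGroup Q ∧ g = τ * h ∧
      Commute τ h ∧ (∀ x, π x = x → h x = x) ∧ (∀ x, h x = x → π x = x) ∧ (∀ x, π x = 0 → τ x = x) ∧
      (∀ x, π (τ x) = τ (π x)) ∧ τ ^ (p ^ k) = 1 ∧ (∀ x, π (h x) = h (π x)) ∧ (∀ x, g x = x → π x = x) ∧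
      (τ = 1 → ∀ x, π x = x → g x = x) ∧ (∃ m, orderOf g = p ^ k * m ∧ (m : F) ≠ 0 ∧ π = avgLin (g ^ (p ^ k)) m) := by
  obtain ⟨k, m, hkm, hm⟩ := exists_pk (p := p) g
  have hr : (g ^ (p ^ k)) ^ m = 1 := by
    rw [← pow_mul, ← hkm, pow_orderOf_eq_one]
  have hrmem : g ^ (p ^ k) ∈ isoGroup Q := Subgroup.pow_mem _ hg _
  have hπ := avg_isProj hrmem hr hm
  set π := avgLin (g ^ (p ^ k)) m with hπdef
  have hc : ∀ x, π (g x) = g (π x) := fun x =>
    avg_comm (Commute.pow_right (Commute.refl g) _) x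
  have hfixr : ∀ x, π x = x ↔ (g ^ (p ^ k)) x = x := avg_fix_iff hr hm
  refine ⟨π, Gl hπ g 1 hc comm_one, Gl hπ 1 g comm_one hc, k, hπ, Gl_mem hπ _ _ hg (Subgroup.one_mem _),
    Gl_mem hπ _ _ (Subgroup.one_mem _) hg, mul_Gl hπ g hc, comm_Gl hπ g g hc hc, ?_, ?_, ?_, ?_, ?_, ?_, ?_, ?_,
    m, hkm, hm, rfl⟩
  · intro x hx
    rw [Gl_apply, hx, sub_self, map_zero, add_zero]
    rfl
  · intro x hx
    rw [Gl_apply] at hx
    -- `x - π x` is fixed by `g`
    have h1 : g (x - π x) = x - π x := by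
      have h3 : (1 : V ≃ₗ[F] V) (π x) = π x := rfl
      rw [h3] at hx
      have h4 : x - π x = π x + g (x - π x) - π x := by rw [hx]
      rw [add_sub_cancel_left] at h4
      exact h4.symm
    have h5 : π (x - π x) = x - π x := (hfixr _).2 (pow_fix h1 _)
    rw [map_sub, hπ.idem, sub_self] at h5
    exact (sub_eq_zero.1 h5.symm).symm
  · intro x hx
    rw [Gl_apply, hx, map_zero, zero_add, sub_zero]
    rfl
  · intro x
    rw [proj_Gl, Gl_proj]
  · ext x
    rw [Gl_pow_apply, one_pow]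
    have h1 : (g ^ (p ^ k)) (π x) = π x := (hfixr _).1 (hπ.idem x)
    rw [h1]
    show π x + (x - π x) = x
    abel
  · intro x
    rw [proj_Gl, Gl_proj]
  · intro x hx
    exact (hfixr x).2 (pow_fix hx _)
  · intro h1 x hx
    have h3 : g = Gl hπ g 1 hc comm_one * Gl hπ 1 g comm_one hc := mul_Gl hπ g hc
    rw [h1, one_mul] at h3
    rw [h3, Gl_apply, hx, sub_self, map_zero, add_zero]
    rfl

end decomposition

end Cfsg.Agent.Lib.OmNine.Split
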