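import Mathlib
import Cfsg.Agent.Lib.OmNine.Split

set_option autoImplicit false
set_option linter.unusedSectionVars false
set_option linter.unusedVariables false
set_option linter.unusedSimpArgs false

/-!
The abstract setting: a nine-dimensional space, the minus-type hyperplane, the set of orders of the
semidirect product, and the main construction of elements.
-/

namespace Cfsg.Agent.Lib.OmNine.RSet

open QuadraticMap Module
open Cfsg.Agent.Lib.Witt.Quadratic Cfsg.Agent.Lib.Orth.Refl Cfsg.Agent.Lib.Orth.Spin Cfsg.Agent.Lib.Orth.Gen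
  Cfsg.Agent.Lib.Orth.Wall Cfsg.Agent.Lib.Orth.Omega Cfsg.Agent.Lib.OmNine.Proj Cfsg.Agent.Lib.OmNine.Chain
  Cfsg.Agent.Lib.OmNine.Lift Cfsg.Agent.Lib.OmNine.Split

universe u v w

variable {F : Type u} {V : Type v} {Y : Type w} [Field F] [Fintype F] [AddCommGroup V] [Module F V]
  [AddCommGroup Y] [Module F Y] [FiniteDimensional F V] [FiniteDimensional F Y]
  {Q : QuadraticForm F V} {Q₈ : QuadraticForm F Y}

/-- The properties of the set of orders of the semidirect product. -/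
structure IsR (Q₈ : QuadraticForm F Y) (p : ℕ) (R : Set ℕ) : Prop where
  dvd : ∀ n ∈ R, ∀ d, d ∣ n → d ∈ R
  r1 : ∀ T, IsOm Q₈ T → orderOf T ∈ R
  r2 : ∀ T v, IsOm Q₈ T → (∑ i ∈ Finset.range (orderOf T), (T ^ i) v) ≠ 0 → p * orderOf T ∈ R
  el : ∀ n ∈ R, ∃ T, IsOm Q₈ T ∧ (n = orderOf T ∨ ∃ v, (∑ i ∈ Finset.range (orderOf T), (T ^ i) v) ≠ 0 ∧ n = p * orderOf T)

/-- The abstract setting. -/
structure Ctx (Q : QuadraticForm F V) (Q₈ : QuadraticForm F Y) (p : ℕ) (R : Set ℕ) where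
  h2 : (2 : F) ≠ 0
  hQ : (polarBilin Q).Nondegenerate
  hY : (polarBilin Q₈).Nondegenerate
  hV9 : finrank F V = 9
  hY8 : finrank F Y = 8
  ι : Y →ₗ[F] V
  hι : ∀ y, Q (ι y) = Q₈ y
  v₀ : V
  hv₀ : ∀ y, polar Q v₀ (ι y) = 0
  hν : ¬ IsSquare (Q v₀)
  hR : IsR Q₈ p R

/-- Witt for one vector. -/
theorem witt_one (hQ : (polarBilin Q).Nondegenerate) {u u' : V} (hu : Q u ≠ 0) (huu : Q u = Q u') :
    ∃ t ∈ isoGroup Q, t u = u' := by
  have h0 : u ≠ 0 := fun h => hu (by rw [h, map_zero])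
  have h0' : u' ≠ 0 := fun h => hu (by rw [huu, h, map_zero])
  obtain ⟨t, ht, h1⟩ := witt_family hQ (fun _ : Unit => u) (fun _ : Unit => u')
    (LinearIndependent.of_subsingleton () h0) (LinearIndependent.of_subsingleton () h0')
    (fun _ _ => by rw [polar_self_eq, polar_self_eq, huu]) (fun _ => huu)
  exact ⟨t, ht, h1 ()⟩

/-- The complement of a hyperplane embedding is a line. -/
theorem adj_zero_of_hyperplane (hQ : (polarBilin Q).Nondegenerate) (hY : (polarBilin Q₈).Nondegenerate)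
    {ι : Y →ₗ[F] V} (hι : ∀ y, Q (ι y) = Q₈ y) (hdim : finrank F V = finrank F Y + 1) {v : V} (hv : v ≠ 0)
    (hvι : ∀ y, polar Q v (ι y) = 0) {x : V} (hx : adjι (Q := Q) hY ι x = 0) : ∃ c : F, x = c • v := by
  have hπ := isProj_prι (Q := Q) hY hι
  have hρ := hπ.one_sub
  have hrk := rank_one_sub hπ
  rw [rank_prι hY hι, hdim] at hrk
  have hrk1 : finrank F (LinearMap.range (LinearMap.id - prι (Q := Q) hY ι)) = 1 := by omega
  have hadj : adjι (Q := Q) hY ι v = 0 := by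
    apply hY.1
    intro y
    show polar Q₈ _ y = 0
    rw [polar_adj, hvι]
  have hvm : v ∈ LinearMap.range (LinearMap.id - prι (Q := Q) hY ι) := by
    refine ⟨v, ?_⟩
    rw [LinearMap.sub_apply, prι_apply, hadj, map_zero, sub_zero]
    rfl
  have hxm : x ∈ LinearMap.range (LinearMap.id - prι (Q := Q) hY ι) := by
    refine ⟨x, ?_⟩
    rw [LinearMap.sub_apply, prι_apply, hx, map_zero, sub_zero]
    rfl
  have hne : (⟨v, hvm⟩ : LinearMap.range (LinearMap.id - prι (Q := Q) hY ι)) ≠ 0 := by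
    intro h
    exact hv (congrArg Subtype.val h)
  obtain ⟨c, hc⟩ := (finrank_eq_one_iff_of_nonzero' _ hne).1 hrk1 ⟨x, hxm⟩
  exact ⟨c, (congrArg Subtype.val hc).symm⟩

namespace Ctx

variable {p : ℕ} {R : Set ℕ} (C : Ctx Q Q₈ p R)
include C

theorem ne : Q C.v₀ ≠ 0 := fun h => C.hν (by rw [h]; exact ⟨0, by simp⟩)

theorem v₀_ne : C.v₀ ≠ 0 := fun h => C.ne (by rw [h, map_zero])

theorem dim : finrank F V = finrank F Y + 1 := by rw [C.hV9, C.hY8]

theorem adj_zero {x : V} (hx : adjι (Q := Q) C.hY C.ι x = 0) : ∃ c : F, x = c • C.v₀ :=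
  adj_zero_of_hyperplane C.hQ C.hY C.hι C.dim C.v₀_ne C.hv₀ hx

/-- Elements fixing `v₀` come from the hyperplane. -/
theorem exists_lift {g : V ≃ₗ[F] V} (hg : IsOm Q g) (hv : g C.v₀ = C.v₀) :
    ∃ g₈ : Y ≃ₗ[F] Y, IsOm Q₈ g₈ ∧ liftE C.hY C.ι C.hι g₈ = g := by
  obtain ⟨g₈, h1, h3⟩ := exists_lift_of_fix C.hY C.hι C.hQ hg.mem (fun x hx => by
    obtain ⟨c, rfl⟩ := C.adj_zero hx
    rw [map_smul, hv])
  refine ⟨g₈, ⟨h1, ?_, ?_⟩, h3⟩
  · rw [← rp_liftE C.hY C.hι C.h2 C.hQ h1, h3, hg.rp0]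
  · rw [← sn_liftE C.hY C.hι C.h2 C.hQ h1, h3, hg.sn0]

/-- The first construction of elements of the semidirect product. -/
theorem r1' {g : V ≃ₗ[F] V} (hg : IsOm Q g) {v : V} (hv : g v = v) (hQv : Q v = Q C.v₀) : orderOf g ∈ R := by
  obtain ⟨t, ht, htv⟩ := witt_one C.hQ (by rw [hQv]; exact C.ne) hQv
  have hg' := IsOm.conj' C.h2 C.hQ hg ht
  have hfix : (t * g * t⁻¹) C.v₀ = C.v₀ := by
    have h1 : t⁻¹ C.v₀ = v := by
      rw [← htv]
      show (t⁻¹ * t) v = v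
      rw [inv_mul_cancel]
      rfl
    show t (g (t⁻¹ C.v₀)) = C.v₀
    rw [h1, hv, htv]
  obtain ⟨g₈, h1, h3⟩ := C.exists_lift hg' hfix
  have h4 : orderOf g = orderOf g₈ := by
    rw [← orderOf_liftE C.hY C.hι g₈, h3]
    exact (MulEquiv.orderOf_eq (MulAut.conj t) g).symm
  rw [h4]
  exact C.hR.r1 _ h1

/-- The second construction. -/
theorem r2' {g : V ≃ₗ[F] V} (hg : IsOm Q g) {v : V} (hv : g v = v) (hQv : Q v = Q C.v₀) {x : V}
    (hx : polar Q x v = 0) (hN : ∑ i ∈ Finset.range (orderOf g), (g ^ i) x ≠ 0) : p * orderOf g ∈ R := by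
  obtain ⟨t, ht, htv⟩ := witt_one C.hQ (by rw [hQv]; exact C.ne) hQv
  have hg' := IsOm.conj' C.h2 C.hQ hg ht
  have hfix : (t * g * t⁻¹) C.v₀ = C.v₀ := by
    have h1 : t⁻¹ C.v₀ = v := by
      rw [← htv]
      show (t⁻¹ * t) v = v
      rw [inv_mul_cancel]
      rfl
    show t (g (t⁻¹ C.v₀)) = C.v₀
    rw [h1, hv, htv]
  obtain ⟨g₈, h1, h3⟩ := C.exists_lift hg' hfix
  have h4 : orderOf g = orderOf g₈ := by
    rw [← orderOf_liftE C.hY C.hι g₈, h3]
    exact (MulEquiv.orderOf_eq (MulAut.conj t) g).symm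
  -- the vector
  have htx : polar Q (t x) C.v₀ = 0 := by
    rw [← htv, polar_eq_of_preserves t ht, hx]
  set y := adjι (Q := Q) C.hY C.ι (t x) with hy
  have hxy : t x = C.ι y := by
    have h5 : adjι (Q := Q) C.hY C.ι (t x - C.ι y) = 0 := by
      rw [map_sub, adj_ι C.hY C.hι, hy, sub_self]
    obtain ⟨c, hc⟩ := C.adj_zero h5
    have h6 : polar Q (t x - C.ι y) C.v₀ = 0 := by
      rw [polar_sub_left, htx, polar_comm Q (C.ι y), C.hv₀, sub_self]
    rw [hc, polar_smul_left, polar_self_eq, smul_eq_mul] at h6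
    have hc0 : c = 0 := by
      rcases mul_eq_zero.1 h6 with h7 | h7
      · exact h7
      · exact absurd h7 (mul_ne_zero C.h2 C.ne)
    rw [hc0, zero_smul, sub_eq_zero] at hc
    exact hc
  have hN' : ∑ i ∈ Finset.range (orderOf g₈), (g₈ ^ i) y ≠ 0 := by
    intro h0
    apply hN
    apply t.injective
    rw [map_zero, map_sum, h4]
    have h5 : ∀ i, t ((g ^ i) x) = C.ι ((g₈ ^ i) y) := fun i => by
      rw [← liftE_ι C.hY C.hι, map_pow, h3, conj_pow, ← hxy]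
      show _ = t ((g ^ i) ((t⁻¹ * t) x))
      rw [inv_mul_cancel]
      rfl
    simp only [h5]
    rw [← map_sum, h0, map_zero]
  rw [h4]
  exact C.hR.r2 _ _ h1 hN'

/-- Lemma `M₀`. -/
theorem M0 {h : V ≃ₗ[F] V} (hh : IsOm Q h) {π : V →ₗ[F] V} (hπ : IsProj Q π) (hfix : ∀ x, π x = x → h x = x)
    (hr : 2 ≤ finrank F (LinearMap.range π)) : orderOf h ∈ R := by
  obtain ⟨v, hv, hQv⟩ := exists_value C.h2 C.hQ hπ hr (Q C.v₀)
  exact C.r1' hh (hfix v hv) hQv

end Ctx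

section GlFacts

variable {π : V →ₗ[F] V} {y h : V ≃ₗ[F] V}

/-- The element acting as `y` on the range and as `h` on the kernel. -/
theorem Gl_pow_range (hπ : IsProj Q π) (hy : ∀ x, π (y x) = y (π x)) (hh : ∀ x, π (h x) = h (π x)) (i : ℕ) {x : V}
    (hx : π x = x) : (Gl hπ y h hy hh ^ i) x = (y ^ i) x := by
  rw [Gl_pow_apply, hx, sub_self, map_zero, add_zero]

theorem Gl_pow_ker (hπ : IsProj Q π) (hy : ∀ x, π (y x) = y (π x)) (hh : ∀ x, π (h x) = h (π x)) (i : ℕ) {x : V}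
    (hx : π x = 0) : (Gl hπ y h hy hh ^ i) x = (h ^ i) x := by
  rw [Gl_pow_apply, hx, map_zero, zero_add, sub_zero]

theorem Gl_eq_mul (hπ : IsProj Q π) (hy : ∀ x, π (y x) = y (π x)) (hh : ∀ x, π (h x) = h (π x))
    (hy1 : ∀ x, π x = 0 → y x = x) (hh1 : ∀ x, π x = x → h x = x) : Gl hπ y h hy hh = h * y := by
  ext x
  show _ = h (y x)
  rw [Gl_apply]
  have h1 : y x = y (π x) + (x - π x) := by
    conv_lhs => rw [show x = π x + (x - π x) by abel]
    rw [map_add, hy1 (x - π x) (by rw [map_sub, hπ.idem, sub_self])]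
  rw [h1, map_add, hh1 (y (π x)) (by rw [hy, hπ.idem])]

theorem orderOf_Gl (hπ : IsProj Q π) (hy : ∀ x, π (y x) = y (π x)) (hh : ∀ x, π (h x) = h (π x))
    (hy1 : ∀ x, π x = 0 → y x = x) (hh1 : ∀ x, π x = x → h x = x) :
    orderOf (Gl hπ y h hy hh) = Nat.lcm (orderOf y) (orderOf h) := by
  apply Nat.dvd_antisymm
  · apply orderOf_dvd_of_pow_eq_one
    ext x
    rw [Gl_pow_apply, orderOf_dvd_iff_pow_eq_one.1 (Nat.dvd_lcm_left _ _),
      orderOf_dvd_iff_pow_eq_one.1 (Nat.dvd_lcm_right _ _)]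
    show π x + (x - π x) = x
    abel
  · have h0 := pow_orderOf_eq_one (Gl hπ y h hy hh)
    set e := orderOf (Gl hπ y h hy hh)
    have h1 : ∀ x, π x = x → (y ^ e) x = x := fun x hx => by
      rw [← Gl_pow_range hπ hy hh e hx, h0]
      rfl
    have h3 : ∀ x, π x = 0 → (h ^ e) x = x := fun x hx => by
      rw [← Gl_pow_ker hπ hy hh e hx, h0]
      rfl
    apply Nat.lcm_dvd
    · apply orderOf_dvd_of_pow_eq_one
      ext x
      have h4 : x = π x + (x - π x) := by abel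
      have h5 : (y ^ e) (x - π x) = x - π x := pow_fix (hy1 _ (by rw [map_sub, hπ.idem, sub_self])) e
      show (y ^ e) x = x
      conv_lhs => rw [h4, map_add, h5, h1 _ (hπ.idem x)]
      abel
    · apply orderOf_dvd_of_pow_eq_one
      ext x
      have h4 : x = π x + (x - π x) := by abel
      have h5 : (h ^ e) (π x) = π x := pow_fix (hh1 _ (hπ.idem x)) e
      show (h ^ e) x = x
      conv_lhs => rw [h4, map_add, h5, h3 _ (by rw [map_sub, hπ.idem, sub_self])]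
      abel

end GlFacts

section M

variable {p : ℕ} [hpf : Fact p.Prime] [CharP F p] {R : Set ℕ} (C : Ctx Q Q₈ p R)
include C

theorem p_ne_two : p ≠ 2 := by
  rintro rfl
  apply C.h2
  exact_mod_cast CharP.cast_eq_zero F 2

theorem p_odd : Odd p := (Fact.out : p.Prime).odd_of_ne_two (p_ne_two C)

theorem prime_pow_odd (j : ℕ) : Odd (p ^ j) := (p_odd C).pow

/-- Lemma `M`. -/
theorem lemmaM {h : V ≃ₗ[F] V} (hh : IsOm Q h) {π : V →ₗ[F] V} (hπ : IsProj Q π) (hfix : ∀ x, π x = x → h x = x)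
    (j : ℕ) (hb : p ^ j + 2 ≤ finrank F (LinearMap.range π)) : Nat.lcm (orderOf h) (p ^ (j + 1)) ∈ R := by
  have hp : p.Prime := Fact.out
  by_cases hd : p ^ (j + 1) ∣ orderOf h
  · rw [Nat.lcm_eq_left hd]
    exact C.M0 hh hπ hfix (by omega)
  obtain ⟨v, hv, hQv⟩ := exists_value C.h2 C.hQ hπ (by omega) (Q C.v₀)
  have hv0 : Q v ≠ 0 := by rw [hQv]; exact C.ne
  have hπ' := sub_pU C.h2 hπ hv0 hv
  have hrk := finrank_sub_pU C.h2 hπ hv0 hv
  obtain ⟨r, hr⟩ := prime_pow_odd C j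
  obtain ⟨y, hy, hy1, hy2, hy3, x', hx', hy4⟩ := exists_unipotent C.h2 C.hQ hπ' r (by omega)
  rw [← hr] at hy3
  have hr' : 2 * r = p ^ j - 1 := by omega
  rw [hr'] at hy4
  have hfix' : ∀ x, (π - pU Q v) x = x → h x = x := fun x hx => hfix x (sub_pU_le C.h2 hπ hv0 hv hx)
  have hc' : ∀ x, (π - pU Q v) (h x) = h ((π - pU Q v) x) := fun x => by
    rw [proj_of_fix C.hQ hπ' hh.mem hfix', hfix' _ (hπ'.idem x)]
  have hyo : orderOf y = p ^ j := orderOf_of_block hy3 (fun h0 => hy4 (by rw [h0]; rfl))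
  have hyOm : IsOm Q y := isOm_of_odd C.h2 C.hQ hy (prime_pow_odd C j) (pow_eq_one_iff_uni.2 hy3)
  have hg₂ := Gl_eq_mul hπ' hy2 hc' hy1 hfix'
  have hOm : IsOm Q (Gl hπ' y h hy2 hc') := by
    rw [hg₂]
    exact IsOm.mul' C.h2 C.hQ hh hyOm
  have ho := orderOf_Gl hπ' hy2 hc' hy1 hfix'
  rw [hyo] at ho
  set L := Nat.lcm (p ^ j) (orderOf h) with hL
  obtain ⟨c, hc⟩ : p ^ j ∣ L := Nat.dvd_lcm_left _ _
  have hh0 : orderOf h ≠ 0 := (orderOf_pos' h).ne'
  have hpc : ¬ p ∣ c := by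
    intro hpc
    apply hd
    have h1 : p ^ (j + 1) ∣ L := by
      rw [hc, pow_succ]
      exact Nat.mul_dvd_mul_left _ hpc
    have hpj : p ^ j ≠ 0 := pow_ne_zero _ hp.ne_zero
    rw [hL, hp.pow_dvd_iff_le_factorization (Nat.lcm_ne_zero hpj hh0), Nat.factorization_lcm hpj hh0] at h1
    rw [hp.pow_dvd_iff_le_factorization hh0]
    have h3 : (p ^ j).factorization p = j := by
      rw [hp.factorization_pow]
      simp
    simp only [Finsupp.sup_apply, h3] at h1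
    rcases le_sup_iff.1 h1 with h4 | h4
    · omega
    · exact h4
  have hcF : (c : F) ≠ 0 := fun h0 => hpc ((CharP.cast_eq_zero_iff F p c).1 h0)
  have hfixv : Gl hπ' y h hy2 hc' v = v := by
    rw [Gl_apply, sub_pU_self C.h2 hv0 hv, map_zero, zero_add, sub_zero]
    exact hfix v hv
  have hxv : polar Q x' v = 0 := sub_pU_ortho C.h2 hπ hv0 hv hx'
  have hN : ∑ i ∈ Finset.range (orderOf (Gl hπ' y h hy2 hc')), ((Gl hπ' y h hy2 hc') ^ i) x' ≠ 0 := by
    rw [ho]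
    have h1 : ∀ i, ((Gl hπ' y h hy2 hc') ^ i) x' = (y ^ i) x' := fun i => Gl_pow_range hπ' hy2 hc' i hx'
    simp only [h1]
    have hper : ∀ i, (y ^ (i + p ^ j)) x' = (y ^ i) x' := fun i => by
      rw [pow_add, pow_eq_one_iff_uni.2 hy3, mul_one]
    rw [hc, sum_periodic hper c, geom_eq, ← Nat.cast_smul_eq_nsmul F]
    exact smul_ne_zero hcF hy4
  have h1 := C.r2' hOm hfixv hQv hxv hN
  rw [ho] at h1
  refine C.hR.dvd _ h1 _ (Nat.lcm_dvd ?_ ?_)
  · exact (Nat.dvd_lcm_right _ _).trans (dvd_mul_left _ _)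
  · rw [pow_succ, mul_comm]
    exact Nat.mul_dvd_mul_left _ (Nat.dvd_lcm_left _ _)

end M

end Cfsg.Agent.Lib.OmNine.RSet
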