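import Mathlib
import Cfsg.Agent.Lib.OmNine.RSet

set_option autoImplicit false
set_option linter.unusedSectionVars false
set_option linter.unusedVariables false
set_option linter.unusedSimpArgs false

/-!
Every element order of the semidirect product is an element order of the orthogonal group in
dimension nine.
-/

namespace Cfsg.Agent.Lib.OmNine.Dir1

open QuadraticMap Module
open Cfsg.Agent.Lib.Witt.Quadratic Cfsg.Agent.Lib.Orth.Refl Cfsg.Agent.Lib.Orth.Spin Cfsg.Agent.Lib.Orth.Gen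
  Cfsg.Agent.Lib.Orth.Wall Cfsg.Agent.Lib.Orth.Omega Cfsg.Agent.Lib.OmNine.Proj Cfsg.Agent.Lib.OmNine.Chain
  Cfsg.Agent.Lib.OmNine.Lift Cfsg.Agent.Lib.OmNine.Split Cfsg.Agent.Lib.OmNine.RSet

universe u v w

variable {F : Type u} {V : Type v} {Y : Type w} [Field F] [AddCommGroup V] [Module F V]
  [AddCommGroup Y] [Module F Y] [FiniteDimensional F V] [FiniteDimensional F Y]
  {Q : QuadraticForm F V} {Q₈ : QuadraticForm F Y}

section proj

/-- Adding an orthogonal line to a projection. -/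
theorem isProj_add_pU (h2 : (2 : F) ≠ 0) {π : V →ₗ[F] V} (hπ : IsProj Q π) {v : V} (hv : Q v ≠ 0) (hπv : π v = 0) :
    IsProj Q (π + pU Q v) := by
  have h3 : ∀ x, π (pU Q v x) = 0 := fun x => by rw [pU_apply, map_smul, hπv, smul_zero]
  have h4 : ∀ x, pU Q v (π x) = 0 := fun x => by rw [pU_apply, hπ.adj, hπv, polar_zero_right, mul_zero, zero_smul]
  constructor
  · intro x
    simp only [LinearMap.add_apply, map_add, hπ.idem, h3, h4, (isProj_pU h2 hv).idem]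
    simp
  · intro x y
    simp only [LinearMap.add_apply, polar_add_left, polar_add_right, hπ.adj x y, (isProj_pU h2 hv).adj x y]

theorem rank_add_pU (h2 : (2 : F) ≠ 0) {π : V →ₗ[F] V} (hπ : IsProj Q π) {v : V} (hv : Q v ≠ 0) (hπv : π v = 0) :
    finrank F (LinearMap.range (π + pU Q v)) = finrank F (LinearMap.range π) + 1 := by
  have h1 := isProj_add_pU h2 hπ hv hπv
  have h3 : (π + pU Q v) v = v := by
    rw [LinearMap.add_apply, hπv, zero_add, pU_self h2 hv]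
  have h4 := finrank_sub_pU h2 h1 hv h3
  rw [add_sub_cancel_right] at h4
  exact h4.symm

variable (hY : (polarBilin Q₈).Nondegenerate) {ι : Y →ₗ[F] V} (hι : ∀ y, Q (ι y) = Q₈ y)

/-- Transport of a projection along an embedding. -/
noncomputable def liftP (hY : (polarBilin Q₈).Nondegenerate) (ι : Y →ₗ[F] V) (π : Y →ₗ[F] Y) : V →ₗ[F] V :=
  ι ∘ₗ π ∘ₗ adjι (Q := Q) hY ι

theorem liftP_apply (π : Y →ₗ[F] Y) (x : V) :
    liftP (Q := Q) hY ι π x = ι (π (adjι (Q := Q) hY ι x)) := rfl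

include hι in
theorem isProj_liftP {π : Y →ₗ[F] Y} (hπ : IsProj Q₈ π) : IsProj Q (liftP (Q := Q) hY ι π) where
  idem x := by
    rw [liftP_apply, liftP_apply, adj_ι hY hι, hπ.idem]
  adj x y := by
    rw [liftP_apply, liftP_apply, polar_comm Q (ι _) y, ← polar_adj hY y, ← polar_adj hY x, ← hπ.adj, polar_comm Q₈]

include hι in
theorem rank_liftP {π : Y →ₗ[F] Y} :
    finrank F (LinearMap.range (liftP (Q := Q) hY ι π)) = finrank F (LinearMap.range π) := by
  have h1 : LinearMap.range (liftP (Q := Q) hY ι π) = (LinearMap.range π).map ι := by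
    apply le_antisymm
    · rintro _ ⟨x, rfl⟩
      exact ⟨_, ⟨_, rfl⟩, rfl⟩
    · rintro _ ⟨_, ⟨z, rfl⟩, rfl⟩
      exact ⟨ι z, by rw [liftP_apply, adj_ι hY hι]⟩
  rw [h1]
  exact (Submodule.equivMapOfInjective ι (ι_inj hY hι) _).finrank_eq.symm

end proj

section main

variable [Fintype F] {p : ℕ} [hpf : Fact p.Prime] [CharP F p] {R : Set ℕ} (C : Ctx Q Q₈ p R)

/-- Rearranging a sum of powers. -/
theorem sum_mul_range (T : Y ≃ₗ[F] Y) (P m : ℕ) (w : Y) :
    ∑ i ∈ Finset.range (P * m), (T ^ i) w =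
      ∑ i ∈ Finset.range P, (T ^ i) (∑ l ∈ Finset.range m, ((T ^ P) ^ l) w) := by
  have h1 : ∑ i ∈ Finset.range (P * m), (T ^ i) w =
      ∑ l ∈ Finset.range m, ∑ i ∈ Finset.range P, (T ^ i) (((T ^ P) ^ l) w) := by
    induction m with
    | zero => simp
    | succ m ih =>
      rw [Nat.mul_succ, Finset.sum_range_add, ih, Finset.sum_range_succ]
      congr 1
      refine Finset.sum_congr rfl fun i _ => ?_
      rw [add_comm, pow_add, pow_mul T P m]
      rfl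
  rw [h1, Finset.sum_comm]
  refine Finset.sum_congr rfl fun i _ => ?_
  rw [map_sum]

include C

theorem liftE_fix_of_adj {h : Y ≃ₗ[F] Y} {x : V} (hx : adjι (Q := Q) C.hY C.ι x = 0) : liftE C.hY C.ι C.hι h x = x := by
  rw [liftE_apply, hx]
  simp

theorem adj_v₀ : adjι (Q := Q) C.hY C.ι C.v₀ = 0 := by
  apply C.hY.1
  intro y
  show polar Q₈ _ y = 0
  rw [polar_adj, C.hv₀]

/-- The key construction. -/
theorem exists_big {T : Y ≃ₗ[F] Y} (hT : IsOm Q₈ T) {x : Y}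
    (hN : ∑ i ∈ Finset.range (orderOf T), (T ^ i) x ≠ 0) :
    ∃ g : V ≃ₗ[F] V, IsOm Q g ∧ p * orderOf T ∣ orderOf g := by
  have hp : p.Prime := Fact.out
  have hp3 : 3 ≤ p := by
    have h1 := hp.two_le
    have h3 := p_ne_two C
    omega
  obtain ⟨π₀, τ₀, h₀, k, hπ₀, hτm, hhm, hmul, hcomm, hf1, hf2, hτ1, hτ2, hτP, hh₀c, -, -, m, hm1, hm2, hm3⟩ :=
    split (p := p) C.hY hT.mem
  have hPo := prime_pow_odd C k
  have hτOm : IsOm Q₈ τ₀ := isOm_of_odd C.h2 C.hY hτm hPo hτP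
  have hhOm : IsOm Q₈ h₀ := by
    refine ⟨hhm, ?_, ?_⟩
    · have h1 := rpM C.h2 C.hY hτm hhm
      rw [← hmul, hT.rp0, hτOm.rp0, zero_add] at h1
      exact h1.symm
    · have h1 := snM C.h2 C.hY hτm hhm
      rw [← hmul, hT.sn0, hτOm.sn0, zero_add] at h1
      exact h1.symm
  -- the sum vanishes on the kernel
  have hker : ∀ w, π₀ w = 0 → ∑ i ∈ Finset.range (orderOf T), (T ^ i) w = 0 := by
    intro w hw
    rw [hm1, sum_mul_range]
    have h1 : ∑ l ∈ Finset.range m, ((T ^ p ^ k) ^ l) w = 0 := by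
      have h3 := avgLin_apply (T ^ p ^ k) m w
      rw [← hm3, hw] at h3
      have h4 := congrArg (fun z => (m : F) • z) h3
      simp only [smul_zero, smul_smul, mul_inv_cancel₀ hm2, one_smul] at h4
      exact h4.symm
    rw [h1]
    simp
  set x₁ := π₀ x with hx₁
  have hπx₁ : π₀ x₁ = x₁ := hπ₀.idem x
  have hpowx : ∀ i, (T ^ i) x₁ = (τ₀ ^ i) x₁ := by
    intro i
    rw [hmul, hcomm.mul_pow]
    show (τ₀ ^ i) ((h₀ ^ i) x₁) = _
    rw [pow_fix (hf1 _ hπx₁)]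
  have hN₁ : ∑ i ∈ Finset.range (orderOf T), (T ^ i) x₁ ≠ 0 := by
    intro h0
    apply hN
    have h1 : x = x₁ + (x - x₁) := by abel
    rw [h1]
    simp only [map_add]
    rw [Finset.sum_add_distrib, h0, hker _ (by rw [map_sub, hπx₁, hx₁, sub_self]), add_zero]
  have hper : ∀ i, (τ₀ ^ (i + p ^ k)) x₁ = (τ₀ ^ i) x₁ := fun i => by
    rw [pow_add, hτP, mul_one]
  have huni : (uni τ₀ ^ (p ^ k - 1)) x₁ ≠ 0 := by
    intro h0
    apply hN₁
    simp only [hpowx]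
    rw [hm1, sum_periodic hper m, geom_eq, h0, smul_zero]
  have hx₁0 : x₁ ≠ 0 := fun h0 => huni (by rw [h0, map_zero])
  have hd₁ : 1 ≤ finrank F (LinearMap.range π₀) := by
    by_contra hc
    have h1 : LinearMap.range π₀ = ⊥ := Submodule.finrank_eq_zero.1 (by omega)
    have h3 : x₁ ∈ LinearMap.range π₀ := ⟨x, rfl⟩
    rw [h1] at h3
    exact hx₁0 ((Submodule.mem_bot F).1 h3)
  have hnil : uni τ₀ ^ finrank F (LinearMap.range π₀) = 0 :=
    nil_on_range hπ₀ (fun z => by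
        rw [uni_apply, uni_apply, map_sub, hτ2])
      (fun z hz => by rw [uni_apply, hτ1 z hz, sub_self])
      ⟨p ^ k, pow_eq_one_iff_uni.1 hτP⟩ hd₁
  have hPd : p ^ k ≤ finrank F (LinearMap.range π₀) := by
    by_contra hc
    apply huni
    have h1 : finrank F (LinearMap.range π₀) ≤ p ^ k - 1 := by omega
    rw [pow_eq_zero_of_le h1 hnil]
    rfl
  have hrkh := rk_of_fix_range hπ₀ (g := h₀) (fun z => ⟨hf2 z, hf1 z⟩)
  rw [C.hY8] at hrkh
  have hd₀even : Even (finrank F (LinearMap.range π₀)) := by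
    have h1 : ((rk h₀ : ℕ) : ZMod 2) = 0 := hhOm.rp0
    have h3 : Even (rk h₀) := (ZMod.natCast_eq_zero_iff_even).1 h1
    have h4 : Even (rk h₀ + finrank F (LinearMap.range π₀)) := by rw [hrkh]; decide
    exact (Nat.even_add.1 h4).1 h3
  have hP1 : p ^ k + 1 ≤ finrank F (LinearMap.range π₀) := by
    rcases hPd.lt_or_eq with h1 | h1
    · exact h1
    · exfalso
      rw [← h1] at hd₀even
      exact (Nat.not_even_iff_odd.2 hPo) hd₀even
  -- the projection on the big space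
  have hρ := isProj_liftP (Q := Q) C.hY C.hι hπ₀
  have hρv : liftP (Q := Q) C.hY C.ι π₀ C.v₀ = 0 := by
    rw [liftP_apply, adj_v₀ C, map_zero, map_zero]
  have hπ2 := isProj_add_pU C.h2 hρ C.ne hρv
  have hrk2 := rank_add_pU C.h2 hρ C.ne hρv
  rw [rank_liftP C.hY C.hι] at hrk2
  set π₂ := liftP (Q := Q) C.hY C.ι π₀ + pU Q C.v₀ with hπ₂
  obtain ⟨r, hr⟩ := hPo
  obtain ⟨y, hy, hy1, hy2, hy3, x', hx', hy4⟩ := exists_unipotent C.h2 C.hQ hπ2 (r + 1) (by omega)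
  have hlift : IsOm Q (liftE C.hY C.ι C.hι h₀) := isOm_liftE C.hY C.hι C.h2 C.hQ hhOm
  have hfix : ∀ z, π₂ z = z → liftE C.hY C.ι C.hι h₀ z = z := by
    intro z hz
    have h1 : liftE C.hY C.ι C.hι h₀ (liftP (Q := Q) C.hY C.ι π₀ z) = liftP (Q := Q) C.hY C.ι π₀ z := by
      rw [liftP_apply, liftE_ι, hf1 _ (hπ₀.idem _)]
    have h3 : liftE C.hY C.ι C.hι h₀ (pU Q C.v₀ z) = pU Q C.v₀ z := by
      rw [pU_apply, map_smul, liftE_fix_of_adj C (adj_v₀ C)]
    rw [← hz, hπ₂, LinearMap.add_apply, map_add, h1, h3]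
  have hc' : ∀ z, π₂ (liftE C.hY C.ι C.hι h₀ z) = liftE C.hY C.ι C.hι h₀ (π₂ z) := fun z => by
    rw [proj_of_fix C.hQ hπ2 hlift.mem hfix, hfix _ (hπ2.idem z)]
  have hP2 : 2 * (r + 1) + 1 = p ^ k + 2 := by omega
  rw [hP2] at hy3
  have hP3 : 2 * (r + 1) = p ^ k + 1 := by omega
  rw [hP3] at hy4
  have hyk : y ^ (p ^ (k + 1)) = 1 := by
    rw [pow_eq_one_iff_uni]
    refine pow_eq_zero_of_le ?_ hy3
    rw [pow_succ]
    have h1 : 0 < p ^ k := pow_pos hp.pos _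
    nlinarith
  have hyOm : IsOm Q y := isOm_of_odd C.h2 C.hQ hy (prime_pow_odd C (k + 1)) hyk
  have hyo : orderOf y = p ^ (k + 1) := by
    obtain ⟨i, hi, hi2⟩ := (Nat.dvd_prime_pow hp).1 (orderOf_dvd_of_pow_eq_one hyk)
    rcases hi.lt_or_eq with h1 | h1
    · exfalso
      have h3 : y ^ (p ^ k) = 1 := by
        have h4 : p ^ i ∣ p ^ k := pow_dvd_pow _ (by omega)
        rw [← hi2] at h4
        exact orderOf_dvd_iff_pow_eq_one.1 h4
      have h5 := pow_eq_one_iff_uni.1 h3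
      apply hy4
      rw [pow_eq_zero_of_le (by omega) h5]
      rfl
    · rw [hi2, h1]
  refine ⟨Gl hπ2 y _ hy2 hc', ?_, ?_⟩
  · rw [Gl_eq_mul hπ2 hy2 hc' hy1 hfix]
    exact IsOm.mul' C.h2 C.hQ hlift hyOm
  · rw [orderOf_Gl hπ2 hy2 hc' hy1 hfix, hyo, orderOf_liftE, hm1]
    have hmd : m ∣ orderOf h₀ := by
      have h1 : T ^ p ^ k = h₀ ^ p ^ k := by
        rw [hmul, hcomm.mul_pow, hτP, one_mul]
      have h3 : orderOf (T ^ p ^ k) = m := by
        rw [orderOf_pow_of_dvd (pow_ne_zero _ hp.ne_zero) ⟨m, hm1⟩, hm1]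
        exact Nat.mul_div_cancel_left _ (pow_pos hp.pos _)
      rw [← h3, h1]
      exact orderOf_pow_dvd _
    have hcop : Nat.Coprime (p ^ (k + 1)) m := by
      apply Nat.Coprime.pow_left
      rw [hp.coprime_iff_not_dvd]
      intro h1
      exact hm2 ((CharP.cast_eq_zero_iff F p m).2 h1)
    have h5 : p * (p ^ k * m) = p ^ (k + 1) * m := by ring
    rw [h5]
    exact hcop.mul_dvd_of_dvd_of_dvd (Nat.dvd_lcm_left _ _) (hmd.trans (Nat.dvd_lcm_right _ _))

/-- Direction one. -/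
theorem dir1 {n : ℕ} (hn : n ∈ R) : ∃ g : V ≃ₗ[F] V, IsOm Q g ∧ orderOf g = n := by
  obtain ⟨T, hT, h1 | ⟨v, hv, h1⟩⟩ := C.hR.el n hn
  · exact ⟨liftE C.hY C.ι C.hι T, isOm_liftE C.hY C.hι C.h2 C.hQ hT, by rw [orderOf_liftE, h1]⟩
  · obtain ⟨g, hg, hd⟩ := exists_big C hT hv
    rw [← h1] at hd
    refine ⟨g ^ (orderOf g / n), IsOm.pow' C.h2 C.hQ hg _, ?_⟩
    exact orderOf_pow_orderOf_div (orderOf_pos' g).ne' hd

end main

end Cfsg.Agent.Lib.OmNine.Dir1
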