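import Mathlib
import Cfsg.Agent.Lib.SpEight.Poly

set_option autoImplicit false
set_option linter.unusedSectionVars false
set_option linter.unusedVariables false

/-!
Self-reciprocal polynomials of degree eight without the roots `1`, `-1` over a finite field of odd order.
-/

namespace Cfsg.Agent.Lib.OmNine.PolyO

open Polynomial
open Cfsg.Agent.Lib.SpSpec.Recip Cfsg.Agent.Lib.SpEight.Poly

/-! numeric targets -/

def a1 (t : ℕ) : ℕ := 2 * t

def b1 (t : ℕ) : ℕ := 2 * (t + 1)

def a2 (t : ℕ) : ℕ := 4 * t * (t + 1)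

def b2 (t : ℕ) : ℕ := 2 * (2 * t ^ 2 + 2 * t + 1)

def a3 (t : ℕ) : ℕ := 2 * t * (4 * t ^ 2 + 6 * t + 3)

def b3 (t : ℕ) : ℕ := 2 * (t + 1) * (4 * t ^ 2 + 2 * t + 1)

def r8m (t : ℕ) : ℕ := 2 * t * (2 * t ^ 2 + 2 * t + 1)

def r8p (t : ℕ) : ℕ := 2 * (t + 1) * (2 * t ^ 2 + 2 * t + 1)

def R1 (t : ℕ) : ℕ := 4 * t * (t + 1) * (2 * t ^ 2 + 2 * t + 1)

def R2p (t : ℕ) : ℕ := 2 * t * (t + 1) * (4 * t ^ 2 + 6 * t + 3)

def R2m (t : ℕ) : ℕ := 2 * t * (t + 1) * (4 * t ^ 2 + 2 * t + 1)

theorem factsO (t : ℕ) :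
    a1 t ∣ a2 t ∧
    a1 t ∣ a3 t ∧
    a1 t ∣ r8m t ∧
    a1 t ∣ R1 t ∧
    a1 t ∣ R2p t ∧
    a1 t ∣ R2m t ∧
    b1 t ∣ a2 t ∧
    b1 t ∣ b3 t ∧
    b1 t ∣ r8p t ∧
    b1 t ∣ R1 t ∧
    b1 t ∣ R2p t ∧
    b1 t ∣ R2m t ∧
    a2 t ∣ R1 t ∧
    b2 t ∣ r8m t ∧
    b2 t ∣ r8p t ∧
    b2 t ∣ R1 t ∧
    a3 t ∣ R2p t ∧
    b3 t ∣ R2m t ∧
    r8m t ∣ R1 t ∧
    r8p t ∣ R1 t := by
  simp only [a1, b1, a2, b2, a3, b3, r8m, r8p, R1, R2p, R2m]
  refine ⟨?_, ?_, ?_, ?_, ?_, ?_, ?_, ?_, ?_, ?_, ?_, ?_, ?_, ?_, ?_, ?_, ?_, ?_, ?_, ?_⟩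
  · exact ⟨2 * (t + 1), by ring⟩
  · exact ⟨1 * (4 * t ^ 2 + 6 * t + 3), by ring⟩
  · exact ⟨1 * (2 * t ^ 2 + 2 * t + 1), by ring⟩
  · exact ⟨2 * (t + 1) * (2 * t ^ 2 + 2 * t + 1), by ring⟩
  · exact ⟨1 * (t + 1) * (4 * t ^ 2 + 6 * t + 3), by ring⟩
  · exact ⟨1 * (t + 1) * (4 * t ^ 2 + 2 * t + 1), by ring⟩
  · exact ⟨2 * t, by ring⟩
  · exact ⟨1 * (4 * t ^ 2 + 2 * t + 1), by ring⟩
  · exact ⟨1 * (2 * t ^ 2 + 2 * t + 1), by ring⟩
  · exact ⟨2 * t * (2 * t ^ 2 + 2 * t + 1), by ring⟩
  · exact ⟨1 * t * (4 * t ^ 2 + 6 * t + 3), by ring⟩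
  · exact ⟨1 * t * (4 * t ^ 2 + 2 * t + 1), by ring⟩
  · exact ⟨1 * (2 * t ^ 2 + 2 * t + 1), by ring⟩
  · exact ⟨1 * t, by ring⟩
  · exact ⟨1 * (t + 1), by ring⟩
  · exact ⟨2 * t * (t + 1), by ring⟩
  · exact ⟨1 * (t + 1), by ring⟩
  · exact ⟨1 * t, by ring⟩
  · exact ⟨2 * (t + 1), by ring⟩
  · exact ⟨2 * t, by ring⟩


def fp (t : ℕ) : ℕ → ℕ
  | 1 => b1 t
  | 2 => b2 t
  | 3 => b3 t
  | _ => 0

def fm (t : ℕ) : ℕ → ℕ
  | 1 => a1 t
  | 2 => a2 t
  | 3 => a3 t
  | _ => 0

theorem fp_eq (t d : ℕ) (h1 : 1 ≤ d) (h3 : d ≤ 3) : (2 * t + 1) ^ d + 1 = fp t d := by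
  interval_cases d <;> simp only [fp, b1, b2, b3] <;> ring

theorem fm_eq (t d : ℕ) (h1 : 1 ≤ d) (h3 : d ≤ 3) : (2 * t + 1) ^ d - 1 = fm t d := by
  apply Nat.sub_eq_of_eq_add
  interval_cases d <;> simp only [fm, a1, a2, a3] <;> ring

/-- Data collected while peeling off reciprocal factors. -/
inductive PartsO (t : ℕ) : ℕ → ℕ → ℕ → Prop
  | nil : PartsO t 0 1 0
  | plus {w m A : ℕ} (d e : ℕ) (hd : 1 ≤ d) (hd3 : d ≤ 3) (he : 1 ≤ e) (h : PartsO t w m A) :
      PartsO t (w + d * e) (Nat.lcm (fp t d) m) (max e A)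
  | minus {w m A : ℕ} (d e : ℕ) (hd : 1 ≤ d) (hd3 : d ≤ 3) (he : 1 ≤ e) (h : PartsO t w m A) :
      PartsO t (w + d * e) (Nat.lcm (fm t d) m) (max e A)

theorem PartsO.inv {t w m A : ℕ} (h : PartsO t w m A) : (w = 0 ∧ m = 1 ∧ A = 0) ∨
    ∃ d e w' m' A', 1 ≤ d ∧ d ≤ 3 ∧ 1 ≤ e ∧ w = w' + d * e ∧ PartsO t w' m' A' ∧
      (m = Nat.lcm (fp t d) m' ∨ m = Nat.lcm (fm t d) m') ∧ A = max e A' := by
  cases h with
  | nil => exact Or.inl ⟨rfl, rfl, rfl⟩
  | plus d e hd hd3 he h => exact Or.inr ⟨d, e, _, _, _, hd, hd3, he, rfl, h, Or.inl rfl, rfl⟩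
  | minus d e hd hd3 he h => exact Or.inr ⟨d, e, _, _, _, hd, hd3, he, rfl, h, Or.inr rfl, rfl⟩

theorem partsO_0 {t m A : ℕ} (h : PartsO t 0 m A) : m = 1 ∧ A = 0 := by
  rcases PartsO.inv h with ⟨-, h1, h2⟩ | ⟨d, e, w', m', A', hd, hd3, he, hw, hP, hm, hA⟩
  · exact ⟨h1, h2⟩
  · exfalso
    have : 1 ≤ d * e := Nat.mul_pos hd he
    omega

def PO1 (t m A : ℕ) : Prop :=
  (A ≤ 1 ∧ m ∣ a1 t) ∨ (A ≤ 1 ∧ m ∣ b1 t)

def PO2 (t m A : ℕ) : Prop :=
  (A ≤ 1 ∧ m ∣ a2 t) ∨ (A ≤ 1 ∧ m ∣ b2 t) ∨ (A ≤ 2 ∧ m ∣ a1 t) ∨ (A ≤ 2 ∧ m ∣ b1 t)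

def PO3 (t m A : ℕ) : Prop :=
  (A ≤ 1 ∧ m ∣ a3 t) ∨ (A ≤ 1 ∧ m ∣ b3 t) ∨ (A ≤ 1 ∧ m ∣ r8p t) ∨ (A ≤ 1 ∧ m ∣ r8m t) ∨ (A ≤ 2 ∧ m ∣ a2 t) ∨ (A ≤ 3 ∧ m ∣ a1 t) ∨ (A ≤ 3 ∧ m ∣ b1 t)

def PO4 (t m A : ℕ) : Prop :=
  (A ≤ 1 ∧ m ∣ R1 t) ∨ (A ≤ 1 ∧ m ∣ R2p t) ∨ (A ≤ 1 ∧ m ∣ R2m t) ∨ (A ≤ 3 ∧ m ∣ a2 t) ∨ (A ≤ 2 ∧ m ∣ r8m t) ∨ (A ≤ 2 ∧ m ∣ r8p t) ∨ (A ≤ 4 ∧ m ∣ a1 t) ∨ (A ≤ 4 ∧ m ∣ b1 t)

theorem partsO_1 {t m A : ℕ} (h : PartsO t 1 m A) : PO1 t m A := by
  obtain ⟨f0, f1, f2, f3, f4, f5, f6, f7, f8, f9, f10, f11, f12, f13, f14, f15, f16, f17, f18, f19⟩ := factsO t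
  rcases PartsO.inv h with ⟨h0, -, -⟩ | ⟨d, e, w', m', A', hd, hd3, he, hw, hP, hm, hA⟩
  · omega
  have he' : e ≤ 1 := by nlinarith
  have hcases : (d = 1 ∧ e = 1 ∧ w' = 0) := by
    interval_cases d <;> interval_cases e <;> omega
  rcases hcases with ⟨rfl, rfl, rfl⟩
  · -- d=1 e=1 w=0
    obtain ⟨rfl, rfl⟩ := partsO_0 hP
    have hx : 1 ∣ 1 := dvd_rfl
    simp only [fp, fm] at hm
    rcases hm with rfl | rfl
    · first
      | (exact Or.inl ⟨by omega, Nat.lcm_dvd (by first | assumption | exact dvd_rfl | exact one_dvd _) (hx.trans (by first | assumption | exact dvd_rfl | exact one_dvd _))⟩)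
      | (exact Or.inr (⟨by omega, Nat.lcm_dvd (by first | assumption | exact dvd_rfl | exact one_dvd _) (hx.trans (by first | assumption | exact dvd_rfl | exact one_dvd _))⟩))
    · first
      | (exact Or.inl ⟨by omega, Nat.lcm_dvd (by first | assumption | exact dvd_rfl | exact one_dvd _) (hx.trans (by first | assumption | exact dvd_rfl | exact one_dvd _))⟩)
      | (exact Or.inr (⟨by omega, Nat.lcm_dvd (by first | assumption | exact dvd_rfl | exact one_dvd _) (hx.trans (by first | assumption | exact dvd_rfl | exact one_dvd _))⟩))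

theorem partsO_2 {t m A : ℕ} (h : PartsO t 2 m A) : PO2 t m A := by
  obtain ⟨f0, f1, f2, f3, f4, f5, f6, f7, f8, f9, f10, f11, f12, f13, f14, f15, f16, f17, f18, f19⟩ := factsO t
  rcases PartsO.inv h with ⟨h0, -, -⟩ | ⟨d, e, w', m', A', hd, hd3, he, hw, hP, hm, hA⟩
  · omega
  have he' : e ≤ 2 := by nlinarith
  have hcases : (d = 2 ∧ e = 1 ∧ w' = 0) ∨ (d = 1 ∧ e = 2 ∧ w' = 0) ∨ (d = 1 ∧ e = 1 ∧ w' = 1) := by
    interval_cases d <;> interval_cases e <;> omega
  rcases hcases with ⟨rfl, rfl, rfl⟩ | ⟨rfl, rfl, rfl⟩ | ⟨rfl, rfl, rfl⟩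
  · -- d=2 e=1 w=0
    obtain ⟨rfl, rfl⟩ := partsO_0 hP
    have hx : 1 ∣ 1 := dvd_rfl
    simp only [fp, fm] at hm
    rcases hm with rfl | rfl
    · first
      | (exact Or.inl ⟨by omega, Nat.lcm_dvd (by first | assumption | exact dvd_rfl | exact one_dvd _) (hx.trans (by first | assumption | exact dvd_rfl | exact one_dvd _))⟩)
      | (exact Or.inr (Or.inl ⟨by omega, Nat.lcm_dvd (by first | assumption | exact dvd_rfl | exact one_dvd _) (hx.trans (by first | assumption | exact dvd_rfl | exact one_dvd _))⟩))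
      | (exact Or.inr (Or.inr (Or.inl ⟨by omega, Nat.lcm_dvd (by first | assumption | exact dvd_rfl | exact one_dvd _) (hx.trans (by first | assumption | exact dvd_rfl | exact one_dvd _))⟩)))
      | (exact Or.inr (Or.inr (Or.inr (⟨by omega, Nat.lcm_dvd (by first | assumption | exact dvd_rfl | exact one_dvd _) (hx.trans (by first | assumption | exact dvd_rfl | exact one_dvd _))⟩))))
    · first
      | (exact Or.inl ⟨by omega, Nat.lcm_dvd (by first | assumption | exact dvd_rfl | exact one_dvd _) (hx.trans (by first | assumption | exact dvd_rfl | exact one_dvd _))⟩)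
      | (exact Or.inr (Or.inl ⟨by omega, Nat.lcm_dvd (by first | assumption | exact dvd_rfl | exact one_dvd _) (hx.trans (by first | assumption | exact dvd_rfl | exact one_dvd _))⟩))
      | (exact Or.inr (Or.inr (Or.inl ⟨by omega, Nat.lcm_dvd (by first | assumption | exact dvd_rfl | exact one_dvd _) (hx.trans (by first | assumption | exact dvd_rfl | exact one_dvd _))⟩)))
      | (exact Or.inr (Or.inr (Or.inr (⟨by omega, Nat.lcm_dvd (by first | assumption | exact dvd_rfl | exact one_dvd _) (hx.trans (by first | assumption | exact dvd_rfl | exact one_dvd _))⟩))))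
  · -- d=1 e=2 w=0
    obtain ⟨rfl, rfl⟩ := partsO_0 hP
    have hx : 1 ∣ 1 := dvd_rfl
    simp only [fp, fm] at hm
    rcases hm with rfl | rfl
    · first
      | (exact Or.inl ⟨by omega, Nat.lcm_dvd (by first | assumption | exact dvd_rfl | exact one_dvd _) (hx.trans (by first | assumption | exact dvd_rfl | exact one_dvd _))⟩)
      | (exact Or.inr (Or.inl ⟨by omega, Nat.lcm_dvd (by first | assumption | exact dvd_rfl | exact one_dvd _) (hx.trans (by first | assumption | exact dvd_rfl | exact one_dvd _))⟩))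
      | (exact Or.inr (Or.inr (Or.inl ⟨by omega, Nat.lcm_dvd (by first | assumption | exact dvd_rfl | exact one_dvd _) (hx.trans (by first | assumption | exact dvd_rfl | exact one_dvd _))⟩)))
      | (exact Or.inr (Or.inr (Or.inr (⟨by omega, Nat.lcm_dvd (by first | assumption | exact dvd_rfl | exact one_dvd _) (hx.trans (by first | assumption | exact dvd_rfl | exact one_dvd _))⟩))))
    · first
      | (exact Or.inl ⟨by omega, Nat.lcm_dvd (by first | assumption | exact dvd_rfl | exact one_dvd _) (hx.trans (by first | assumption | exact dvd_rfl | exact one_dvd _))⟩)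
      | (exact Or.inr (Or.inl ⟨by omega, Nat.lcm_dvd (by first | assumption | exact dvd_rfl | exact one_dvd _) (hx.trans (by first | assumption | exact dvd_rfl | exact one_dvd _))⟩))
      | (exact Or.inr (Or.inr (Or.inl ⟨by omega, Nat.lcm_dvd (by first | assumption | exact dvd_rfl | exact one_dvd _) (hx.trans (by first | assumption | exact dvd_rfl | exact one_dvd _))⟩)))
      | (exact Or.inr (Or.inr (Or.inr (⟨by omega, Nat.lcm_dvd (by first | assumption | exact dvd_rfl | exact one_dvd _) (hx.trans (by first | assumption | exact dvd_rfl | exact one_dvd _))⟩))))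
  · -- d=1 e=1 w=1
    have hP' := partsO_1 hP
    unfold PO1 at hP'
    simp only [fp, fm] at hm
    rcases hm with rfl | rfl
    · rcases hP' with ⟨h1, hx⟩ | ⟨h1, hx⟩
      all_goals first
      | (exact Or.inl ⟨by omega, Nat.lcm_dvd (by first | assumption | exact dvd_rfl | exact one_dvd _) (hx.trans (by first | assumption | exact dvd_rfl | exact one_dvd _))⟩)
      | (exact Or.inr (Or.inl ⟨by omega, Nat.lcm_dvd (by first | assumption | exact dvd_rfl | exact one_dvd _) (hx.trans (by first | assumption | exact dvd_rfl | exact one_dvd _))⟩))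
      | (exact Or.inr (Or.inr (Or.inl ⟨by omega, Nat.lcm_dvd (by first | assumption | exact dvd_rfl | exact one_dvd _) (hx.trans (by first | assumption | exact dvd_rfl | exact one_dvd _))⟩)))
      | (exact Or.inr (Or.inr (Or.inr (⟨by omega, Nat.lcm_dvd (by first | assumption | exact dvd_rfl | exact one_dvd _) (hx.trans (by first | assumption | exact dvd_rfl | exact one_dvd _))⟩))))
    · rcases hP' with ⟨h1, hx⟩ | ⟨h1, hx⟩
      all_goals first
      | (exact Or.inl ⟨by omega, Nat.lcm_dvd (by first | assumption | exact dvd_rfl | exact one_dvd _) (hx.trans (by first | assumption | exact dvd_rfl | exact one_dvd _))⟩)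
      | (exact Or.inr (Or.inl ⟨by omega, Nat.lcm_dvd (by first | assumption | exact dvd_rfl | exact one_dvd _) (hx.trans (by first | assumption | exact dvd_rfl | exact one_dvd _))⟩))
      | (exact Or.inr (Or.inr (Or.inl ⟨by omega, Nat.lcm_dvd (by first | assumption | exact dvd_rfl | exact one_dvd _) (hx.trans (by first | assumption | exact dvd_rfl | exact one_dvd _))⟩)))
      | (exact Or.inr (Or.inr (Or.inr (⟨by omega, Nat.lcm_dvd (by first | assumption | exact dvd_rfl | exact one_dvd _) (hx.trans (by first | assumption | exact dvd_rfl | exact one_dvd _))⟩))))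

theorem partsO_3 {t m A : ℕ} (h : PartsO t 3 m A) : PO3 t m A := by
  obtain ⟨f0, f1, f2, f3, f4, f5, f6, f7, f8, f9, f10, f11, f12, f13, f14, f15, f16, f17, f18, f19⟩ := factsO t
  rcases PartsO.inv h with ⟨h0, -, -⟩ | ⟨d, e, w', m', A', hd, hd3, he, hw, hP, hm, hA⟩
  · omega
  have he' : e ≤ 3 := by nlinarith
  have hcases : (d = 3 ∧ e = 1 ∧ w' = 0) ∨ (d = 1 ∧ e = 3 ∧ w' = 0) ∨ (d = 2 ∧ e = 1 ∧ w' = 1) ∨ (d = 1 ∧ e = 2 ∧ w' = 1) ∨ (d = 1 ∧ e = 1 ∧ w' = 2) := by
    interval_cases d <;> interval_cases e <;> omega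
  rcases hcases with ⟨rfl, rfl, rfl⟩ | ⟨rfl, rfl, rfl⟩ | ⟨rfl, rfl, rfl⟩ | ⟨rfl, rfl, rfl⟩ | ⟨rfl, rfl, rfl⟩
  · -- d=3 e=1 w=0
    obtain ⟨rfl, rfl⟩ := partsO_0 hP
    have hx : 1 ∣ 1 := dvd_rfl
    simp only [fp, fm] at hm
    rcases hm with rfl | rfl
    · first
      | (exact Or.inl ⟨by omega, Nat.lcm_dvd (by first | assumption | exact dvd_rfl | exact one_dvd _) (hx.trans (by first | assumption | exact dvd_rfl | exact one_dvd _))⟩)
      | (exact Or.inr (Or.inl ⟨by omega, Nat.lcm_dvd (by first | assumption | exact dvd_rfl | exact one_dvd _) (hx.trans (by first | assumption | exact dvd_rfl | exact one_dvd _))⟩))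
      | (exact Or.inr (Or.inr (Or.inl ⟨by omega, Nat.lcm_dvd (by first | assumption | exact dvd_rfl | exact one_dvd _) (hx.trans (by first | assumption | exact dvd_rfl | exact one_dvd _))⟩)))
      | (exact Or.inr (Or.inr (Or.inr (Or.inl ⟨by omega, Nat.lcm_dvd (by first | assumption | exact dvd_rfl | exact one_dvd _) (hx.trans (by first | assumption | exact dvd_rfl | exact one_dvd _))⟩))))
      | (exact Or.inr (Or.inr (Or.inr (Or.inr (Or.inl ⟨by omega, Nat.lcm_dvd (by first | assumption | exact dvd_rfl | exact one_dvd _) (hx.trans (by first | assumption | exact dvd_rfl | exact one_dvd _))⟩)))))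
      | (exact Or.inr (Or.inr (Or.inr (Or.inr (Or.inr (Or.inl ⟨by omega, Nat.lcm_dvd (by first | assumption | exact dvd_rfl | exact one_dvd _) (hx.trans (by first | assumption | exact dvd_rfl | exact one_dvd _))⟩))))))
      | (exact Or.inr (Or.inr (Or.inr (Or.inr (Or.inr (Or.inr (⟨by omega, Nat.lcm_dvd (by first | assumption | exact dvd_rfl | exact one_dvd _) (hx.trans (by first | assumption | exact dvd_rfl | exact one_dvd _))⟩)))))))
    · first
      | (exact Or.inl ⟨by omega, Nat.lcm_dvd (by first | assumption | exact dvd_rfl | exact one_dvd _) (hx.trans (by first | assumption | exact dvd_rfl | exact one_dvd _))⟩)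
      | (exact Or.inr (Or.inl ⟨by omega, Nat.lcm_dvd (by first | assumption | exact dvd_rfl | exact one_dvd _) (hx.trans (by first | assumption | exact dvd_rfl | exact one_dvd _))⟩))
      | (exact Or.inr (Or.inr (Or.inl ⟨by omega, Nat.lcm_dvd (by first | assumption | exact dvd_rfl | exact one_dvd _) (hx.trans (by first | assumption | exact dvd_rfl | exact one_dvd _))⟩)))
      | (exact Or.inr (Or.inr (Or.inr (Or.inl ⟨by omega, Nat.lcm_dvd (by first | assumption | exact dvd_rfl | exact one_dvd _) (hx.trans (by first | assumption | exact dvd_rfl | exact one_dvd _))⟩))))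
      | (exact Or.inr (Or.inr (Or.inr (Or.inr (Or.inl ⟨by omega, Nat.lcm_dvd (by first | assumption | exact dvd_rfl | exact one_dvd _) (hx.trans (by first | assumption | exact dvd_rfl | exact one_dvd _))⟩)))))
      | (exact Or.inr (Or.inr (Or.inr (Or.inr (Or.inr (Or.inl ⟨by omega, Nat.lcm_dvd (by first | assumption | exact dvd_rfl | exact one_dvd _) (hx.trans (by first | assumption | exact dvd_rfl | exact one_dvd _))⟩))))))
      | (exact Or.inr (Or.inr (Or.inr (Or.inr (Or.inr (Or.inr (⟨by omega, Nat.lcm_dvd (by first | assumption | exact dvd_rfl | exact one_dvd _) (hx.trans (by first | assumption | exact dvd_rfl | exact one_dvd _))⟩)))))))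
  · -- d=1 e=3 w=0
    obtain ⟨rfl, rfl⟩ := partsO_0 hP
    have hx : 1 ∣ 1 := dvd_rfl
    simp only [fp, fm] at hm
    rcases hm with rfl | rfl
    · first
      | (exact Or.inl ⟨by omega, Nat.lcm_dvd (by first | assumption | exact dvd_rfl | exact one_dvd _) (hx.trans (by first | assumption | exact dvd_rfl | exact one_dvd _))⟩)
      | (exact Or.inr (Or.inl ⟨by omega, Nat.lcm_dvd (by first | assumption | exact dvd_rfl | exact one_dvd _) (hx.trans (by first | assumption | exact dvd_rfl | exact one_dvd _))⟩))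
      | (exact Or.inr (Or.inr (Or.inl ⟨by omega, Nat.lcm_dvd (by first | assumption | exact dvd_rfl | exact one_dvd _) (hx.trans (by first | assumption | exact dvd_rfl | exact one_dvd _))⟩)))
      | (exact Or.inr (Or.inr (Or.inr (Or.inl ⟨by omega, Nat.lcm_dvd (by first | assumption | exact dvd_rfl | exact one_dvd _) (hx.trans (by first | assumption | exact dvd_rfl | exact one_dvd _))⟩))))
      | (exact Or.inr (Or.inr (Or.inr (Or.inr (Or.inl ⟨by omega, Nat.lcm_dvd (by first | assumption | exact dvd_rfl | exact one_dvd _) (hx.trans (by first | assumption | exact dvd_rfl | exact one_dvd _))⟩)))))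
      | (exact Or.inr (Or.inr (Or.inr (Or.inr (Or.inr (Or.inl ⟨by omega, Nat.lcm_dvd (by first | assumption | exact dvd_rfl | exact one_dvd _) (hx.trans (by first | assumption | exact dvd_rfl | exact one_dvd _))⟩))))))
      | (exact Or.inr (Or.inr (Or.inr (Or.inr (Or.inr (Or.inr (⟨by omega, Nat.lcm_dvd (by first | assumption | exact dvd_rfl | exact one_dvd _) (hx.trans (by first | assumption | exact dvd_rfl | exact one_dvd _))⟩)))))))
    · first
      | (exact Or.inl ⟨by omega, Nat.lcm_dvd (by first | assumption | exact dvd_rfl | exact one_dvd _) (hx.trans (by first | assumption | exact dvd_rfl | exact one_dvd _))⟩)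
      | (exact Or.inr (Or.inl ⟨by omega, Nat.lcm_dvd (by first | assumption | exact dvd_rfl | exact one_dvd _) (hx.trans (by first | assumption | exact dvd_rfl | exact one_dvd _))⟩))
      | (exact Or.inr (Or.inr (Or.inl ⟨by omega, Nat.lcm_dvd (by first | assumption | exact dvd_rfl | exact one_dvd _) (hx.trans (by first | assumption | exact dvd_rfl | exact one_dvd _))⟩)))
      | (exact Or.inr (Or.inr (Or.inr (Or.inl ⟨by omega, Nat.lcm_dvd (by first | assumption | exact dvd_rfl | exact one_dvd _) (hx.trans (by first | assumption | exact dvd_rfl | exact one_dvd _))⟩))))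
      | (exact Or.inr (Or.inr (Or.inr (Or.inr (Or.inl ⟨by omega, Nat.lcm_dvd (by first | assumption | exact dvd_rfl | exact one_dvd _) (hx.trans (by first | assumption | exact dvd_rfl | exact one_dvd _))⟩)))))
      | (exact Or.inr (Or.inr (Or.inr (Or.inr (Or.inr (Or.inl ⟨by omega, Nat.lcm_dvd (by first | assumption | exact dvd_rfl | exact one_dvd _) (hx.trans (by first | assumption | exact dvd_rfl | exact one_dvd _))⟩))))))
      | (exact Or.inr (Or.inr (Or.inr (Or.inr (Or.inr (Or.inr (⟨by omega, Nat.lcm_dvd (by first | assumption | exact dvd_rfl | exact one_dvd _) (hx.trans (by first | assumption | exact dvd_rfl | exact one_dvd _))⟩)))))))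
  · -- d=2 e=1 w=1
    have hP' := partsO_1 hP
    unfold PO1 at hP'
    simp only [fp, fm] at hm
    rcases hm with rfl | rfl
    · rcases hP' with ⟨h1, hx⟩ | ⟨h1, hx⟩
      all_goals first
      | (exact Or.inl ⟨by omega, Nat.lcm_dvd (by first | assumption | exact dvd_rfl | exact one_dvd _) (hx.trans (by first | assumption | exact dvd_rfl | exact one_dvd _))⟩)
      | (exact Or.inr (Or.inl ⟨by omega, Nat.lcm_dvd (by first | assumption | exact dvd_rfl | exact one_dvd _) (hx.trans (by first | assumption | exact dvd_rfl | exact one_dvd _))⟩))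
      | (exact Or.inr (Or.inr (Or.inl ⟨by omega, Nat.lcm_dvd (by first | assumption | exact dvd_rfl | exact one_dvd _) (hx.trans (by first | assumption | exact dvd_rfl | exact one_dvd _))⟩)))
      | (exact Or.inr (Or.inr (Or.inr (Or.inl ⟨by omega, Nat.lcm_dvd (by first | assumption | exact dvd_rfl | exact one_dvd _) (hx.trans (by first | assumption | exact dvd_rfl | exact one_dvd _))⟩))))
      | (exact Or.inr (Or.inr (Or.inr (Or.inr (Or.inl ⟨by omega, Nat.lcm_dvd (by first | assumption | exact dvd_rfl | exact one_dvd _) (hx.trans (by first | assumption | exact dvd_rfl | exact one_dvd _))⟩)))))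
      | (exact Or.inr (Or.inr (Or.inr (Or.inr (Or.inr (Or.inl ⟨by omega, Nat.lcm_dvd (by first | assumption | exact dvd_rfl | exact one_dvd _) (hx.trans (by first | assumption | exact dvd_rfl | exact one_dvd _))⟩))))))
      | (exact Or.inr (Or.inr (Or.inr (Or.inr (Or.inr (Or.inr (⟨by omega, Nat.lcm_dvd (by first | assumption | exact dvd_rfl | exact one_dvd _) (hx.trans (by first | assumption | exact dvd_rfl | exact one_dvd _))⟩)))))))
    · rcases hP' with ⟨h1, hx⟩ | ⟨h1, hx⟩
      all_goals first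
      | (exact Or.inl ⟨by omega, Nat.lcm_dvd (by first | assumption | exact dvd_rfl | exact one_dvd _) (hx.trans (by first | assumption | exact dvd_rfl | exact one_dvd _))⟩)
      | (exact Or.inr (Or.inl ⟨by omega, Nat.lcm_dvd (by first | assumption | exact dvd_rfl | exact one_dvd _) (hx.trans (by first | assumption | exact dvd_rfl | exact one_dvd _))⟩))
      | (exact Or.inr (Or.inr (Or.inl ⟨by omega, Nat.lcm_dvd (by first | assumption | exact dvd_rfl | exact one_dvd _) (hx.trans (by first | assumption | exact dvd_rfl | exact one_dvd _))⟩)))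
      | (exact Or.inr (Or.inr (Or.inr (Or.inl ⟨by omega, Nat.lcm_dvd (by first | assumption | exact dvd_rfl | exact one_dvd _) (hx.trans (by first | assumption | exact dvd_rfl | exact one_dvd _))⟩))))
      | (exact Or.inr (Or.inr (Or.inr (Or.inr (Or.inl ⟨by omega, Nat.lcm_dvd (by first | assumption | exact dvd_rfl | exact one_dvd _) (hx.trans (by first | assumption | exact dvd_rfl | exact one_dvd _))⟩)))))
      | (exact Or.inr (Or.inr (Or.inr (Or.inr (Or.inr (Or.inl ⟨by omega, Nat.lcm_dvd (by first | assumption | exact dvd_rfl | exact one_dvd _) (hx.trans (by first | assumption | exact dvd_rfl | exact one_dvd _))⟩))))))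
      | (exact Or.inr (Or.inr (Or.inr (Or.inr (Or.inr (Or.inr (⟨by omega, Nat.lcm_dvd (by first | assumption | exact dvd_rfl | exact one_dvd _) (hx.trans (by first | assumption | exact dvd_rfl | exact one_dvd _))⟩)))))))
  · -- d=1 e=2 w=1
    have hP' := partsO_1 hP
    unfold PO1 at hP'
    simp only [fp, fm] at hm
    rcases hm with rfl | rfl
    · rcases hP' with ⟨h1, hx⟩ | ⟨h1, hx⟩
      all_goals first
      | (exact Or.inl ⟨by omega, Nat.lcm_dvd (by first | assumption | exact dvd_rfl | exact one_dvd _) (hx.trans (by first | assumption | exact dvd_rfl | exact one_dvd _))⟩)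
      | (exact Or.inr (Or.inl ⟨by omega, Nat.lcm_dvd (by first | assumption | exact dvd_rfl | exact one_dvd _) (hx.trans (by first | assumption | exact dvd_rfl | exact one_dvd _))⟩))
      | (exact Or.inr (Or.inr (Or.inl ⟨by omega, Nat.lcm_dvd (by first | assumption | exact dvd_rfl | exact one_dvd _) (hx.trans (by first | assumption | exact dvd_rfl | exact one_dvd _))⟩)))
      | (exact Or.inr (Or.inr (Or.inr (Or.inl ⟨by omega, Nat.lcm_dvd (by first | assumption | exact dvd_rfl | exact one_dvd _) (hx.trans (by first | assumption | exact dvd_rfl | exact one_dvd _))⟩))))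
      | (exact Or.inr (Or.inr (Or.inr (Or.inr (Or.inl ⟨by omega, Nat.lcm_dvd (by first | assumption | exact dvd_rfl | exact one_dvd _) (hx.trans (by first | assumption | exact dvd_rfl | exact one_dvd _))⟩)))))
      | (exact Or.inr (Or.inr (Or.inr (Or.inr (Or.inr (Or.inl ⟨by omega, Nat.lcm_dvd (by first | assumption | exact dvd_rfl | exact one_dvd _) (hx.trans (by first | assumption | exact dvd_rfl | exact one_dvd _))⟩))))))
      | (exact Or.inr (Or.inr (Or.inr (Or.inr (Or.inr (Or.inr (⟨by omega, Nat.lcm_dvd (by first | assumption | exact dvd_rfl | exact one_dvd _) (hx.trans (by first | assumption | exact dvd_rfl | exact one_dvd _))⟩)))))))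
    · rcases hP' with ⟨h1, hx⟩ | ⟨h1, hx⟩
      all_goals first
      | (exact Or.inl ⟨by omega, Nat.lcm_dvd (by first | assumption | exact dvd_rfl | exact one_dvd _) (hx.trans (by first | assumption | exact dvd_rfl | exact one_dvd _))⟩)
      | (exact Or.inr (Or.inl ⟨by omega, Nat.lcm_dvd (by first | assumption | exact dvd_rfl | exact one_dvd _) (hx.trans (by first | assumption | exact dvd_rfl | exact one_dvd _))⟩))
      | (exact Or.inr (Or.inr (Or.inl ⟨by omega, Nat.lcm_dvd (by first | assumption | exact dvd_rfl | exact one_dvd _) (hx.trans (by first | assumption | exact dvd_rfl | exact one_dvd _))⟩)))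
      | (exact Or.inr (Or.inr (Or.inr (Or.inl ⟨by omega, Nat.lcm_dvd (by first | assumption | exact dvd_rfl | exact one_dvd _) (hx.trans (by first | assumption | exact dvd_rfl | exact one_dvd _))⟩))))
      | (exact Or.inr (Or.inr (Or.inr (Or.inr (Or.inl ⟨by omega, Nat.lcm_dvd (by first | assumption | exact dvd_rfl | exact one_dvd _) (hx.trans (by first | assumption | exact dvd_rfl | exact one_dvd _))⟩)))))
      | (exact Or.inr (Or.inr (Or.inr (Or.inr (Or.inr (Or.inl ⟨by omega, Nat.lcm_dvd (by first | assumption | exact dvd_rfl | exact one_dvd _) (hx.trans (by first | assumption | exact dvd_rfl | exact one_dvd _))⟩))))))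
      | (exact Or.inr (Or.inr (Or.inr (Or.inr (Or.inr (Or.inr (⟨by omega, Nat.lcm_dvd (by first | assumption | exact dvd_rfl | exact one_dvd _) (hx.trans (by first | assumption | exact dvd_rfl | exact one_dvd _))⟩)))))))
  · -- d=1 e=1 w=2
    have hP' := partsO_2 hP
    unfold PO2 at hP'
    simp only [fp, fm] at hm
    rcases hm with rfl | rfl
    · rcases hP' with ⟨h1, hx⟩ | ⟨h1, hx⟩ | ⟨h1, hx⟩ | ⟨h1, hx⟩
      all_goals first
      | (exact Or.inl ⟨by omega, Nat.lcm_dvd (by first | assumption | exact dvd_rfl | exact one_dvd _) (hx.trans (by first | assumption | exact dvd_rfl | exact one_dvd _))⟩)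
      | (exact Or.inr (Or.inl ⟨by omega, Nat.lcm_dvd (by first | assumption | exact dvd_rfl | exact one_dvd _) (hx.trans (by first | assumption | exact dvd_rfl | exact one_dvd _))⟩))
      | (exact Or.inr (Or.inr (Or.inl ⟨by omega, Nat.lcm_dvd (by first | assumption | exact dvd_rfl | exact one_dvd _) (hx.trans (by first | assumption | exact dvd_rfl | exact one_dvd _))⟩)))
      | (exact Or.inr (Or.inr (Or.inr (Or.inl ⟨by omega, Nat.lcm_dvd (by first | assumption | exact dvd_rfl | exact one_dvd _) (hx.trans (by first | assumption | exact dvd_rfl | exact one_dvd _))⟩))))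
      | (exact Or.inr (Or.inr (Or.inr (Or.inr (Or.inl ⟨by omega, Nat.lcm_dvd (by first | assumption | exact dvd_rfl | exact one_dvd _) (hx.trans (by first | assumption | exact dvd_rfl | exact one_dvd _))⟩)))))
      | (exact Or.inr (Or.inr (Or.inr (Or.inr (Or.inr (Or.inl ⟨by omega, Nat.lcm_dvd (by first | assumption | exact dvd_rfl | exact one_dvd _) (hx.trans (by first | assumption | exact dvd_rfl | exact one_dvd _))⟩))))))
      | (exact Or.inr (Or.inr (Or.inr (Or.inr (Or.inr (Or.inr (⟨by omega, Nat.lcm_dvd (by first | assumption | exact dvd_rfl | exact one_dvd _) (hx.trans (by first | assumption | exact dvd_rfl | exact one_dvd _))⟩)))))))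
    · rcases hP' with ⟨h1, hx⟩ | ⟨h1, hx⟩ | ⟨h1, hx⟩ | ⟨h1, hx⟩
      all_goals first
      | (exact Or.inl ⟨by omega, Nat.lcm_dvd (by first | assumption | exact dvd_rfl | exact one_dvd _) (hx.trans (by first | assumption | exact dvd_rfl | exact one_dvd _))⟩)
      | (exact Or.inr (Or.inl ⟨by omega, Nat.lcm_dvd (by first | assumption | exact dvd_rfl | exact one_dvd _) (hx.trans (by first | assumption | exact dvd_rfl | exact one_dvd _))⟩))
      | (exact Or.inr (Or.inr (Or.inl ⟨by omega, Nat.lcm_dvd (by first | assumption | exact dvd_rfl | exact one_dvd _) (hx.trans (by first | assumption | exact dvd_rfl | exact one_dvd _))⟩)))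
      | (exact Or.inr (Or.inr (Or.inr (Or.inl ⟨by omega, Nat.lcm_dvd (by first | assumption | exact dvd_rfl | exact one_dvd _) (hx.trans (by first | assumption | exact dvd_rfl | exact one_dvd _))⟩))))
      | (exact Or.inr (Or.inr (Or.inr (Or.inr (Or.inl ⟨by omega, Nat.lcm_dvd (by first | assumption | exact dvd_rfl | exact one_dvd _) (hx.trans (by first | assumption | exact dvd_rfl | exact one_dvd _))⟩)))))
      | (exact Or.inr (Or.inr (Or.inr (Or.inr (Or.inr (Or.inl ⟨by omega, Nat.lcm_dvd (by first | assumption | exact dvd_rfl | exact one_dvd _) (hx.trans (by first | assumption | exact dvd_rfl | exact one_dvd _))⟩))))))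
      | (exact Or.inr (Or.inr (Or.inr (Or.inr (Or.inr (Or.inr (⟨by omega, Nat.lcm_dvd (by first | assumption | exact dvd_rfl | exact one_dvd _) (hx.trans (by first | assumption | exact dvd_rfl | exact one_dvd _))⟩)))))))

theorem partsO_4 {t m A : ℕ} (h : PartsO t 4 m A) : PO4 t m A := by
  obtain ⟨f0, f1, f2, f3, f4, f5, f6, f7, f8, f9, f10, f11, f12, f13, f14, f15, f16, f17, f18, f19⟩ := factsO t
  rcases PartsO.inv h with ⟨h0, -, -⟩ | ⟨d, e, w', m', A', hd, hd3, he, hw, hP, hm, hA⟩
  · omega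
  have he' : e ≤ 4 := by nlinarith
  have hcases : (d = 3 ∧ e = 1 ∧ w' = 1) ∨ (d = 1 ∧ e = 4 ∧ w' = 0) ∨ (d = 2 ∧ e = 2 ∧ w' = 0) ∨ (d = 1 ∧ e = 3 ∧ w' = 1) ∨ (d = 2 ∧ e = 1 ∧ w' = 2) ∨ (d = 1 ∧ e = 2 ∧ w' = 2) ∨ (d = 1 ∧ e = 1 ∧ w' = 3) := by
    interval_cases d <;> interval_cases e <;> omega
  rcases hcases with ⟨rfl, rfl, rfl⟩ | ⟨rfl, rfl, rfl⟩ | ⟨rfl, rfl, rfl⟩ | ⟨rfl, rfl, rfl⟩ | ⟨rfl, rfl, rfl⟩ | ⟨rfl, rfl, rfl⟩ | ⟨rfl, rfl, rfl⟩
  · -- d=3 e=1 w=1
    have hP' := partsO_1 hP
    unfold PO1 at hP'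
    simp only [fp, fm] at hm
    rcases hm with rfl | rfl
    · rcases hP' with ⟨h1, hx⟩ | ⟨h1, hx⟩
      all_goals first
      | (exact Or.inl ⟨by omega, Nat.lcm_dvd (by first | assumption | exact dvd_rfl | exact one_dvd _) (hx.trans (by first | assumption | exact dvd_rfl | exact one_dvd _))⟩)
      | (exact Or.inr (Or.inl ⟨by omega, Nat.lcm_dvd (by first | assumption | exact dvd_rfl | exact one_dvd _) (hx.trans (by first | assumption | exact dvd_rfl | exact one_dvd _))⟩))
      | (exact Or.inr (Or.inr (Or.inl ⟨by omega, Nat.lcm_dvd (by first | assumption | exact dvd_rfl | exact one_dvd _) (hx.trans (by first | assumption | exact dvd_rfl | exact one_dvd _))⟩)))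
      | (exact Or.inr (Or.inr (Or.inr (Or.inl ⟨by omega, Nat.lcm_dvd (by first | assumption | exact dvd_rfl | exact one_dvd _) (hx.trans (by first | assumption | exact dvd_rfl | exact one_dvd _))⟩))))
      | (exact Or.inr (Or.inr (Or.inr (Or.inr (Or.inl ⟨by omega, Nat.lcm_dvd (by first | assumption | exact dvd_rfl | exact one_dvd _) (hx.trans (by first | assumption | exact dvd_rfl | exact one_dvd _))⟩)))))
      | (exact Or.inr (Or.inr (Or.inr (Or.inr (Or.inr (Or.inl ⟨by omega, Nat.lcm_dvd (by first | assumption | exact dvd_rfl | exact one_dvd _) (hx.trans (by first | assumption | exact dvd_rfl | exact one_dvd _))⟩))))))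
      | (exact Or.inr (Or.inr (Or.inr (Or.inr (Or.inr (Or.inr (Or.inl ⟨by omega, Nat.lcm_dvd (by first | assumption | exact dvd_rfl | exact one_dvd _) (hx.trans (by first | assumption | exact dvd_rfl | exact one_dvd _))⟩)))))))
      | (exact Or.inr (Or.inr (Or.inr (Or.inr (Or.inr (Or.inr (Or.inr (⟨by omega, Nat.lcm_dvd (by first | assumption | exact dvd_rfl | exact one_dvd _) (hx.trans (by first | assumption | exact dvd_rfl | exact one_dvd _))⟩))))))))
    · rcases hP' with ⟨h1, hx⟩ | ⟨h1, hx⟩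
      all_goals first
      | (exact Or.inl ⟨by omega, Nat.lcm_dvd (by first | assumption | exact dvd_rfl | exact one_dvd _) (hx.trans (by first | assumption | exact dvd_rfl | exact one_dvd _))⟩)
      | (exact Or.inr (Or.inl ⟨by omega, Nat.lcm_dvd (by first | assumption | exact dvd_rfl | exact one_dvd _) (hx.trans (by first | assumption | exact dvd_rfl | exact one_dvd _))⟩))
      | (exact Or.inr (Or.inr (Or.inl ⟨by omega, Nat.lcm_dvd (by first | assumption | exact dvd_rfl | exact one_dvd _) (hx.trans (by first | assumption | exact dvd_rfl | exact one_dvd _))⟩)))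
      | (exact Or.inr (Or.inr (Or.inr (Or.inl ⟨by omega, Nat.lcm_dvd (by first | assumption | exact dvd_rfl | exact one_dvd _) (hx.trans (by first | assumption | exact dvd_rfl | exact one_dvd _))⟩))))
      | (exact Or.inr (Or.inr (Or.inr (Or.inr (Or.inl ⟨by omega, Nat.lcm_dvd (by first | assumption | exact dvd_rfl | exact one_dvd _) (hx.trans (by first | assumption | exact dvd_rfl | exact one_dvd _))⟩)))))
      | (exact Or.inr (Or.inr (Or.inr (Or.inr (Or.inr (Or.inl ⟨by omega, Nat.lcm_dvd (by first | assumption | exact dvd_rfl | exact one_dvd _) (hx.trans (by first | assumption | exact dvd_rfl | exact one_dvd _))⟩))))))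
      | (exact Or.inr (Or.inr (Or.inr (Or.inr (Or.inr (Or.inr (Or.inl ⟨by omega, Nat.lcm_dvd (by first | assumption | exact dvd_rfl | exact one_dvd _) (hx.trans (by first | assumption | exact dvd_rfl | exact one_dvd _))⟩)))))))
      | (exact Or.inr (Or.inr (Or.inr (Or.inr (Or.inr (Or.inr (Or.inr (⟨by omega, Nat.lcm_dvd (by first | assumption | exact dvd_rfl | exact one_dvd _) (hx.trans (by first | assumption | exact dvd_rfl | exact one_dvd _))⟩))))))))
  · -- d=1 e=4 w=0
    obtain ⟨rfl, rfl⟩ := partsO_0 hP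
    have hx : 1 ∣ 1 := dvd_rfl
    simp only [fp, fm] at hm
    rcases hm with rfl | rfl
    · first
      | (exact Or.inl ⟨by omega, Nat.lcm_dvd (by first | assumption | exact dvd_rfl | exact one_dvd _) (hx.trans (by first | assumption | exact dvd_rfl | exact one_dvd _))⟩)
      | (exact Or.inr (Or.inl ⟨by omega, Nat.lcm_dvd (by first | assumption | exact dvd_rfl | exact one_dvd _) (hx.trans (by first | assumption | exact dvd_rfl | exact one_dvd _))⟩))
      | (exact Or.inr (Or.inr (Or.inl ⟨by omega, Nat.lcm_dvd (by first | assumption | exact dvd_rfl | exact one_dvd _) (hx.trans (by first | assumption | exact dvd_rfl | exact one_dvd _))⟩)))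
      | (exact Or.inr (Or.inr (Or.inr (Or.inl ⟨by omega, Nat.lcm_dvd (by first | assumption | exact dvd_rfl | exact one_dvd _) (hx.trans (by first | assumption | exact dvd_rfl | exact one_dvd _))⟩))))
      | (exact Or.inr (Or.inr (Or.inr (Or.inr (Or.inl ⟨by omega, Nat.lcm_dvd (by first | assumption | exact dvd_rfl | exact one_dvd _) (hx.trans (by first | assumption | exact dvd_rfl | exact one_dvd _))⟩)))))
      | (exact Or.inr (Or.inr (Or.inr (Or.inr (Or.inr (Or.inl ⟨by omega, Nat.lcm_dvd (by first | assumption | exact dvd_rfl | exact one_dvd _) (hx.trans (by first | assumption | exact dvd_rfl | exact one_dvd _))⟩))))))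
      | (exact Or.inr (Or.inr (Or.inr (Or.inr (Or.inr (Or.inr (Or.inl ⟨by omega, Nat.lcm_dvd (by first | assumption | exact dvd_rfl | exact one_dvd _) (hx.trans (by first | assumption | exact dvd_rfl | exact one_dvd _))⟩)))))))
      | (exact Or.inr (Or.inr (Or.inr (Or.inr (Or.inr (Or.inr (Or.inr (⟨by omega, Nat.lcm_dvd (by first | assumption | exact dvd_rfl | exact one_dvd _) (hx.trans (by first | assumption | exact dvd_rfl | exact one_dvd _))⟩))))))))
    · first
      | (exact Or.inl ⟨by omega, Nat.lcm_dvd (by first | assumption | exact dvd_rfl | exact one_dvd _) (hx.trans (by first | assumption | exact dvd_rfl | exact one_dvd _))⟩)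
      | (exact Or.inr (Or.inl ⟨by omega, Nat.lcm_dvd (by first | assumption | exact dvd_rfl | exact one_dvd _) (hx.trans (by first | assumption | exact dvd_rfl | exact one_dvd _))⟩))
      | (exact Or.inr (Or.inr (Or.inl ⟨by omega, Nat.lcm_dvd (by first | assumption | exact dvd_rfl | exact one_dvd _) (hx.trans (by first | assumption | exact dvd_rfl | exact one_dvd _))⟩)))
      | (exact Or.inr (Or.inr (Or.inr (Or.inl ⟨by omega, Nat.lcm_dvd (by first | assumption | exact dvd_rfl | exact one_dvd _) (hx.trans (by first | assumption | exact dvd_rfl | exact one_dvd _))⟩))))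
      | (exact Or.inr (Or.inr (Or.inr (Or.inr (Or.inl ⟨by omega, Nat.lcm_dvd (by first | assumption | exact dvd_rfl | exact one_dvd _) (hx.trans (by first | assumption | exact dvd_rfl | exact one_dvd _))⟩)))))
      | (exact Or.inr (Or.inr (Or.inr (Or.inr (Or.inr (Or.inl ⟨by omega, Nat.lcm_dvd (by first | assumption | exact dvd_rfl | exact one_dvd _) (hx.trans (by first | assumption | exact dvd_rfl | exact one_dvd _))⟩))))))
      | (exact Or.inr (Or.inr (Or.inr (Or.inr (Or.inr (Or.inr (Or.inl ⟨by omega, Nat.lcm_dvd (by first | assumption | exact dvd_rfl | exact one_dvd _) (hx.trans (by first | assumption | exact dvd_rfl | exact one_dvd _))⟩)))))))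
      | (exact Or.inr (Or.inr (Or.inr (Or.inr (Or.inr (Or.inr (Or.inr (⟨by omega, Nat.lcm_dvd (by first | assumption | exact dvd_rfl | exact one_dvd _) (hx.trans (by first | assumption | exact dvd_rfl | exact one_dvd _))⟩))))))))
  · -- d=2 e=2 w=0
    obtain ⟨rfl, rfl⟩ := partsO_0 hP
    have hx : 1 ∣ 1 := dvd_rfl
    simp only [fp, fm] at hm
    rcases hm with rfl | rfl
    · first
      | (exact Or.inl ⟨by omega, Nat.lcm_dvd (by first | assumption | exact dvd_rfl | exact one_dvd _) (hx.trans (by first | assumption | exact dvd_rfl | exact one_dvd _))⟩)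
      | (exact Or.inr (Or.inl ⟨by omega, Nat.lcm_dvd (by first | assumption | exact dvd_rfl | exact one_dvd _) (hx.trans (by first | assumption | exact dvd_rfl | exact one_dvd _))⟩))
      | (exact Or.inr (Or.inr (Or.inl ⟨by omega, Nat.lcm_dvd (by first | assumption | exact dvd_rfl | exact one_dvd _) (hx.trans (by first | assumption | exact dvd_rfl | exact one_dvd _))⟩)))
      | (exact Or.inr (Or.inr (Or.inr (Or.inl ⟨by omega, Nat.lcm_dvd (by first | assumption | exact dvd_rfl | exact one_dvd _) (hx.trans (by first | assumption | exact dvd_rfl | exact one_dvd _))⟩))))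
      | (exact Or.inr (Or.inr (Or.inr (Or.inr (Or.inl ⟨by omega, Nat.lcm_dvd (by first | assumption | exact dvd_rfl | exact one_dvd _) (hx.trans (by first | assumption | exact dvd_rfl | exact one_dvd _))⟩)))))
      | (exact Or.inr (Or.inr (Or.inr (Or.inr (Or.inr (Or.inl ⟨by omega, Nat.lcm_dvd (by first | assumption | exact dvd_rfl | exact one_dvd _) (hx.trans (by first | assumption | exact dvd_rfl | exact one_dvd _))⟩))))))
      | (exact Or.inr (Or.inr (Or.inr (Or.inr (Or.inr (Or.inr (Or.inl ⟨by omega, Nat.lcm_dvd (by first | assumption | exact dvd_rfl | exact one_dvd _) (hx.trans (by first | assumption | exact dvd_rfl | exact one_dvd _))⟩)))))))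
      | (exact Or.inr (Or.inr (Or.inr (Or.inr (Or.inr (Or.inr (Or.inr (⟨by omega, Nat.lcm_dvd (by first | assumption | exact dvd_rfl | exact one_dvd _) (hx.trans (by first | assumption | exact dvd_rfl | exact one_dvd _))⟩))))))))
    · first
      | (exact Or.inl ⟨by omega, Nat.lcm_dvd (by first | assumption | exact dvd_rfl | exact one_dvd _) (hx.trans (by first | assumption | exact dvd_rfl | exact one_dvd _))⟩)
      | (exact Or.inr (Or.inl ⟨by omega, Nat.lcm_dvd (by first | assumption | exact dvd_rfl | exact one_dvd _) (hx.trans (by first | assumption | exact dvd_rfl | exact one_dvd _))⟩))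
      | (exact Or.inr (Or.inr (Or.inl ⟨by omega, Nat.lcm_dvd (by first | assumption | exact dvd_rfl | exact one_dvd _) (hx.trans (by first | assumption | exact dvd_rfl | exact one_dvd _))⟩)))
      | (exact Or.inr (Or.inr (Or.inr (Or.inl ⟨by omega, Nat.lcm_dvd (by first | assumption | exact dvd_rfl | exact one_dvd _) (hx.trans (by first | assumption | exact dvd_rfl | exact one_dvd _))⟩))))
      | (exact Or.inr (Or.inr (Or.inr (Or.inr (Or.inl ⟨by omega, Nat.lcm_dvd (by first | assumption | exact dvd_rfl | exact one_dvd _) (hx.trans (by first | assumption | exact dvd_rfl | exact one_dvd _))⟩)))))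
      | (exact Or.inr (Or.inr (Or.inr (Or.inr (Or.inr (Or.inl ⟨by omega, Nat.lcm_dvd (by first | assumption | exact dvd_rfl | exact one_dvd _) (hx.trans (by first | assumption | exact dvd_rfl | exact one_dvd _))⟩))))))
      | (exact Or.inr (Or.inr (Or.inr (Or.inr (Or.inr (Or.inr (Or.inl ⟨by omega, Nat.lcm_dvd (by first | assumption | exact dvd_rfl | exact one_dvd _) (hx.trans (by first | assumption | exact dvd_rfl | exact one_dvd _))⟩)))))))
      | (exact Or.inr (Or.inr (Or.inr (Or.inr (Or.inr (Or.inr (Or.inr (⟨by omega, Nat.lcm_dvd (by first | assumption | exact dvd_rfl | exact one_dvd _) (hx.trans (by first | assumption | exact dvd_rfl | exact one_dvd _))⟩))))))))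
  · -- d=1 e=3 w=1
    have hP' := partsO_1 hP
    unfold PO1 at hP'
    simp only [fp, fm] at hm
    rcases hm with rfl | rfl
    · rcases hP' with ⟨h1, hx⟩ | ⟨h1, hx⟩
      all_goals first
      | (exact Or.inl ⟨by omega, Nat.lcm_dvd (by first | assumption | exact dvd_rfl | exact one_dvd _) (hx.trans (by first | assumption | exact dvd_rfl | exact one_dvd _))⟩)
      | (exact Or.inr (Or.inl ⟨by omega, Nat.lcm_dvd (by first | assumption | exact dvd_rfl | exact one_dvd _) (hx.trans (by first | assumption | exact dvd_rfl | exact one_dvd _))⟩))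
      | (exact Or.inr (Or.inr (Or.inl ⟨by omega, Nat.lcm_dvd (by first | assumption | exact dvd_rfl | exact one_dvd _) (hx.trans (by first | assumption | exact dvd_rfl | exact one_dvd _))⟩)))
      | (exact Or.inr (Or.inr (Or.inr (Or.inl ⟨by omega, Nat.lcm_dvd (by first | assumption | exact dvd_rfl | exact one_dvd _) (hx.trans (by first | assumption | exact dvd_rfl | exact one_dvd _))⟩))))
      | (exact Or.inr (Or.inr (Or.inr (Or.inr (Or.inl ⟨by omega, Nat.lcm_dvd (by first | assumption | exact dvd_rfl | exact one_dvd _) (hx.trans (by first | assumption | exact dvd_rfl | exact one_dvd _))⟩)))))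
      | (exact Or.inr (Or.inr (Or.inr (Or.inr (Or.inr (Or.inl ⟨by omega, Nat.lcm_dvd (by first | assumption | exact dvd_rfl | exact one_dvd _) (hx.trans (by first | assumption | exact dvd_rfl | exact one_dvd _))⟩))))))
      | (exact Or.inr (Or.inr (Or.inr (Or.inr (Or.inr (Or.inr (Or.inl ⟨by omega, Nat.lcm_dvd (by first | assumption | exact dvd_rfl | exact one_dvd _) (hx.trans (by first | assumption | exact dvd_rfl | exact one_dvd _))⟩)))))))
      | (exact Or.inr (Or.inr (Or.inr (Or.inr (Or.inr (Or.inr (Or.inr (⟨by omega, Nat.lcm_dvd (by first | assumption | exact dvd_rfl | exact one_dvd _) (hx.trans (by first | assumption | exact dvd_rfl | exact one_dvd _))⟩))))))))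
    · rcases hP' with ⟨h1, hx⟩ | ⟨h1, hx⟩
      all_goals first
      | (exact Or.inl ⟨by omega, Nat.lcm_dvd (by first | assumption | exact dvd_rfl | exact one_dvd _) (hx.trans (by first | assumption | exact dvd_rfl | exact one_dvd _))⟩)
      | (exact Or.inr (Or.inl ⟨by omega, Nat.lcm_dvd (by first | assumption | exact dvd_rfl | exact one_dvd _) (hx.trans (by first | assumption | exact dvd_rfl | exact one_dvd _))⟩))
      | (exact Or.inr (Or.inr (Or.inl ⟨by omega, Nat.lcm_dvd (by first | assumption | exact dvd_rfl | exact one_dvd _) (hx.trans (by first | assumption | exact dvd_rfl | exact one_dvd _))⟩)))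
      | (exact Or.inr (Or.inr (Or.inr (Or.inl ⟨by omega, Nat.lcm_dvd (by first | assumption | exact dvd_rfl | exact one_dvd _) (hx.trans (by first | assumption | exact dvd_rfl | exact one_dvd _))⟩))))
      | (exact Or.inr (Or.inr (Or.inr (Or.inr (Or.inl ⟨by omega, Nat.lcm_dvd (by first | assumption | exact dvd_rfl | exact one_dvd _) (hx.trans (by first | assumption | exact dvd_rfl | exact one_dvd _))⟩)))))
      | (exact Or.inr (Or.inr (Or.inr (Or.inr (Or.inr (Or.inl ⟨by omega, Nat.lcm_dvd (by first | assumption | exact dvd_rfl | exact one_dvd _) (hx.trans (by first | assumption | exact dvd_rfl | exact one_dvd _))⟩))))))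
      | (exact Or.inr (Or.inr (Or.inr (Or.inr (Or.inr (Or.inr (Or.inl ⟨by omega, Nat.lcm_dvd (by first | assumption | exact dvd_rfl | exact one_dvd _) (hx.trans (by first | assumption | exact dvd_rfl | exact one_dvd _))⟩)))))))
      | (exact Or.inr (Or.inr (Or.inr (Or.inr (Or.inr (Or.inr (Or.inr (⟨by omega, Nat.lcm_dvd (by first | assumption | exact dvd_rfl | exact one_dvd _) (hx.trans (by first | assumption | exact dvd_rfl | exact one_dvd _))⟩))))))))
  · -- d=2 e=1 w=2
    have hP' := partsO_2 hP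
    unfold PO2 at hP'
    simp only [fp, fm] at hm
    rcases hm with rfl | rfl
    · rcases hP' with ⟨h1, hx⟩ | ⟨h1, hx⟩ | ⟨h1, hx⟩ | ⟨h1, hx⟩
      all_goals first
      | (exact Or.inl ⟨by omega, Nat.lcm_dvd (by first | assumption | exact dvd_rfl | exact one_dvd _) (hx.trans (by first | assumption | exact dvd_rfl | exact one_dvd _))⟩)
      | (exact Or.inr (Or.inl ⟨by omega, Nat.lcm_dvd (by first | assumption | exact dvd_rfl | exact one_dvd _) (hx.trans (by first | assumption | exact dvd_rfl | exact one_dvd _))⟩))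
      | (exact Or.inr (Or.inr (Or.inl ⟨by omega, Nat.lcm_dvd (by first | assumption | exact dvd_rfl | exact one_dvd _) (hx.trans (by first | assumption | exact dvd_rfl | exact one_dvd _))⟩)))
      | (exact Or.inr (Or.inr (Or.inr (Or.inl ⟨by omega, Nat.lcm_dvd (by first | assumption | exact dvd_rfl | exact one_dvd _) (hx.trans (by first | assumption | exact dvd_rfl | exact one_dvd _))⟩))))
      | (exact Or.inr (Or.inr (Or.inr (Or.inr (Or.inl ⟨by omega, Nat.lcm_dvd (by first | assumption | exact dvd_rfl | exact one_dvd _) (hx.trans (by first | assumption | exact dvd_rfl | exact one_dvd _))⟩)))))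
      | (exact Or.inr (Or.inr (Or.inr (Or.inr (Or.inr (Or.inl ⟨by omega, Nat.lcm_dvd (by first | assumption | exact dvd_rfl | exact one_dvd _) (hx.trans (by first | assumption | exact dvd_rfl | exact one_dvd _))⟩))))))
      | (exact Or.inr (Or.inr (Or.inr (Or.inr (Or.inr (Or.inr (Or.inl ⟨by omega, Nat.lcm_dvd (by first | assumption | exact dvd_rfl | exact one_dvd _) (hx.trans (by first | assumption | exact dvd_rfl | exact one_dvd _))⟩)))))))
      | (exact Or.inr (Or.inr (Or.inr (Or.inr (Or.inr (Or.inr (Or.inr (⟨by omega, Nat.lcm_dvd (by first | assumption | exact dvd_rfl | exact one_dvd _) (hx.trans (by first | assumption | exact dvd_rfl | exact one_dvd _))⟩))))))))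
    · rcases hP' with ⟨h1, hx⟩ | ⟨h1, hx⟩ | ⟨h1, hx⟩ | ⟨h1, hx⟩
      all_goals first
      | (exact Or.inl ⟨by omega, Nat.lcm_dvd (by first | assumption | exact dvd_rfl | exact one_dvd _) (hx.trans (by first | assumption | exact dvd_rfl | exact one_dvd _))⟩)
      | (exact Or.inr (Or.inl ⟨by omega, Nat.lcm_dvd (by first | assumption | exact dvd_rfl | exact one_dvd _) (hx.trans (by first | assumption | exact dvd_rfl | exact one_dvd _))⟩))
      | (exact Or.inr (Or.inr (Or.inl ⟨by omega, Nat.lcm_dvd (by first | assumption | exact dvd_rfl | exact one_dvd _) (hx.trans (by first | assumption | exact dvd_rfl | exact one_dvd _))⟩)))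
      | (exact Or.inr (Or.inr (Or.inr (Or.inl ⟨by omega, Nat.lcm_dvd (by first | assumption | exact dvd_rfl | exact one_dvd _) (hx.trans (by first | assumption | exact dvd_rfl | exact one_dvd _))⟩))))
      | (exact Or.inr (Or.inr (Or.inr (Or.inr (Or.inl ⟨by omega, Nat.lcm_dvd (by first | assumption | exact dvd_rfl | exact one_dvd _) (hx.trans (by first | assumption | exact dvd_rfl | exact one_dvd _))⟩)))))
      | (exact Or.inr (Or.inr (Or.inr (Or.inr (Or.inr (Or.inl ⟨by omega, Nat.lcm_dvd (by first | assumption | exact dvd_rfl | exact one_dvd _) (hx.trans (by first | assumption | exact dvd_rfl | exact one_dvd _))⟩))))))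
      | (exact Or.inr (Or.inr (Or.inr (Or.inr (Or.inr (Or.inr (Or.inl ⟨by omega, Nat.lcm_dvd (by first | assumption | exact dvd_rfl | exact one_dvd _) (hx.trans (by first | assumption | exact dvd_rfl | exact one_dvd _))⟩)))))))
      | (exact Or.inr (Or.inr (Or.inr (Or.inr (Or.inr (Or.inr (Or.inr (⟨by omega, Nat.lcm_dvd (by first | assumption | exact dvd_rfl | exact one_dvd _) (hx.trans (by first | assumption | exact dvd_rfl | exact one_dvd _))⟩))))))))
  · -- d=1 e=2 w=2
    have hP' := partsO_2 hP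
    unfold PO2 at hP'
    simp only [fp, fm] at hm
    rcases hm with rfl | rfl
    · rcases hP' with ⟨h1, hx⟩ | ⟨h1, hx⟩ | ⟨h1, hx⟩ | ⟨h1, hx⟩
      all_goals first
      | (exact Or.inl ⟨by omega, Nat.lcm_dvd (by first | assumption | exact dvd_rfl | exact one_dvd _) (hx.trans (by first | assumption | exact dvd_rfl | exact one_dvd _))⟩)
      | (exact Or.inr (Or.inl ⟨by omega, Nat.lcm_dvd (by first | assumption | exact dvd_rfl | exact one_dvd _) (hx.trans (by first | assumption | exact dvd_rfl | exact one_dvd _))⟩))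
      | (exact Or.inr (Or.inr (Or.inl ⟨by omega, Nat.lcm_dvd (by first | assumption | exact dvd_rfl | exact one_dvd _) (hx.trans (by first | assumption | exact dvd_rfl | exact one_dvd _))⟩)))
      | (exact Or.inr (Or.inr (Or.inr (Or.inl ⟨by omega, Nat.lcm_dvd (by first | assumption | exact dvd_rfl | exact one_dvd _) (hx.trans (by first | assumption | exact dvd_rfl | exact one_dvd _))⟩))))
      | (exact Or.inr (Or.inr (Or.inr (Or.inr (Or.inl ⟨by omega, Nat.lcm_dvd (by first | assumption | exact dvd_rfl | exact one_dvd _) (hx.trans (by first | assumption | exact dvd_rfl | exact one_dvd _))⟩)))))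
      | (exact Or.inr (Or.inr (Or.inr (Or.inr (Or.inr (Or.inl ⟨by omega, Nat.lcm_dvd (by first | assumption | exact dvd_rfl | exact one_dvd _) (hx.trans (by first | assumption | exact dvd_rfl | exact one_dvd _))⟩))))))
      | (exact Or.inr (Or.inr (Or.inr (Or.inr (Or.inr (Or.inr (Or.inl ⟨by omega, Nat.lcm_dvd (by first | assumption | exact dvd_rfl | exact one_dvd _) (hx.trans (by first | assumption | exact dvd_rfl | exact one_dvd _))⟩)))))))
      | (exact Or.inr (Or.inr (Or.inr (Or.inr (Or.inr (Or.inr (Or.inr (⟨by omega, Nat.lcm_dvd (by first | assumption | exact dvd_rfl | exact one_dvd _) (hx.trans (by first | assumption | exact dvd_rfl | exact one_dvd _))⟩))))))))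
    · rcases hP' with ⟨h1, hx⟩ | ⟨h1, hx⟩ | ⟨h1, hx⟩ | ⟨h1, hx⟩
      all_goals first
      | (exact Or.inl ⟨by omega, Nat.lcm_dvd (by first | assumption | exact dvd_rfl | exact one_dvd _) (hx.trans (by first | assumption | exact dvd_rfl | exact one_dvd _))⟩)
      | (exact Or.inr (Or.inl ⟨by omega, Nat.lcm_dvd (by first | assumption | exact dvd_rfl | exact one_dvd _) (hx.trans (by first | assumption | exact dvd_rfl | exact one_dvd _))⟩))
      | (exact Or.inr (Or.inr (Or.inl ⟨by omega, Nat.lcm_dvd (by first | assumption | exact dvd_rfl | exact one_dvd _) (hx.trans (by first | assumption | exact dvd_rfl | exact one_dvd _))⟩)))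
      | (exact Or.inr (Or.inr (Or.inr (Or.inl ⟨by omega, Nat.lcm_dvd (by first | assumption | exact dvd_rfl | exact one_dvd _) (hx.trans (by first | assumption | exact dvd_rfl | exact one_dvd _))⟩))))
      | (exact Or.inr (Or.inr (Or.inr (Or.inr (Or.inl ⟨by omega, Nat.lcm_dvd (by first | assumption | exact dvd_rfl | exact one_dvd _) (hx.trans (by first | assumption | exact dvd_rfl | exact one_dvd _))⟩)))))
      | (exact Or.inr (Or.inr (Or.inr (Or.inr (Or.inr (Or.inl ⟨by omega, Nat.lcm_dvd (by first | assumption | exact dvd_rfl | exact one_dvd _) (hx.trans (by first | assumption | exact dvd_rfl | exact one_dvd _))⟩))))))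
      | (exact Or.inr (Or.inr (Or.inr (Or.inr (Or.inr (Or.inr (Or.inl ⟨by omega, Nat.lcm_dvd (by first | assumption | exact dvd_rfl | exact one_dvd _) (hx.trans (by first | assumption | exact dvd_rfl | exact one_dvd _))⟩)))))))
      | (exact Or.inr (Or.inr (Or.inr (Or.inr (Or.inr (Or.inr (Or.inr (⟨by omega, Nat.lcm_dvd (by first | assumption | exact dvd_rfl | exact one_dvd _) (hx.trans (by first | assumption | exact dvd_rfl | exact one_dvd _))⟩))))))))
  · -- d=1 e=1 w=3
    have hP' := partsO_3 hP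
    unfold PO3 at hP'
    simp only [fp, fm] at hm
    rcases hm with rfl | rfl
    · rcases hP' with ⟨h1, hx⟩ | ⟨h1, hx⟩ | ⟨h1, hx⟩ | ⟨h1, hx⟩ | ⟨h1, hx⟩ | ⟨h1, hx⟩ | ⟨h1, hx⟩
      all_goals first
      | (exact Or.inl ⟨by omega, Nat.lcm_dvd (by first | assumption | exact dvd_rfl | exact one_dvd _) (hx.trans (by first | assumption | exact dvd_rfl | exact one_dvd _))⟩)
      | (exact Or.inr (Or.inl ⟨by omega, Nat.lcm_dvd (by first | assumption | exact dvd_rfl | exact one_dvd _) (hx.trans (by first | assumption | exact dvd_rfl | exact one_dvd _))⟩))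
      | (exact Or.inr (Or.inr (Or.inl ⟨by omega, Nat.lcm_dvd (by first | assumption | exact dvd_rfl | exact one_dvd _) (hx.trans (by first | assumption | exact dvd_rfl | exact one_dvd _))⟩)))
      | (exact Or.inr (Or.inr (Or.inr (Or.inl ⟨by omega, Nat.lcm_dvd (by first | assumption | exact dvd_rfl | exact one_dvd _) (hx.trans (by first | assumption | exact dvd_rfl | exact one_dvd _))⟩))))
      | (exact Or.inr (Or.inr (Or.inr (Or.inr (Or.inl ⟨by omega, Nat.lcm_dvd (by first | assumption | exact dvd_rfl | exact one_dvd _) (hx.trans (by first | assumption | exact dvd_rfl | exact one_dvd _))⟩)))))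
      | (exact Or.inr (Or.inr (Or.inr (Or.inr (Or.inr (Or.inl ⟨by omega, Nat.lcm_dvd (by first | assumption | exact dvd_rfl | exact one_dvd _) (hx.trans (by first | assumption | exact dvd_rfl | exact one_dvd _))⟩))))))
      | (exact Or.inr (Or.inr (Or.inr (Or.inr (Or.inr (Or.inr (Or.inl ⟨by omega, Nat.lcm_dvd (by first | assumption | exact dvd_rfl | exact one_dvd _) (hx.trans (by first | assumption | exact dvd_rfl | exact one_dvd _))⟩)))))))
      | (exact Or.inr (Or.inr (Or.inr (Or.inr (Or.inr (Or.inr (Or.inr (⟨by omega, Nat.lcm_dvd (by first | assumption | exact dvd_rfl | exact one_dvd _) (hx.trans (by first | assumption | exact dvd_rfl | exact one_dvd _))⟩))))))))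
    · rcases hP' with ⟨h1, hx⟩ | ⟨h1, hx⟩ | ⟨h1, hx⟩ | ⟨h1, hx⟩ | ⟨h1, hx⟩ | ⟨h1, hx⟩ | ⟨h1, hx⟩
      all_goals first
      | (exact Or.inl ⟨by omega, Nat.lcm_dvd (by first | assumption | exact dvd_rfl | exact one_dvd _) (hx.trans (by first | assumption | exact dvd_rfl | exact one_dvd _))⟩)
      | (exact Or.inr (Or.inl ⟨by omega, Nat.lcm_dvd (by first | assumption | exact dvd_rfl | exact one_dvd _) (hx.trans (by first | assumption | exact dvd_rfl | exact one_dvd _))⟩))
      | (exact Or.inr (Or.inr (Or.inl ⟨by omega, Nat.lcm_dvd (by first | assumption | exact dvd_rfl | exact one_dvd _) (hx.trans (by first | assumption | exact dvd_rfl | exact one_dvd _))⟩)))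
      | (exact Or.inr (Or.inr (Or.inr (Or.inl ⟨by omega, Nat.lcm_dvd (by first | assumption | exact dvd_rfl | exact one_dvd _) (hx.trans (by first | assumption | exact dvd_rfl | exact one_dvd _))⟩))))
      | (exact Or.inr (Or.inr (Or.inr (Or.inr (Or.inl ⟨by omega, Nat.lcm_dvd (by first | assumption | exact dvd_rfl | exact one_dvd _) (hx.trans (by first | assumption | exact dvd_rfl | exact one_dvd _))⟩)))))
      | (exact Or.inr (Or.inr (Or.inr (Or.inr (Or.inr (Or.inl ⟨by omega, Nat.lcm_dvd (by first | assumption | exact dvd_rfl | exact one_dvd _) (hx.trans (by first | assumption | exact dvd_rfl | exact one_dvd _))⟩))))))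
      | (exact Or.inr (Or.inr (Or.inr (Or.inr (Or.inr (Or.inr (Or.inl ⟨by omega, Nat.lcm_dvd (by first | assumption | exact dvd_rfl | exact one_dvd _) (hx.trans (by first | assumption | exact dvd_rfl | exact one_dvd _))⟩)))))))
      | (exact Or.inr (Or.inr (Or.inr (Or.inr (Or.inr (Or.inr (Or.inr (⟨by omega, Nat.lcm_dvd (by first | assumption | exact dvd_rfl | exact one_dvd _) (hx.trans (by first | assumption | exact dvd_rfl | exact one_dvd _))⟩))))))))

theorem partsO_final {t w m A : ℕ} (h : PartsO t w m A) (hw : w ≤ 4) : PO4 t m A := by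
  obtain ⟨f0, f1, f2, f3, f4, f5, f6, f7, f8, f9, f10, f11, f12, f13, f14, f15, f16, f17, f18, f19⟩ := factsO t
  have hw' : w = 0 ∨ w = 1 ∨ w = 2 ∨ w = 3 ∨ w = 4 := by omega
  rcases hw' with rfl | rfl | rfl | rfl | rfl
  · obtain ⟨rfl, rfl⟩ := partsO_0 h
    exact Or.inl ⟨by omega, one_dvd _⟩
  · rcases partsO_1 h with ⟨h1, hx⟩ | ⟨h1, hx⟩
    · exact Or.inr (Or.inr (Or.inr (Or.inl ⟨by omega, hx.trans (by assumption)⟩)))
    · exact Or.inr (Or.inr (Or.inr (Or.inl ⟨by omega, hx.trans (by assumption)⟩)))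
  · rcases partsO_2 h with ⟨h1, hx⟩ | ⟨h1, hx⟩ | ⟨h1, hx⟩ | ⟨h1, hx⟩
    · exact Or.inr (Or.inr (Or.inr (Or.inl ⟨by omega, hx⟩)))
    · exact Or.inl ⟨by omega, hx.trans (by assumption)⟩
    · exact Or.inr (Or.inr (Or.inr (Or.inl ⟨by omega, hx.trans (by assumption)⟩)))
    · exact Or.inr (Or.inr (Or.inr (Or.inl ⟨by omega, hx.trans (by assumption)⟩)))
  · rcases partsO_3 h with ⟨h1, hx⟩ | ⟨h1, hx⟩ | ⟨h1, hx⟩ | ⟨h1, hx⟩ | ⟨h1, hx⟩ | ⟨h1, hx⟩ | ⟨h1, hx⟩
    · exact Or.inr (Or.inl ⟨by omega, hx.trans (by assumption)⟩)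
    · exact Or.inr (Or.inr (Or.inl ⟨by omega, hx.trans (by assumption)⟩))
    · exact Or.inl ⟨by omega, hx.trans (by assumption)⟩
    · exact Or.inl ⟨by omega, hx.trans (by assumption)⟩
    · exact Or.inr (Or.inr (Or.inr (Or.inl ⟨by omega, hx⟩)))
    · exact Or.inr (Or.inr (Or.inr (Or.inl ⟨by omega, hx.trans (by assumption)⟩)))
    · exact Or.inr (Or.inr (Or.inr (Or.inl ⟨by omega, hx.trans (by assumption)⟩)))
  · exact partsO_4 h


section finite

variable {F : Type*} [Field F] [Fintype F]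

lemma monic_X_add_one : (X + 1 : F[X]).Monic := by
  simpa using monic_X_add_C (1 : F)

lemma natDegree_X_add_one : (X + 1 : F[X]).natDegree = 1 := by
  simpa using natDegree_X_add_C (1 : F)

lemma coeff_zero_X_add_one : (X + 1 : F[X]).coeff 0 ≠ 0 := by
  simp

lemma pstar_X_add_one : pstar (X + 1 : F[X]) = X + 1 := by
  have h0 : (X + 1 : F[X]).coeff 0 ≠ 0 := coeff_zero_X_add_one
  have h1 := (pstar_monic h0).eq_X_add_C (by rw [pstar_natDegree h0, natDegree_X_add_one])
  rw [h1, pstar_coeff_zero monic_X_add_one]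
  simp

lemma irreducible_X_add_one : Irreducible (X + 1 : F[X]) := by
  simpa using irreducible_of_degree_eq_one (degree_X_add_C (1 : F))

lemma irreducible_X_sub_one : Irreducible (X - 1 : F[X]) := by
  simpa using irreducible_X_sub_C (1 : F)

/-- Peeling off the factors different from `X ∓ 1`. -/
theorem peelO (p : ℕ) [Fact p.Prime] [CharP F p] {t : ℕ} (ht : Fintype.card F = 2 * t + 1) (n : ℕ) : n ≤ 8 →
    ∀ χ : F[X], χ.Monic → χ.natDegree = n → χ.coeff 0 ≠ 0 → pstar χ = χ → ¬ (X - 1) ∣ χ → ¬ (X + 1) ∣ χ →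
    (∃ w m A, n = 2 * w ∧ PartsO t w m A ∧ χ ∣ (X ^ m - 1) ^ A) ∨ (n = 8 ∧ Irreducible χ) ∨
      (n = 8 ∧ ∃ π : F[X], π.Monic ∧ Irreducible π ∧ π.natDegree = 4 ∧ pstar π ≠ π ∧ χ = π * pstar π) := by
  induction n using Nat.strong_induction_on with
  | _ n ih =>
  intro hn8 χ hm hd h0 hs hX hX'
  have hih : ∀ g : F[X], g.natDegree < n → g.Monic → g.coeff 0 ≠ 0 → pstar g = g → ¬ (X - 1) ∣ g → ¬ (X + 1) ∣ g →
      ∃ w m A, g.natDegree = 2 * w ∧ PartsO t w m A ∧ g ∣ (X ^ m - 1) ^ A := by
    intro g hg hgm hg0 hgs hgX hgX'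
    rcases ih _ hg (by omega) g hgm rfl hg0 hgs hgX hgX' with h | ⟨h, -⟩ | ⟨h, -⟩
    · exact h
    · omega
    · omega
  by_cases hu : IsUnit χ
  · have : χ = 1 := hm.eq_one_of_isUnit hu
    subst this
    refine Or.inl ⟨0, 1, 0, ?_, PartsO.nil, by simp⟩
    simpa using hd.symm
  obtain ⟨π, hπm, hπ, hπd⟩ : ∃ π : F[X], π.Monic ∧ Irreducible π ∧ π ∣ χ := by
    obtain ⟨ρ, hρm, hρ, χ', hχ'⟩ := exists_monic_irreducible_factor χ hu
    exact ⟨ρ, hρm, hρ, χ', hχ'⟩
  have hπ0 : π.coeff 0 ≠ 0 := by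
    obtain ⟨k, hk⟩ := hπd
    rw [hk, mul_coeff_zero] at h0
    exact left_ne_zero_of_mul h0
  obtain ⟨e, g, he, hχ, hng⟩ : ∃ e g, 1 ≤ e ∧ χ = π ^ e * g ∧ ¬ π ∣ g := by
    have hfin : FiniteMultiplicity π χ := FiniteMultiplicity.of_not_isUnit hπ.not_isUnit hm.ne_zero
    obtain ⟨g, h1, h2⟩ := hfin.exists_eq_pow_mul_and_not_dvd
    refine ⟨_, g, ?_, h1, h2⟩
    by_contra hc
    have hc0 : multiplicity π χ = 0 := by omega
    rw [hc0, pow_zero, one_mul] at h1
    rw [← h1] at h2
    exact h2 hπd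
  subst hχ
  have hg0 : g.coeff 0 ≠ 0 := by
    rw [mul_coeff_zero] at h0
    exact right_ne_zero_of_mul h0
  have hpe0 := coeff_zero_pow_ne hπ0 e
  have hgm : g.Monic := (hπm.pow e).of_mul_monic_left hm
  have hdeg : n = π.natDegree * e + g.natDegree := by
    rw [← hd, (hπm.pow e).natDegree_mul hgm, hπm.natDegree_pow, mul_comm]
  have hπpos := hπ.natDegree_pos
  have hgX : ¬ (X - 1) ∣ g := fun h => hX (h.trans (dvd_mul_left _ _))
  have hgX' : ¬ (X + 1) ∣ g := fun h => hX' (h.trans (dvd_mul_left _ _))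
  have hπX : π ≠ X - 1 := by
    rintro rfl
    exact hX ((dvd_pow_self _ (by omega)).trans (dvd_mul_right _ _))
  have hπX' : π ≠ X + 1 := by
    rintro rfl
    exact hX' ((dvd_pow_self _ (by omega)).trans (dvd_mul_right _ _))
  have hs' := hs
  rw [pstar_mul hpe0 hg0, pstar_pow hπ0] at hs'
  have hepos : 0 < e := he
  by_cases hself : pstar π = π
  · -- self-reciprocal factor
    rw [hself] at hs'
    have hgs : pstar g = g := mul_left_cancel₀ (pow_ne_zero _ hπ.ne_zero) hs'
    have hd2 : 2 ≤ π.natDegree := by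
      by_contra hc
      have h1 : π.natDegree = 1 := by omega
      have h2 := pstar_deg_one hπm hself h1
      have h3 : (X ^ 2 - 1 : F[X]) = (X - 1) * (X + 1) := by ring
      rw [h3] at h2
      rcases hπ.prime.2.2 _ _ h2 with h5 | h5
      · exact hπX (eq_of_monic_of_dvd_of_natDegree_le hπm monic_X_sub_one h5 (by rw [natDegree_X_sub_one]; omega)).symm
      · exact hπX' (eq_of_monic_of_dvd_of_natDegree_le hπm monic_X_add_one h5 (by rw [natDegree_X_add_one]; omega)).symm
    obtain ⟨d, hdd, hd1, hdd2⟩ := selfrec_dvd p hπ hπm hπ0 hself hd2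
    by_cases hd3 : d ≤ 3
    · obtain ⟨w', m', A', hw', hP', hdv⟩ := hih g (by nlinarith) hgm hg0 hgs hgX hgX'
      refine Or.inl ⟨w' + d * e, _, _, ?_, PartsO.plus d e hd1 hd3 he hP', ?_⟩
      · rw [hdeg, hdd, hw']; ring
      · have hcop : IsCoprime (π ^ e) g := ((hπ.coprime_iff_not_dvd).2 hng).pow_left
        rw [ht, fp_eq t d hd1 hd3] at hdd2
        apply hcop.mul_dvd
        · refine (pow_dvd_pow_of_dvd (hdd2.trans (X_pow_sub_one_dvd (Nat.dvd_lcm_left _ m'))) e).trans ?_
          exact pow_dvd_pow _ (le_max_left _ _)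
        · refine hdv.trans ((pow_dvd_pow_of_dvd (X_pow_sub_one_dvd (Nat.dvd_lcm_right (fp t d) m')) A').trans ?_)
          exact pow_dvd_pow _ (le_max_right _ _)
    · -- the whole polynomial is irreducible
      have h5 : 8 ≤ π.natDegree := by omega
      have h6 : e = 1 := by nlinarith
      subst h6
      have h7 : g.natDegree = 0 := by nlinarith
      have h8 : g = 1 := hgm.natDegree_eq_zero.1 h7
      subst h8
      refine Or.inr (Or.inl ⟨by omega, ?_⟩)
      simpa using hπ
  · -- a pair of factors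
    set π' := pstar π with hπ'
    have hπ'm : π'.Monic := pstar_monic hπ0
    have hπ'i : Irreducible π' := pstar_irreducible hπ hπ0
    have hπ'0 : π'.coeff 0 ≠ 0 := pstar_coeff_zero_ne hπm hπ0
    have hπ'π : pstar π' = π := pstar_pstar hπm hπ0
    have hnd : ¬ π' ∣ π := by
      intro h
      exact hself (eq_of_monic_of_dvd_of_natDegree_le hπ'm hπm h (by rw [hπ', pstar_natDegree hπ0])).symm
    have hcopp : IsCoprime π' π := (hπ'i.coprime_iff_not_dvd).2 hnd
    have hdvd1 : π' ^ e ∣ π ^ e * g := by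
      exact ⟨pstar g, hs'.symm⟩
    have hdvd2 : π' ^ e ∣ g := (hcopp.pow (m := e) (n := e)).dvd_of_dvd_mul_left hdvd1
    obtain ⟨h, rfl⟩ := hdvd2
    have hp'e0 := coeff_zero_pow_ne hπ'0 e
    have hh0 : h.coeff 0 ≠ 0 := by
      rw [mul_coeff_zero] at hg0
      exact right_ne_zero_of_mul hg0
    have hhm : h.Monic := (hπ'm.pow e).of_mul_monic_left hgm
    have hgXh : ¬ (X - 1) ∣ h := fun hh => hgX (hh.trans (dvd_mul_left _ _))
    have hgXh' : ¬ (X + 1) ∣ h := fun hh => hgX' (hh.trans (dvd_mul_left _ _))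
    have hs2 := hs'
    rw [pstar_mul hp'e0 hh0, pstar_pow hπ'0, hπ'π] at hs2
    have hhs : pstar h = h := by
      have hne : π ^ e * π' ^ e ≠ 0 := mul_ne_zero (pow_ne_zero _ hπ.ne_zero) (pow_ne_zero _ hπ'i.ne_zero)
      apply mul_left_cancel₀ hne
      linear_combination hs2
    have hnh : ¬ π ∣ h := fun hh => hng (hh.trans (dvd_mul_left _ _))
    have hnh' : ¬ π' ∣ h := by
      rintro ⟨k, hk⟩
      apply hnh
      have hk0 : k.coeff 0 ≠ 0 := by
        rw [hk, mul_coeff_zero] at hh0
        exact right_ne_zero_of_mul hh0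
      have := congrArg pstar hk
      rw [hhs, pstar_mul hπ'0 hk0, hπ'π] at this
      rw [this]
      exact dvd_mul_right _ _
    have hπ'deg : π'.natDegree = π.natDegree := pstar_natDegree hπ0
    have hgdeg : (π' ^ e * h).natDegree = π.natDegree * e + h.natDegree := by
      rw [(hπ'm.pow e).natDegree_mul hhm, hπ'm.natDegree_pow, hπ'deg, mul_comm]
    by_cases hd3 : π.natDegree ≤ 3
    · obtain ⟨w', m', A', hw', hP', hdv⟩ := hih h (by nlinarith) hhm hh0 hhs hgXh hgXh'
      have hXd : ¬ π ∣ X := not_dvd_X hπ hπ0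
      have hXd' : ¬ π' ∣ X := not_dvd_X hπ'i hπ'0
      have h1 : π ∣ X ^ (Fintype.card F ^ π.natDegree - 1) - 1 := Lib.SLn.Basic.irreducible_dvd_X_pow_sub_one π hπ hXd
      have h2 : π' ∣ X ^ (Fintype.card F ^ π.natDegree - 1) - 1 := by
        have := Lib.SLn.Basic.irreducible_dvd_X_pow_sub_one π' hπ'i hXd'
        rwa [hπ'deg] at this
      have h3 : π * π' ∣ X ^ (Fintype.card F ^ π.natDegree - 1) - 1 := hcopp.symm.mul_dvd h1 h2
      rw [ht, fm_eq t _ hπpos hd3] at h3
      refine Or.inl ⟨w' + π.natDegree * e, _, _, ?_, PartsO.minus π.natDegree e hπpos hd3 he hP', ?_⟩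
      · rw [hdeg, hgdeg, hw']; ring
      · have hcop : IsCoprime (π * π') h :=
          IsCoprime.mul_left ((hπ.coprime_iff_not_dvd).2 hnh) ((hπ'i.coprime_iff_not_dvd).2 hnh')
        rw [← mul_assoc, ← mul_pow]
        apply (hcop.pow_left (m := e)).mul_dvd
        · refine (pow_dvd_pow_of_dvd (h3.trans (X_pow_sub_one_dvd (Nat.dvd_lcm_left _ m'))) e).trans ?_
          exact pow_dvd_pow _ (le_max_left _ _)
        · refine hdv.trans ((pow_dvd_pow_of_dvd (X_pow_sub_one_dvd (Nat.dvd_lcm_right (fm t π.natDegree) m')) A').trans ?_)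
          exact pow_dvd_pow _ (le_max_right _ _)
    · -- the product of a pair of degree four
      have h5 : 4 ≤ π.natDegree := by omega
      have h6 : e = 1 := by
        rw [hgdeg] at hdeg
        nlinarith
      subst h6
      have h7 : h.natDegree = 0 := by
        rw [hgdeg] at hdeg
        nlinarith
      have h8 : h = 1 := hhm.natDegree_eq_zero.1 h7
      subst h8
      have h9 : π.natDegree = 4 := by
        rw [hgdeg] at hdeg
        omega
      refine Or.inr (Or.inr ⟨by rw [hgdeg] at hdeg; omega, π, hπm, hπ, h9, hself, ?_⟩)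
      rw [pow_one, pow_one, mul_one, hπ']

/-- The top level statement. -/
theorem exists_expO (p : ℕ) [Fact p.Prime] [CharP F p] {t : ℕ} (ht : Fintype.card F = 2 * t + 1) {χ : F[X]} (hm : χ.Monic)
    (hd : χ.natDegree = 8) (h0 : χ.coeff 0 ≠ 0) (hs : pstar χ = χ) (hX : ¬ (X - 1) ∣ χ) :
    ∃ μ r, χ = (X + 1) ^ μ * r ∧ ¬ (X + 1) ∣ r ∧ ((∃ m A, PO4 t m A ∧ r ∣ (X ^ m - 1) ^ A) ∨
      (μ = 0 ∧ Irreducible χ) ∨
      (μ = 0 ∧ ∃ π : F[X], π.Monic ∧ Irreducible π ∧ π.natDegree = 4 ∧ pstar π ≠ π ∧ χ = π * pstar π)) := by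
  have hX0 : (X + 1 : F[X]).coeff 0 ≠ 0 := coeff_zero_X_add_one
  have hirr : Irreducible (X + 1 : F[X]) := irreducible_X_add_one
  obtain ⟨μ, g, hχ, hng⟩ : ∃ μ g, χ = (X + 1) ^ μ * g ∧ ¬ (X + 1) ∣ g := by
    have hfin : FiniteMultiplicity (X + 1 : F[X]) χ :=
      FiniteMultiplicity.of_not_isUnit hirr.not_isUnit hm.ne_zero
    obtain ⟨g, h1, h2⟩ := hfin.exists_eq_pow_mul_and_not_dvd
    exact ⟨_, g, h1, h2⟩
  subst hχ
  have hg0 : g.coeff 0 ≠ 0 := by
    rw [mul_coeff_zero] at h0
    exact right_ne_zero_of_mul h0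
  have hpe0 := coeff_zero_pow_ne hX0 μ
  have hgm : g.Monic := (monic_X_add_one.pow μ).of_mul_monic_left hm
  have hdeg : 8 = μ + g.natDegree := by
    rw [← hd, (monic_X_add_one.pow μ).natDegree_mul hgm, monic_X_add_one.natDegree_pow,
      natDegree_X_add_one, mul_one]
  have hs' := hs
  rw [pstar_mul hpe0 hg0, pstar_pow hX0, pstar_X_add_one] at hs'
  have hgs : pstar g = g := mul_left_cancel₀ (pow_ne_zero _ hirr.ne_zero) hs'
  have hgX : ¬ (X - 1) ∣ g := fun h => hX (h.trans (dvd_mul_left _ _))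
  refine ⟨μ, g, rfl, hng, ?_⟩
  rcases peelO p ht g.natDegree (by omega) g hgm rfl hg0 hgs hgX hng with ⟨w, m, A, hw, hP, hdv⟩ | ⟨h8, h9⟩ | ⟨h8, h9⟩
  · exact Or.inl ⟨m, A, partsO_final hP (by omega), hdv⟩
  · have hμ : μ = 0 := by omega
    subst hμ
    refine Or.inr (Or.inl ⟨rfl, ?_⟩)
    simpa using h9
  · have hμ : μ = 0 := by omega
    subst hμ
    refine Or.inr (Or.inr ⟨rfl, ?_⟩)
    simpa using h9

end finite

end Cfsg.Agent.Lib.OmNine.PolyO
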