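import Mathlib
import Cfsg.Agent.Lib.OmNine.RSet
import Cfsg.Agent.Lib.SpEight.Models

set_option autoImplicit false
set_option linter.unusedSectionVars false
set_option linter.unusedVariables false
set_option linter.unusedSimpArgs false
set_option linter.style.haveILetI false

/-!
Elements of order `q ^ d - 1` and `q ^ (k + 1) + 1` without fixed vectors on the forms of plus and minus type
over a finite field of odd order.
-/

namespace Cfsg.Agent.Lib.OmNine.Tori

open Module QuadraticMap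
open Cfsg.Agent.Lib.Classical.Quad Cfsg.Agent.Lib.Classical.QuadOrders Cfsg.Agent.Lib.Classical.QuadHyp
open Cfsg.Agent.Lib.QuadFn.MaxSingular Cfsg.Agent.Lib.Orth.HypBasis Cfsg.Agent.Lib.Classical.OmegaDesc
open Cfsg.Agent.Lib.Orth.Spin Cfsg.Agent.Lib.Orth.Wall
open Cfsg.Agent.Lib.SpEight.Atoms Cfsg.Agent.Lib.SpEight.Models
open Cfsg.Agent.Lib.Witt.Quadratic

universe u v w

section base

variable {F : Type u} [Field F] {V : Type v} {W : Type w} [AddCommGroup V] [Module F V]
  [AddCommGroup W] [Module F W]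

/-- A fixed point free isometry of a given order. -/
def Tor (Q : QuadraticForm F V) (r : ℕ) : Prop :=
  ∃ g : V ≃ₗ[F] V, g ∈ isoGroup Q ∧ orderOf g = r ∧ ∀ x, g x = x → x = 0

theorem Tor.congr {Q : QuadraticForm F V} {Q' : QuadraticForm F W} (e : V ≃ₗ[F] W)
    (he : ∀ x, Q' (e x) = Q x) {r : ℕ} (h : Tor Q r) : Tor Q' r := by
  obtain ⟨g, h1, h2, h3⟩ := h
  refine ⟨e.symm.trans (g.trans e), ?_, ?_, ?_⟩
  · intro x
    show Q' (e (g (e.symm x))) = Q' x
    rw [he, h1, ← he, e.apply_symm_apply]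
  · rw [orderOf_conj, h2]
  · intro x hx
    have h4 : g (e.symm x) = e.symm x := by
      apply e.injective
      rw [e.apply_symm_apply]
      exact hx
    have h5 := h3 _ h4
    have h6 := congrArg e h5
    rwa [e.apply_symm_apply, map_zero] at h6

end base

section field

variable {F : Type u} [Field F] [Finite F] {E : Type v} [Field E] [Finite E] [Algebra F E]

/-- Fixed points of the Frobenius lie in the ground field. -/
theorem mem_range_of_pow_card {x : E} (hx : x ^ Nat.card F = x) : ∃ c : F, algebraMap F E c = x := by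
  classical
  haveI := Fintype.ofFinite F
  by_contra hcon
  push Not at hcon
  set q := Nat.card F with hq
  have hq2 : 2 ≤ q := Finite.one_lt_card
  let f : Polynomial E := Polynomial.X ^ q - Polynomial.X
  have hdeg : f.natDegree = q := FiniteField.X_pow_card_sub_X_natDegree_eq E (by omega)
  have hf0 : f ≠ 0 := by
    intro h
    rw [h, Polynomial.natDegree_zero] at hdeg
    omega
  let S : Finset E := insert x (Finset.univ.image (algebraMap F E))
  have hS : S ⊆ f.roots.toFinset := by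
    intro y hy
    rw [Multiset.mem_toFinset, Polynomial.mem_roots hf0, Polynomial.IsRoot, Polynomial.eval_sub,
      Polynomial.eval_pow, Polynomial.eval_X, sub_eq_zero]
    rcases Finset.mem_insert.1 hy with rfl | hy
    · exact hx
    · obtain ⟨c, -, rfl⟩ := Finset.mem_image.1 hy
      rw [← map_pow, hq, Nat.card_eq_fintype_card, FiniteField.pow_card]
  have hcardS : S.card = q + 1 := by
    rw [Finset.card_insert_of_notMem, Finset.card_image_of_injective _ (algebraMap F E).injective, Finset.card_univ,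
      hq, Nat.card_eq_fintype_card]
    intro h
    obtain ⟨c, -, hc⟩ := Finset.mem_image.1 h
    exact hcon c hc
  have h1 := Finset.card_le_card hS
  have h2 := Multiset.toFinset_card_le f.roots
  have h3 := Polynomial.card_roots' f
  omega

/-- Numerics of the free action. -/
theorem numeric_odd {q k Z : ℕ} (hq : 3 ≤ q) (hk : 1 ≤ k)
    (hZ : Z + q ^ k = q ^ (2 * k + 1) + q ^ (k + 1)) (hd : q ^ (k + 1) + 1 ∣ Z - 1) : False := by
  set r := q ^ k with hr
  have hr3 : 3 ≤ r := by
    calc 3 ≤ q := hq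
      _ = q ^ 1 := (pow_one q).symm
      _ ≤ q ^ k := Nat.pow_le_pow_right (by omega) hk
  have h1 : q ^ (k + 1) = q * r := by rw [pow_succ, mul_comm]
  have h2 : q ^ (2 * k + 1) = q * (r * r) := by
    rw [pow_succ, two_mul, pow_add, mul_comm]
  rw [h1] at hd
  rw [h1, h2] at hZ
  have hqr : 3 * r ≤ q * r := Nat.mul_le_mul_right _ hq
  have hpos : 0 < q * (r * r) := by positivity
  obtain ⟨Y, rfl⟩ : ∃ Y, Z = Y + 1 := ⟨Z - 1, by omega⟩
  rw [Nat.add_sub_cancel] at hd
  have hdvd : q * r + 1 ∣ 2 * (r + 1) := by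
    have h4 : (q * r + 1) * (r + 1) = q * (r * r) + q * r + r + 1 := by ring
    have h5 : Y + 2 * (r + 1) = (q * r + 1) * (r + 1) := by omega
    have h6 : q * r + 1 ∣ Y + 2 * (r + 1) := ⟨_, h5⟩
    exact (Nat.dvd_add_right hd).mp h6
  have hle := Nat.le_of_dvd (by omega) hdvd
  omega

end field

section T

variable {F : Type u} [Field F] [Finite F]

/-- The Frobenius power as an algebra map. -/
theorem exists_frob' {E : Type v} [Field E] [Finite E] [Algebra F E] (d : ℕ) :
    ∃ σ : E →ₐ[F] E, ∀ x, σ x = x ^ (Nat.card F ^ d) := by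
  classical
  haveI := Fintype.ofFinite F
  haveI := Fintype.ofFinite E
  let σ₀ : E ≃ₐ[F] E := FiniteField.frobeniusAlgEquivOfAlgebraic F E
  refine ⟨((σ₀ ^ d : E ≃ₐ[F] E) : E →ₐ[F] E), fun x => ?_⟩
  have h1 : (⇑(σ₀ ^ d)) = (⇑σ₀)^[d] := AlgEquiv.coe_pow σ₀ _
  show (σ₀ ^ d) x = _
  rw [h1, FiniteField.coe_frobeniusAlgEquivOfAlgebraic_iterate, Nat.card_eq_fintype_card]

/-- The norm-one torus on the form of minus type. -/
theorem tor_T_aux {E : Type v} [Field E] [Finite E] [Algebra F E] {k : ℕ} (h2 : (2 : F) ≠ 0)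
    (hfr : finrank F E = 2 * (k + 1)) {a b : F}
    (hab : ∀ z₁ z₂ : F, z₁ ^ 2 + a * z₁ * z₂ + b * z₂ ^ 2 = 0 → z₁ = 0 ∧ z₂ = 0) :
    Tor (qMinus k a b) (Nat.card F ^ (k + 1) + 1) := by
  classical
  haveI : Module.Finite F E := .of_finite
  set q := Nat.card F with hq
  have hq2 : 2 ≤ q := Finite.one_lt_card
  have hq3 : 3 ≤ q := by
    by_contra hc
    have h1 : q = 2 := by omega
    apply h2
    haveI := Fintype.ofFinite F
    have h3 := FiniteField.cast_card_eq_zero F
    rw [← Nat.card_eq_fintype_card, ← hq, h1] at h3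
    exact_mod_cast h3
  have hcardE : Nat.card E = q ^ (2 * (k + 1)) := by
    rw [← hfr]
    exact Module.natCard_eq_pow_finrank (K := F) (V := E)
  have hQ1 : 1 ≤ q ^ (k + 1) := Nat.one_le_pow _ _ (by omega)
  have hQ3 : 3 ≤ q ^ (k + 1) := by
    calc 3 ≤ q := hq3
      _ = q ^ 1 := (pow_one q).symm
      _ ≤ q ^ (k + 1) := Nat.pow_le_pow_right (by omega) (by omega)
  have hE1 : q ^ (2 * (k + 1)) - 1 = (q ^ (k + 1) + 1) * (q ^ (k + 1) - 1) := by
    obtain ⟨t, ht⟩ : ∃ t, q ^ (k + 1) = t + 1 := ⟨q ^ (k + 1) - 1, by omega⟩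
    rw [two_mul, pow_add, ht]
    simp only [Nat.add_sub_cancel]
    exact Nat.sub_eq_of_eq_add (by ring)
  obtain ⟨σ, hσ⟩ := exists_frob' (F := F) (E := E) (k + 1)
  have hpow : ∀ x : E, x ^ (q ^ (2 * (k + 1))) = x := by
    intro x
    rw [← hcardE]
    haveI := Fintype.ofFinite E
    rw [Nat.card_eq_fintype_card]
    exact FiniteField.pow_card x
  have hσ2 : ∀ x, σ (σ x) = x := by
    intro x
    rw [hσ, hσ, ← pow_mul, ← pow_add, ← two_mul]
    exact hpow x
  obtain ⟨ζ, hζ⟩ := IsCyclic.exists_ofOrder_eq_natCard (α := Eˣ)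
  have hcardU : Nat.card Eˣ = q ^ (2 * (k + 1)) - 1 := by
    rw [Nat.card_units, hcardE]
  rw [hcardU, hE1] at hζ
  have hne : q ^ (k + 1) - 1 ≠ 0 := by omega
  -- the element of order `q ^ (k + 1) + 1`
  set w : Eˣ := ζ ^ (q ^ (k + 1) - 1) with hw
  have hwo : orderOf w = q ^ (k + 1) + 1 := by
    rw [hw, orderOf_pow_of_dvd hne (hζ ▸ dvd_mul_left _ _), hζ]
    exact Nat.mul_div_cancel _ (Nat.pos_of_ne_zero hne)
  -- a vector moved by the Frobenius
  have hz : ((ζ : E) + σ ζ) ≠ 0 := by
    intro h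
    have h1 : σ ζ = - (ζ : E) := eq_neg_of_add_eq_zero_right h
    rw [hσ] at h1
    have h2' : ζ ^ (2 * (q ^ (k + 1) - 1)) = 1 := by
      apply Units.ext
      have h3 : (ζ : E) ^ (q ^ (k + 1) - 1) * ζ = - 1 * ζ := by
        rw [← pow_succ, Nat.sub_add_cancel hQ1, h1, neg_mul, one_mul]
      have h4 := mul_right_cancel₀ ζ.ne_zero h3
      rw [mul_comm, pow_mul]
      push_cast
      rw [h4]
      ring
    have h3 : (q ^ (k + 1) + 1) * (q ^ (k + 1) - 1) ∣ 2 * (q ^ (k + 1) - 1) := hζ ▸ orderOf_dvd_of_pow_eq_one h2'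
    have h4 : q ^ (k + 1) + 1 ∣ 2 := Nat.dvd_of_mul_dvd_mul_right (Nat.pos_of_ne_zero hne) h3
    have h5 := Nat.le_of_dvd (by norm_num) h4
    omega
  obtain ⟨l, hl⟩ : ∃ l : E →ₗ[F] F, l ((ζ : E) + σ ζ) ≠ 0 := by
    by_contra hcon
    push Not at hcon
    exact hz ((Module.forall_dual_apply_eq_zero_iff F _).1 hcon)
  set Q := normForm σ l with hQdef
  have hN : (polarBilin Q).Nondegenerate := normForm_nondeg σ l hσ2 hl
  -- every power of `w` has norm one
  have hnorm : ∀ c ∈ Subgroup.zpowers w, ((c : Eˣ) : E) * σ (c : Eˣ) = 1 := by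
    intro c hc
    obtain ⟨n, rfl⟩ := Subgroup.mem_zpowers_iff.1 hc
    have h1 : (w ^ n) ^ (q ^ (k + 1) + 1) = 1 := by
      rw [← zpow_natCast, ← zpow_mul, mul_comm, zpow_mul, zpow_natCast, ← hwo, pow_orderOf_eq_one, one_zpow]
    have h2' := congrArg (Units.val) h1
    rw [hσ, ← pow_succ']
    simpa using h2'
  have hisom : ∀ c ∈ Subgroup.zpowers w, ∀ x, Q (((c : Eˣ) : E) * x) = Q x := by
    intro c hc x
    rw [hQdef, normForm_apply, normForm_apply, map_mul σ]
    congr 1
    calc ((c : Eˣ) : E) * x * (σ (c : Eˣ) * σ x) = (((c : Eˣ) : E) * σ (c : Eˣ)) * (x * σ x) := by ring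
      _ = x * σ x := by rw [hnorm c hc, one_mul]
  have hT : Tor Q (q ^ (k + 1) + 1) := by
    refine ⟨mulHom (F := F) w, fun x => hisom w (Subgroup.mem_zpowers w) x, ?_, ?_⟩
    · rw [orderOf_injective _ mulHom_injective, hwo]
    · intro x hx
      by_contra hx0
      have h1 : (w : E) * x = 1 * x := by rw [one_mul]; exact hx
      have h2' : (w : E) = 1 := mul_right_cancel₀ hx0 h1
      have h3 : w = 1 := Units.ext h2'
      have h4 : orderOf w = 1 := by rw [h3, orderOf_one]
      rw [hwo] at h4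
      omega
  -- there is no totally singular subspace of half the dimension
  have hL : ¬ ∃ U : Submodule F E, TS (⇑Q) U ∧ finrank F U = k + 1 := by
    rintro ⟨U, hU, hUd⟩
    rcases Nat.eq_zero_or_pos k with rfl | hkpos
    · -- the plane: the form is anisotropic
      exfalso
      have hU0 : U ≠ ⊥ := by
        intro h
        rw [h, finrank_bot] at hUd
        omega
      obtain ⟨x, hxU, hx0⟩ := U.ne_bot_iff.1 hU0
      have hQx : l (x * σ x) = 0 := hU x hxU
      have hfix : ∀ y : E, σ (σ y) = y := hσ2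
      have hn : (x * σ x) ^ q = x * σ x := by
        have : σ (x * σ x) = x * σ x := by
          rw [map_mul, hσ2, mul_comm]
        rw [hσ, zero_add, pow_one] at this
        exact this
      have hs : ((ζ : E) + σ ζ) ^ q = (ζ : E) + σ ζ := by
        have : σ ((ζ : E) + σ ζ) = (ζ : E) + σ ζ := by
          rw [map_add, hσ2, add_comm]
        rw [hσ, zero_add, pow_one] at this
        exact this
      obtain ⟨c₁, hc₁⟩ := mem_range_of_pow_card (F := F) hn
      obtain ⟨c₂, hc₂⟩ := mem_range_of_pow_card (F := F) hs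
      have hc₁0 : c₁ ≠ 0 := by
        rintro rfl
        rw [map_zero] at hc₁
        have h3 : σ x ≠ 0 := fun h => hx0 (by
          have := hσ2 x
          rw [h, map_zero] at this
          exact this.symm)
        exact mul_ne_zero hx0 h3 hc₁.symm
      apply hl
      -- `l` vanishes on the ground field
      have h1 : l (algebraMap F E c₁) = 0 := by rw [hc₁]; exact hQx
      have h3 : ∀ c : F, l (algebraMap F E c) = 0 := by
        intro c
        have h4 : algebraMap F E c = (c * c₁⁻¹) • algebraMap F E c₁ := by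
          rw [Algebra.smul_def, ← map_mul, mul_assoc, inv_mul_cancel₀ hc₁0, mul_one]
        rw [h4, map_smul, h1, smul_zero]
      rw [← hc₂]
      exact h3 c₂
    have hcount := card_zero_plus (F := F) hq.symm k
    obtain ⟨Θ, hΘ⟩ := exists_equiv_plus_of_ts hN (m := k + 1) hfr hU hUd
    have hZ : Nat.card {v : Fin (k + 1) ⊕ Fin (k + 1) → F // Cfsg.quadFormPlus (k + 1) F v = 0} =
        Nat.card {x : E // Q x = 0} := by
      apply Nat.card_congr
      exact Θ.toEquiv.subtypeEquiv (fun v => by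
        show _ ↔ Q (Θ v) = 0
        rw [hΘ])
    rw [hZ] at hcount
    have hfree := card_dvd_of_free (Subgroup.zpowers w) {x : E | Q x = 0} (map_zero Q)
      (fun c hc x hx => by
        show Q _ = 0
        rw [hisom c hc]
        exact hx)
    rw [Nat.card_zpowers, hwo] at hfree
    exact numeric_odd hq3 hkpos hcount hfree
  obtain ⟨a₀, b₀, -, hall⟩ := exists_equiv_minus hN (k := k) hfr hL
  obtain ⟨Θ, hΘ⟩ := hall a b hab
  refine hT.congr Θ.symm (fun x => ?_)
  have h1 := hΘ (Θ.symm x)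
  rw [Θ.apply_symm_apply] at h1
  rw [h1, ← coe_qMinus]

/-- Extension fields exist. -/
theorem tor_T {p : ℕ} [Fact p.Prime] [CharP F p] (h2 : (2 : F) ≠ 0) (k : ℕ) {a b : F}
    (hab : ∀ z₁ z₂ : F, z₁ ^ 2 + a * z₁ * z₂ + b * z₂ ^ 2 = 0 → z₁ = 0 ∧ z₂ = 0) :
    Tor (qMinus k a b) (Nat.card F ^ (k + 1) + 1) := by
  haveI : NeZero (2 * (k + 1)) := ⟨by omega⟩
  exact tor_T_aux (E := FiniteField.Extension F p (2 * (k + 1))) h2 (FiniteField.finrank_extension F p _) hab

/-- The form `(x, y) ↦ l (x * y)` on `L × L`. -/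
noncomputable def hypForm' {L : Type v} [Field L] [Algebra F L] (l : L →ₗ[F] F) : QuadraticForm F (L × L) :=
  LinearMap.BilinMap.toQuadraticMap (LinearMap.mk₂ F (fun u v => l (u.1 * v.2))
    (fun a b c => by rw [Prod.fst_add, add_mul, map_add])
    (fun c a b => by rw [Prod.smul_fst, smul_mul_assoc, map_smul])
    (fun a b c => by rw [Prod.snd_add, mul_add, map_add])
    (fun c a b => by rw [Prod.smul_snd, mul_smul_comm, map_smul]))

theorem hypForm'_apply {L : Type v} [Field L] [Algebra F L] (l : L →ₗ[F] F) (x : L × L) :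
    hypForm' l x = l (x.1 * x.2) := rfl

theorem polar_hypForm' {L : Type v} [Field L] [Algebra F L] (l : L →ₗ[F] F) (x y : L × L) :
    polar (hypForm' l) x y = l (x.1 * y.2) + l (y.1 * x.2) := by
  unfold polar
  simp only [hypForm'_apply, Prod.fst_add, Prod.snd_add, map_add, mul_add, add_mul]
  ring

/-- A unit acting as `(u, u⁻¹)`. -/
noncomputable def diagHom' {L : Type v} [Field L] [Algebra F L] : Lˣ →* ((L × L) ≃ₗ[F] (L × L)) where
  toFun u := LinearEquiv.prodCongr (mulHom (F := F) u) (mulHom (F := F) u⁻¹)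
  map_one' := by
    ext x <;> simp
  map_mul' a b := by
    ext x <;> simp [mul_assoc, mul_comm]

theorem diagHom'_injective {L : Type v} [Field L] [Algebra F L] :
    Function.Injective (diagHom' (F := F) (L := L)) := by
  intro a b h
  have h1 : ((a : L) * 1, ((a⁻¹ : Lˣ) : L) * 0) = ((b : L) * 1, ((b⁻¹ : Lˣ) : L) * 0) :=
    DFunLike.congr_fun h (1, 0)
  have h2 := congrArg Prod.fst h1
  simp only [mul_one] at h2
  exact Units.ext h2

/-- The split torus on the hyperbolic form. -/
theorem tor_H_aux {L : Type v} [Field L] [Finite L] [Algebra F L] {d : ℕ} (hfr : finrank F L = d)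
    (hd : 1 ≤ d) (hq3 : 3 ≤ Nat.card F) : Tor (qPlus d F) (Nat.card F ^ d - 1) := by
  classical
  haveI : Module.Finite F L := .of_finite
  set q := Nat.card F with hq
  have hcardL : Nat.card L = q ^ d := by
    rw [← hfr]
    exact Module.natCard_eq_pow_finrank (K := F) (V := L)
  obtain ⟨l, hl⟩ : ∃ l : L →ₗ[F] F, l 1 ≠ 0 := by
    by_contra hcon
    push Not at hcon
    exact one_ne_zero ((Module.forall_dual_apply_eq_zero_iff F (1 : L)).1 hcon)
  have hN : (polarBilin (hypForm' l)).Nondegenerate := by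
    apply nondeg_of_sep
    rintro ⟨x, y⟩ h
    have hx : x = 0 := by
      by_contra hx0
      have h1 := h (0, x⁻¹)
      rw [polar_hypForm'] at h1
      simp only [zero_mul, map_zero, add_zero, mul_inv_cancel₀ hx0] at h1
      exact hl h1
    have hy : y = 0 := by
      by_contra hy0
      have h1 := h (y⁻¹, 0)
      rw [polar_hypForm'] at h1
      simp only [mul_zero, map_zero, zero_add, inv_mul_cancel₀ hy0] at h1
      exact hl h1
    rw [hx, hy]
    rfl
  obtain ⟨ζ, hζ⟩ := IsCyclic.exists_ofOrder_eq_natCard (α := Lˣ)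
  have hcardU : Nat.card Lˣ = q ^ d - 1 := by
    rw [Nat.card_units, hcardL]
  rw [hcardU] at hζ
  have hdim : finrank F (L × L) = 2 * d := by
    rw [Module.finrank_prod, hfr]
    ring
  have hζ1 : ζ ≠ 1 := by
    intro h
    rw [h, orderOf_one] at hζ
    have h3 : 3 ^ 1 ≤ q ^ d := le_trans (Nat.pow_le_pow_right (by norm_num) hd) (Nat.pow_le_pow_left hq3 d)
    omega
  have hH : Tor (hypForm' l) (q ^ d - 1) := by
    refine ⟨diagHom' (F := F) ζ, fun x => ?_, ?_, ?_⟩
    · show hypForm' l ((ζ : L) * x.1, ((ζ⁻¹ : Lˣ) : L) * x.2) = _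
      rw [hypForm'_apply, hypForm'_apply]
      congr 1
      simp only
      calc (ζ : L) * x.1 * (((ζ⁻¹ : Lˣ) : L) * x.2) = ((ζ : L) * ((ζ⁻¹ : Lˣ) : L)) * (x.1 * x.2) := by ring
        _ = x.1 * x.2 := by simp
    · rw [orderOf_injective _ diagHom'_injective, hζ]
    · rintro ⟨x, y⟩ hx
      have h1 : ((ζ : L) * x, ((ζ⁻¹ : Lˣ) : L) * y) = (x, y) := hx
      have hx0 : x = 0 := by
        by_contra hx0
        have h2 : (ζ : L) * x = 1 * x := by rw [one_mul]; exact congrArg Prod.fst h1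
        exact hζ1 (Units.ext (mul_right_cancel₀ hx0 h2))
      have hy0 : y = 0 := by
        by_contra hy0
        have h2 : ((ζ⁻¹ : Lˣ) : L) * y = 1 * y := by rw [one_mul]; exact congrArg Prod.snd h1
        have h3 : ζ⁻¹ = 1 := Units.ext (mul_right_cancel₀ hy0 h2)
        exact hζ1 (inv_eq_one.1 h3)
      rw [hx0, hy0]
      rfl
  let U : Submodule F (L × L) := LinearMap.range (LinearMap.inl F L L)
  have hU : TS (⇑(hypForm' l)) U := by
    rintro _ ⟨x, rfl⟩
    show hypForm' l (x, 0) = 0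
    rw [hypForm'_apply]
    simp
  have hUd : finrank F U = d := by
    rw [LinearMap.finrank_range_of_inj LinearMap.inl_injective, hfr]
  obtain ⟨Θ, hΘ⟩ := exists_equiv_plus_of_ts hN (m := d) hdim hU hUd
  refine hH.congr Θ.symm (fun x => ?_)
  have h1 := hΘ (Θ.symm x)
  rw [Θ.apply_symm_apply] at h1
  rw [h1, coe_qPlus]

theorem tor_H {p : ℕ} [Fact p.Prime] [CharP F p] {d : ℕ} (hd : 1 ≤ d) (hq3 : 3 ≤ Nat.card F) :
    Tor (qPlus d F) (Nat.card F ^ d - 1) := by
  haveI : NeZero d := ⟨by omega⟩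
  exact tor_H_aux (L := FiniteField.Extension F p d) (FiniteField.finrank_extension F p _) hd hq3

end T

end Cfsg.Agent.Lib.OmNine.Tori
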