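import Mathlib
import Cfsg.Agent.Lib.OmNine.Tori
import Cfsg.Agent.Lib.OmNine.Dir1
import Cfsg.Agent.Lib.OmNine.PolyO
import Cfsg.Agent.Lib.Orth.NegOne
import Cfsg.Agent.Lib.Orth.Forms
import Cfsg.Agent.Lib.Orth.Bridge

set_option autoImplicit false
set_option linter.unusedSectionVars false
set_option linter.unusedVariables false
set_option linter.unusedSimpArgs false
set_option linter.style.haveILetI false

/-!
Products of forms, the spinor class of `-1`, compensation, and the elements giving the exponents.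
-/

namespace Cfsg.Agent.Lib.OmNine.Models

open Module QuadraticMap
open Cfsg.Agent.Lib.Classical.QuadOrders
open Cfsg.Agent.Lib.Classical.QuadHyp
open Cfsg.Agent.Lib.Orth.Spin Cfsg.Agent.Lib.Orth.Wall Cfsg.Agent.Lib.Orth.Gen Cfsg.Agent.Lib.Orth.Omega
open Cfsg.Agent.Lib.Orth.Refl
open Cfsg.Agent.Lib.SpEight.Atoms (rk_of_fixfree)
open Cfsg.Agent.Lib.SpEight.Models (minusSum minusSum_isom)
open Cfsg.Agent.Lib.Witt.Quadratic
open Cfsg.Agent.Lib.OmNine.Proj Cfsg.Agent.Lib.OmNine.Chain Cfsg.Agent.Lib.OmNine.Lift Cfsg.Agent.Lib.OmNine.Split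
  Cfsg.Agent.Lib.OmNine.RSet Cfsg.Agent.Lib.OmNine.Dir1 Cfsg.Agent.Lib.OmNine.Tori Cfsg.Agent.Lib.OmNine.PolyO

universe u v w

section prod

variable {F : Type u} [Field F] [Finite F] {A : Type v} {B : Type w} [AddCommGroup A] [Module F A] [AddCommGroup B]
  [Module F B] [FiniteDimensional F A] [FiniteDimensional F B] {Q₁ : QuadraticForm F A} {Q₂ : QuadraticForm F B}

theorem polar_prod (x y : A × B) : polar (Q₁.prod Q₂) x y = polar Q₁ x.1 y.1 + polar Q₂ x.2 y.2 := by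
  simp only [polar, QuadraticMap.prod_apply, Prod.fst_add, Prod.snd_add]
  ring

theorem nondeg_prod (h₁ : (polarBilin Q₁).Nondegenerate) (h₂ : (polarBilin Q₂).Nondegenerate) :
    (polarBilin (Q₁.prod Q₂)).Nondegenerate := by
  apply nondeg_of_sep
  rintro ⟨x₁, x₂⟩ h
  have h3 : x₁ = 0 := h₁.1 _ fun y => by
    have := h (y, 0)
    rw [polar_prod] at this
    simpa using this
  have h4 : x₂ = 0 := h₂.1 _ fun y => by
    have := h (0, y)
    rw [polar_prod] at this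
    simpa using this
  rw [h3, h4]
  rfl

/-- The inclusion of the first factor. -/
theorem inl_isom (x : A) : (Q₁.prod Q₂) (LinearMap.inl F A B x) = Q₁ x := by
  simp

theorem inr_isom (x : B) : (Q₁.prod Q₂) (LinearMap.inr F A B x) = Q₂ x := by
  simp

variable (h₁ : (polarBilin Q₁).Nondegenerate) (h₂ : (polarBilin Q₂).Nondegenerate)

theorem adj_inl (x : A × B) : adjι (Q := Q₁.prod Q₂) h₁ (LinearMap.inl F A B) x = x.1 := by
  have h3 : ∀ y, polar Q₁ (adjι (Q := Q₁.prod Q₂) h₁ (LinearMap.inl F A B) x - x.1) y = 0 := fun y => by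
    rw [polar_sub_left, polar_adj, polar_prod]
    simp
  exact sub_eq_zero.1 (h₁.1 _ h3)

theorem adj_inr (x : A × B) : adjι (Q := Q₁.prod Q₂) h₂ (LinearMap.inr F A B) x = x.2 := by
  have h3 : ∀ y, polar Q₂ (adjι (Q := Q₁.prod Q₂) h₂ (LinearMap.inr F A B) x - x.2) y = 0 := fun y => by
    rw [polar_sub_left, polar_adj, polar_prod]
    simp
  exact sub_eq_zero.1 (h₂.1 _ h3)

theorem prod_eq_lift (g₁ : A ≃ₗ[F] A) (g₂ : B ≃ₗ[F] B) :
    LinearEquiv.prodCongr g₁ g₂ = liftE (Q := Q₁.prod Q₂) h₁ (LinearMap.inl F A B) inl_isom g₁ *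
      liftE (Q := Q₁.prod Q₂) h₂ (LinearMap.inr F A B) inr_isom g₂ := by
  ext x
  · show g₁ x.1 = (liftE (Q := Q₁.prod Q₂) h₁ (LinearMap.inl F A B) inl_isom g₁ (liftE (Q := Q₁.prod Q₂) h₂ (LinearMap.inr F A B) inr_isom g₂ (x.1, x.2))).1
    simp [liftE_apply, adj_inl, adj_inr]
  · show g₂ x.2 = (liftE (Q := Q₁.prod Q₂) h₁ (LinearMap.inl F A B) inl_isom g₁ (liftE (Q := Q₁.prod Q₂) h₂ (LinearMap.inr F A B) inr_isom g₂ (x.1, x.2))).2
    simp [liftE_apply, adj_inl, adj_inr]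

variable (h2 : (2 : F) ≠ 0)

include h₁ h₂ h2 in
/-- Invariants of a product. -/
theorem isOm_prod {g₁ : A ≃ₗ[F] A} {g₂ : B ≃ₗ[F] B} (hg₁ : g₁ ∈ isoGroup Q₁) (hg₂ : g₂ ∈ isoGroup Q₂)
    (hr₁ : rp g₁ = 0) (hr₂ : rp g₂ = 0) (hs : sn Q₁ g₁ = sn Q₂ g₂) :
    IsOm (Q₁.prod Q₂) (LinearEquiv.prodCongr g₁ g₂) := by
  have hN := nondeg_prod h₁ h₂
  rw [prod_eq_lift h₁ h₂]
  have ha := liftE_mem (Q := Q₁.prod Q₂) h₁ inl_isom hg₁
  have hb := liftE_mem (Q := Q₁.prod Q₂) h₂ inr_isom hg₂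
  refine ⟨Subgroup.mul_mem _ ha hb, ?_, ?_⟩
  · rw [rpM h2 hN ha hb, rp_liftE h₁ inl_isom h2 hN hg₁, rp_liftE h₂ inr_isom h2 hN hg₂, hr₁, hr₂, add_zero]
  · rw [snM h2 hN ha hb, sn_liftE h₁ inl_isom h2 hN hg₁, sn_liftE h₂ inr_isom h2 hN hg₂, hs]
    have h3 : ∀ a : ZMod 2, a + a = 0 := by decide
    exact h3 _

omit [Finite F] h₁ h₂ h2 [FiniteDimensional F A] [FiniteDimensional F B] in
theorem pow_prod (g₁ : A ≃ₗ[F] A) (g₂ : B ≃ₗ[F] B) (n : ℕ) (x : A × B) :
    ((LinearEquiv.prodCongr g₁ g₂) ^ n) x = ((g₁ ^ n) x.1, (g₂ ^ n) x.2) := by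
  induction n generalizing x with
  | zero => rfl
  | succ n ih =>
    rw [pow_succ]
    show ((LinearEquiv.prodCongr g₁ g₂) ^ n) (g₁ x.1, g₂ x.2) = _
    rw [ih]
    rw [pow_succ, pow_succ]
    rfl

omit [Finite F] h₁ h₂ h2 [FiniteDimensional F A] [FiniteDimensional F B] in
theorem dvd_order_left (g₁ : A ≃ₗ[F] A) (g₂ : B ≃ₗ[F] B) : orderOf g₁ ∣ orderOf (LinearEquiv.prodCongr g₁ g₂) := by
  apply orderOf_dvd_of_pow_eq_one
  ext x
  have h3 := pow_prod g₁ g₂ (orderOf (LinearEquiv.prodCongr g₁ g₂)) (x, 0)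
  rw [pow_orderOf_eq_one] at h3
  exact (congrArg Prod.fst h3).symm

omit [Finite F] h₁ h₂ h2 [FiniteDimensional F A] [FiniteDimensional F B] in
theorem dvd_order_right (g₁ : A ≃ₗ[F] A) (g₂ : B ≃ₗ[F] B) : orderOf g₂ ∣ orderOf (LinearEquiv.prodCongr g₁ g₂) := by
  apply orderOf_dvd_of_pow_eq_one
  ext x
  have h3 := pow_prod g₁ g₂ (orderOf (LinearEquiv.prodCongr g₁ g₂)) (0, x)
  rw [pow_orderOf_eq_one] at h3
  exact (congrArg Prod.snd h3).symm

end prod

section neg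

variable {F : Type u} [Field F] [Fintype F] {V : Type v} [AddCommGroup V] [Module F V] [FiniteDimensional F V]
  {Q : QuadraticForm F V}

theorem rp_of_fixfree {g : V ≃ₗ[F] V} (h : ∀ x, g x = x → x = 0) (hd : Even (finrank F V)) : rp g = 0 := by
  show ((rk g : ℕ) : ZMod 2) = 0
  rw [rk_of_fixfree h]
  exact (ZMod.natCast_eq_zero_iff_even).2 hd

theorem neg_fixfree (h2 : (2 : F) ≠ 0) : ∀ x : V, negE (F := F) V x = x → x = 0 := by
  intro x hx
  have h3 : (2 : F) • x = 0 := by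
    rw [two_smul]
    nth_rewrite 1 [← hx]
    simp
  exact (smul_eq_zero.1 h3).resolve_left h2

/-- Compensation. -/
theorem flex (h2 : (2 : F) ≠ 0) (hQ : (polarBilin Q).Nondegenerate) (hd : Even (finrank F V)) {y₀ : V ≃ₗ[F] V}
    (hy : y₀ ∈ isoGroup Q) (hodd : Odd (orderOf y₀)) (hneg : sn Q (negE (F := F) V) = 1) (σ : ZMod 2) :
    ∃ y : V ≃ₗ[F] V, y ∈ isoGroup Q ∧ rp y = 0 ∧ sn Q y = σ ∧ orderOf y₀ ∣ orderOf y := by
  have hOm : IsOm Q y₀ := isOm_of_odd h2 hQ hy hodd (pow_orderOf_eq_one y₀)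
  by_cases hσ : σ = 0
  · exact ⟨y₀, hy, hOm.rp0, by rw [hOm.sn0, hσ], dvd_rfl⟩
  · have hσ1 : σ = 1 := by
      revert σ
      decide
    have hm : negE (F := F) V * y₀ ∈ isoGroup Q := Subgroup.mul_mem _ negE_mem hy
    refine ⟨negE V * y₀, hm, ?_, ?_, ?_⟩
    · rw [rpM h2 hQ negE_mem hy, hOm.rp0, add_zero]
      exact rp_of_fixfree (neg_fixfree h2) hd
    · rw [snM h2 hQ negE_mem hy, hOm.sn0, add_zero, hneg, hσ1]
    · have hc : Commute (negE (F := F) V) y₀ := negE_mul_comm y₀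
      have h1 : (negE (F := F) V * y₀) ^ (orderOf (negE (F := F) V * y₀)) = 1 := pow_orderOf_eq_one _
      have h3 : y₀ ^ (2 * orderOf (negE (F := F) V * y₀)) = 1 := by
        have h4 : (negE (F := F) V * y₀) ^ (2 * orderOf (negE (F := F) V * y₀)) = 1 := by
          rw [mul_comm, pow_mul, h1, one_pow]
        have h6 : (negE (F := F) V) ^ (2 * orderOf (negE (F := F) V * y₀)) = 1 := by
          rw [pow_mul]
          have h7 : (negE (F := F) V) ^ 2 = 1 := by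
            ext x
            show - - x = x
            rw [neg_neg]
          rw [h7, one_pow]
        rwa [hc.mul_pow, h6, one_mul] at h4
      have h5 := orderOf_dvd_of_pow_eq_one h3
      exact Nat.Coprime.dvd_of_dvd_mul_left (Nat.coprime_two_left.2 hodd).symm h5

end neg

section forms

open Cfsg.Agent.Lib.Orth.Bridge Cfsg.Agent.Lib.Orth.Forms Cfsg.Agent.Lib.Orth.Gram Cfsg.Agent.Lib.Orth.NegOne Matrix

variable {F : Type u} [Field F] [Fintype F]

theorem qPlus_eq (m : ℕ) : qPlus m F = plusForm m F := DFunLike.coe_injective (coe_qPlus m)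

theorem qMinus_eq (k : ℕ) (a b : F) : qMinus k a b = minusForm k F a b := DFunLike.coe_injective (coe_qMinus k a b)

theorem nondegP (m : ℕ) : (polarBilin (qPlus m F)).Nondegenerate := by
  rw [qPlus_eq]
  exact plusForm_nondeg m

theorem nondegM (k : ℕ) {a b : F} (hab : ∀ z₁ z₂ : F, z₁ ^ 2 + a * z₁ * z₂ + b * z₂ ^ 2 = 0 → z₁ = 0 ∧ z₂ = 0) :
    (polarBilin (qMinus k a b)).Nondegenerate := by
  rw [qMinus_eq]
  exact minusForm_nondeg k hab

theorem finrankP (m : ℕ) : finrank F (Fin m ⊕ Fin m → F) = 2 * m := by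
  rw [Module.finrank_fintype_fun_eq_card]
  simp
  ring

theorem finrankM (k : ℕ) : finrank F ((Fin k ⊕ Fin k) ⊕ Fin 2 → F) = 2 * (k + 1) := by
  rw [Module.finrank_fintype_fun_eq_card]
  simp
  ring

/-- The spinor class of `-1`. -/
theorem sn_neg_of_not_square {ι : Type} [Fintype ι] [DecidableEq ι] (h2 : (2 : F) ≠ 0) {Q : QuadraticForm F (ι → F)}
    (hQ : (polarBilin Q).Nondegenerate) (he : Even (Fintype.card ι)) {G : Matrix ι ι F}
    (hG : ∀ u v, polar ⇑Q u v = u ⬝ᵥ (G *ᵥ v)) (hns : ¬ IsSquare G.det) : sn Q (negE (F := F) (ι → F)) = 1 := by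
  classical
  by_contra hne
  have hs0 : sn Q (negE (F := F) (ι → F)) = 0 := by
    generalize sn Q (negE (F := F) (ι → F)) = s at hne
    revert s
    decide
  have hc : Fintype.card F ≠ 2 := by
    intro hcard
    apply h2
    have := FiniteField.cast_card_eq_zero F
    rw [hcard] at this
    exact_mod_cast this
  have hd : Even (finrank F (ι → F)) := by
    rw [Module.finrank_fintype_fun_eq_card]
    exact he
  let e : isoGroup Q := ⟨negE (ι → F), negE_mem⟩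
  let g : Cfsg.isometryGroup F ⇑Q := (toIso Q).symm e
  have hgo : g ∈ Cfsg.Omega F ⇑Q := by
    rw [mem_Omega_iff Q hQ (Or.inl hc) g]
    have h1 : toIso Q g = e := (toIso Q).apply_symm_apply e
    rw [h1]
    exact ⟨rp_of_fixfree (neg_fixfree h2) hd, hs0⟩
  have hmat : ((g : Matrix.GeneralLinearGroup ι F) : Matrix ι ι F) = -1 := by
    apply Matrix.toLin'.injective
    apply LinearMap.ext
    intro x
    rw [Matrix.toLin'_apply, Matrix.toLin'_apply, toIso_symm_mulVec, Matrix.neg_mulVec, Matrix.one_mulVec]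
    rfl
  have h3 := (neg_one_mem_Omega_iff h2 he Q hQ).1 ⟨g, hgo, hmat⟩
  have h4 : (Matrix.of (fun i j : ι => polar ⇑Q (Pi.single i 1) (Pi.single j 1))) = G := by
    ext i j
    rw [Matrix.of_apply, hG]
    simp
  rw [h4] at h3
  exact hns h3

theorem sn_neg_plus (h2 : (2 : F) ≠ 0) (d : ℕ) (h : ¬ IsSquare ((-1 : F) ^ d)) :
    sn (qPlus d F) (negE (F := F) (Fin d ⊕ Fin d → F)) = 1 := by
  apply sn_neg_of_not_square h2 (nondegP d) (by simp) (G := hypMat (Fin d) F)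
  · intro u v
    rw [coe_qPlus]
    exact polar_quadFormPlus d u v
  · rw [det_hyp]
    simpa using h

theorem sn_neg_minus (h2 : (2 : F) ≠ 0) (k : ℕ) {a b : F}
    (hab : ∀ z₁ z₂ : F, z₁ ^ 2 + a * z₁ * z₂ + b * z₂ ^ 2 = 0 → z₁ = 0 ∧ z₂ = 0)
    (h : ¬ IsSquare ((-1 : F) ^ k * (4 * b - a ^ 2))) :
    sn (qMinus k a b) (negE (F := F) ((Fin k ⊕ Fin k) ⊕ Fin 2 → F)) = 1 := by
  apply sn_neg_of_not_square h2 (nondegM k hab) ⟨k + 1, by simp; ring⟩ (G := minusMat k a b)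
  · intro u v
    rw [coe_qMinus]
    exact polar_quadFormMinus k a b u v
  · rw [det_minus]
    exact h

/-- The discriminant of the anisotropic form is not a square. -/
theorem not_square_disc (h2 : (2 : F) ≠ 0) {a b : F}
    (hab : ∀ z₁ z₂ : F, z₁ ^ 2 + a * z₁ * z₂ + b * z₂ ^ 2 = 0 → z₁ = 0 ∧ z₂ = 0) : ¬ IsSquare (a ^ 2 - 4 * b) := by
  rintro ⟨s, hs⟩
  have h1 := hab ((s - a) / 2) 1 (by
    have h4 : (4 : F) ≠ 0 := by
      have : (4 : F) = 2 * 2 := by norm_num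
      rw [this]
      exact mul_ne_zero h2 h2
    field_simp
    linear_combination - hs)
  exact one_ne_zero h1.2

end forms

section models

open Cfsg.Agent.Lib.Orth.Forms

variable {F : Type u} [Field F] [Fintype F] {V : Type v} [AddCommGroup V] [Module F V] [FiniteDimensional F V]
  {Q : QuadraticForm F V}

/-- A square root of a torus of order `2 r` with `r` odd. -/
theorem tor_flex (h2 : (2 : F) ≠ 0) {W : Type w} [AddCommGroup W] [Module F W] [FiniteDimensional F W] {Q' : QuadraticForm F W}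
    (hQ' : (polarBilin Q').Nondegenerate) (hd : Even (finrank F W)) {r : ℕ} (hr : Odd r) (h : Tor Q' (2 * r))
    (hneg : sn Q' (negE (F := F) W) = 1) (σ : ZMod 2) :
    ∃ y : W ≃ₗ[F] W, y ∈ isoGroup Q' ∧ rp y = 0 ∧ sn Q' y = σ ∧ r ∣ orderOf y := by
  obtain ⟨g, hg, ho, -⟩ := h
  have hr0 : r ≠ 0 := hr.pos.ne'
  have hy : orderOf (g ^ 2) = r := by
    rw [orderOf_pow_of_dvd (by norm_num) (by rw [ho]; exact dvd_mul_right _ _), ho]
    exact Nat.mul_div_cancel_left _ (by norm_num)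
  obtain ⟨y, h1, h3, h4, h5⟩ := flex h2 hQ' hd (Subgroup.pow_mem _ hg 2) (by rw [hy]; exact hr) hneg σ
  exact ⟨y, h1, h3, h4, by rwa [hy] at h5⟩

/-- The piece without fixed points. -/
theorem tor_part {W : Type w} [AddCommGroup W] [Module F W] [FiniteDimensional F W] {Q' : QuadraticForm F W}
    (hd : Even (finrank F W)) {r : ℕ} (h : Tor Q' r) :
    ∃ x : W ≃ₗ[F] W, x ∈ isoGroup Q' ∧ rp x = 0 ∧ orderOf x = r := by
  obtain ⟨g, hg, ho, hf⟩ := h
  exact ⟨g, hg, rp_of_fixfree hf hd, ho⟩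

variable {a b : F} (hab : ∀ z₁ z₂ : F, z₁ ^ 2 + a * z₁ * z₂ + b * z₂ ^ 2 = 0 → z₁ = 0 ∧ z₂ = 0)
  {t : ℕ} (ht : Fintype.card F = 2 * t + 1)

include ht

theorem card_eq : Nat.card F = 2 * t + 1 := by rw [Nat.card_eq_fintype_card, ht]

theorem t_pos : 1 ≤ t := by
  have := Fintype.one_lt_card (α := F)
  omega

theorem h2_of : (2 : F) ≠ 0 := by
  intro h
  have h1 := FiniteField.cast_card_eq_zero F
  rw [ht] at h1
  push_cast at h1
  rw [h] at h1
  simp at h1

theorem cast_zero : (2 : F) * (t : F) + 1 = 0 := by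
  have h1 := FiniteField.cast_card_eq_zero F
  rw [ht] at h1
  exact_mod_cast h1

theorem q3 : 3 ≤ Nat.card F := by
  rw [card_eq ht]
  have := t_pos ht
  omega

theorem torP1 : Tor (qPlus 1 F) (a1 t) := by
  obtain ⟨p, _⟩ := CharP.exists F
  haveI : Fact p.Prime := ⟨CharP.char_is_prime F p⟩
  have h := tor_H (p := p) (F := F) (d := 1) (le_refl _) (q3 ht)
  rw [card_eq ht, fm_eq t 1 (by norm_num) (by norm_num)] at h
  exact h

theorem torP2 : Tor (qPlus 2 F) (a2 t) := by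
  obtain ⟨p, _⟩ := CharP.exists F
  haveI : Fact p.Prime := ⟨CharP.char_is_prime F p⟩
  have h := tor_H (p := p) (F := F) (d := 2) (by norm_num) (q3 ht)
  rw [card_eq ht, fm_eq t 2 (by norm_num) (by norm_num)] at h
  exact h

theorem torP3 : Tor (qPlus 3 F) (a3 t) := by
  obtain ⟨p, _⟩ := CharP.exists F
  haveI : Fact p.Prime := ⟨CharP.char_is_prime F p⟩
  have h := tor_H (p := p) (F := F) (d := 3) (by norm_num) (q3 ht)
  rw [card_eq ht, fm_eq t 3 (by norm_num) (by norm_num)] at h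
  exact h

include hab

theorem torM0 : Tor (qMinus 0 a b) (b1 t) := by
  obtain ⟨p, _⟩ := CharP.exists F
  haveI : Fact p.Prime := ⟨CharP.char_is_prime F p⟩
  have h := tor_T (p := p) (h2_of ht) 0 hab
  rw [card_eq ht, fp_eq t (0 + 1) (by norm_num) (by norm_num)] at h
  exact h

theorem torM1 : Tor (qMinus 1 a b) (b2 t) := by
  obtain ⟨p, _⟩ := CharP.exists F
  haveI : Fact p.Prime := ⟨CharP.char_is_prime F p⟩
  have h := tor_T (p := p) (h2_of ht) 1 hab
  rw [card_eq ht, fp_eq t (1 + 1) (by norm_num) (by norm_num)] at h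
  exact h

theorem torM2 : Tor (qMinus 2 a b) (b3 t) := by
  obtain ⟨p, _⟩ := CharP.exists F
  haveI : Fact p.Prime := ⟨CharP.char_is_prime F p⟩
  have h := tor_T (p := p) (h2_of ht) 2 hab
  rw [card_eq ht, fp_eq t (2 + 1) (by norm_num) (by norm_num)] at h
  exact h

end models

end Cfsg.Agent.Lib.OmNine.Models
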