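import Mathlib
import Cfsg.Agent.Lib.OmNine.Models

set_option autoImplicit false
set_option linter.unusedSectionVars false
set_option linter.unusedVariables false
set_option linter.unusedSimpArgs false
set_option linter.style.haveILetI false

/-!
The exponents that lie in the set of orders.
-/

namespace Cfsg.Agent.Lib.OmNine.Expo

open Module QuadraticMap
open Cfsg.Agent.Lib.Classical.QuadOrders
open Cfsg.Agent.Lib.Orth.Spin Cfsg.Agent.Lib.Orth.Wall Cfsg.Agent.Lib.Orth.Gen Cfsg.Agent.Lib.Orth.Omega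
open Cfsg.Agent.Lib.Orth.Refl
open Cfsg.Agent.Lib.SpEight.Models (minusSum minusSum_isom)
open Cfsg.Agent.Lib.Witt.Quadratic
open Cfsg.Agent.Lib.OmNine.Proj Cfsg.Agent.Lib.OmNine.Chain Cfsg.Agent.Lib.OmNine.Lift Cfsg.Agent.Lib.OmNine.Split
  Cfsg.Agent.Lib.OmNine.RSet Cfsg.Agent.Lib.OmNine.Dir1 Cfsg.Agent.Lib.OmNine.Tori Cfsg.Agent.Lib.OmNine.PolyO
  Cfsg.Agent.Lib.OmNine.Models

universe u v w z

section abstract

variable {F : Type u} [Field F] [Fintype F] {V : Type v} [AddCommGroup V] [Module F V] [FiniteDimensional F V]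
  {Y : Type w} [AddCommGroup Y] [Module F Y] [FiniteDimensional F Y] {Q : QuadraticForm F V}
  {Q₈ : QuadraticForm F Y} {p : ℕ} {R : Set ℕ}

/-- Correcting the invariants inside a nondegenerate subspace on which the element is trivial. -/
theorem pad (C : Ctx Q Q₈ p R) {hR : V ≃ₗ[F] V} (hRm : hR ∈ isoGroup Q) (hrpR : rp hR = 0) {ρ : V →ₗ[F] V}
    (hρ : IsProj Q ρ) (hRfix : ∀ x, ρ x = x → hR x = x) (hrkρ : 3 ≤ finrank F (LinearMap.range ρ)) :
    ∃ (h₃ : V ≃ₗ[F] V) (π₂ : V →ₗ[F] V), IsOm Q h₃ ∧ IsProj Q π₂ ∧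
      finrank F (LinearMap.range π₂) + 2 = finrank F (LinearMap.range ρ) ∧ (∀ x, π₂ x = x → h₃ x = x) ∧
      orderOf hR ∣ orderOf h₃ := by
  have h2 := C.h2
  have hQ := C.hQ
  obtain ⟨u₁, hu₁, hQu₁⟩ := exists_nonsing h2 hQ hρ (by omega)
  have hρ₁ := sub_pU h2 hρ hQu₁ hu₁
  have hrkρ₁ := finrank_sub_pU h2 hρ hQu₁ hu₁
  obtain ⟨c, hc0, hc⟩ : ∃ c : F, c ≠ 0 ∧ sqc c = sn Q hR + sqc (Q u₁) := by
    have hν0 := C.ne
    by_cases h1 : sn Q hR + sqc (Q u₁) = 0
    · exact ⟨1, one_ne_zero, by rw [h1, sqc_one]⟩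
    · refine ⟨Q C.v₀, hν0, ?_⟩
      rw [sqc_eq_one_iff.2 C.hν]
      have h5 : ∀ a : ZMod 2, a ≠ 0 → 1 = a := by decide
      exact h5 _ h1
  obtain ⟨u₂, hu₂, hQu₂⟩ := exists_value h2 hQ hρ₁ (by omega) c
  have hQu₂0 : Q u₂ ≠ 0 := by rw [hQu₂]; exact hc0
  have hπ₂ := sub_pU h2 hρ₁ hQu₂0 hu₂
  have hrkπ₂ := finrank_sub_pU h2 hρ₁ hQu₂0 hu₂
  have hu₂ρ := sub_pU_le h2 hρ hQu₁ hu₁ hu₂
  have h12 := sub_pU_ortho h2 hρ hQu₁ hu₁ hu₂
  set h₃ := refl Q u₁ * (refl Q u₂ * hR) with hh₃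
  have hm2R : refl Q u₂ * hR ∈ isoGroup Q := Subgroup.mul_mem _ (refl_mem Q u₂) hRm
  have hh₃Om : IsOm Q h₃ := by
    refine ⟨Subgroup.mul_mem _ (refl_mem Q u₁) hm2R, ?_, ?_⟩
    · rw [hh₃, rp_refl_mul hQ hm2R hQu₁, rp_refl_mul hQ hRm hQu₂0, hrpR]
      decide
    · rw [hh₃, sn_refl_mul hQ hm2R hQu₁, sn_refl_mul hQ hRm hQu₂0, hQu₂, hc]
      generalize sn Q hR = s
      generalize sqc (Q u₁) = t
      revert s t
      decide
  have hh₃fix : ∀ x, ((ρ - pU Q u₁) - pU Q u₂) x = x → h₃ x = x := by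
    intro x hx
    have h1 := sub_pU_le h2 hρ₁ hQu₂0 hu₂ hx
    have h3 := sub_pU_ortho h2 hρ₁ hQu₂0 hu₂ hx
    have h4 := sub_pU_le h2 hρ hQu₁ hu₁ h1
    have h5 := sub_pU_ortho h2 hρ hQu₁ hu₁ h1
    show refl Q u₁ (refl Q u₂ (hR x)) = x
    rw [hRfix x h4, refl_fix Q h3, refl_fix Q h5]
  have hρR : ∀ x, ρ (hR x) = ρ x := proj_of_fix hQ hρ hRm hRfix
  have hh₃ker : ∀ x, ρ x = 0 → h₃ x = hR x := by
    intro x hx
    have h1 : ρ (hR x) = 0 := by rw [hρR, hx]
    have h3 : polar Q (hR x) u₂ = 0 := by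
      rw [← hu₂ρ, ← hρ.adj, h1, polar_zero_left]
    have h4 : polar Q (hR x) u₁ = 0 := by
      rw [← hu₁, ← hρ.adj, h1, polar_zero_left]
    show refl Q u₁ (refl Q u₂ (hR x)) = _
    rw [refl_fix Q h3, refl_fix Q h4]
  have hpowker : ∀ (i : ℕ) (x : V), ρ x = 0 → (h₃ ^ i) x = (hR ^ i) x := by
    intro i
    induction i with
    | zero => intro x _; rfl
    | succ i ih =>
      intro x hx
      rw [pow_succ, pow_succ]
      show (h₃ ^ i) (h₃ x) = (hR ^ i) (hR x)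
      rw [hh₃ker x hx, ih _ (by rw [hρR, hx])]
  have hRdvd : orderOf hR ∣ orderOf h₃ := by
    apply orderOf_dvd_of_pow_eq_one
    ext x
    have h1 : x = ρ x + (x - ρ x) := by abel
    have h3 : ρ (x - ρ x) = 0 := by rw [map_sub, hρ.idem, sub_self]
    have h4 : (hR ^ orderOf h₃) (x - ρ x) = x - ρ x := by
      rw [← hpowker _ _ h3, pow_orderOf_eq_one]
      rfl
    have h5 : (hR ^ orderOf h₃) (ρ x) = ρ x := pow_fix (hRfix _ (hρ.idem x)) _
    show (hR ^ orderOf h₃) x = x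
    conv_lhs => rw [h1, map_add, h5, h4]
    abel
  exact ⟨h₃, _, hh₃Om, hπ₂, by omega, hh₃fix, hRdvd⟩

/-- Transporting an element from a smaller space. -/
theorem emb_fix (C : Ctx Q Q₈ p R) {W : Type z} [AddCommGroup W] [Module F W] [FiniteDimensional F W]
    {QW : QuadraticForm F W} (hW : (polarBilin QW).Nondegenerate) (hdim : finrank F W + 1 ≤ 9) {g : W ≃ₗ[F] W}
    (hg : g ∈ isoGroup QW) :
    ∃ (h : V ≃ₗ[F] V) (ρ : V →ₗ[F] V), h ∈ isoGroup Q ∧ rp h = rp g ∧ sn Q h = sn QW g ∧ IsProj Q ρ ∧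
      finrank F (LinearMap.range ρ) + finrank F W = 9 ∧ (∀ x, ρ x = x → h x = x) ∧ orderOf h = orderOf g := by
  obtain ⟨ι, hι⟩ := exists_emb C.h2 C.hQ hW (by rw [C.hV9]; exact hdim)
  have hπ := isProj_prι (Q := Q) hW hι
  refine ⟨liftE hW ι hι g, LinearMap.id - prι (Q := Q) hW ι, liftE_mem hW hι hg, rp_liftE hW hι C.h2 C.hQ hg,
    sn_liftE hW hι C.h2 C.hQ hg, hπ.one_sub, ?_, ?_, orderOf_liftE hW hι g⟩
  · have := rank_one_sub hπ
    rw [rank_prι hW hι, C.hV9] at this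
    exact this
  · intro x hx
    have h0 : prι (Q := Q) hW ι x = 0 := by
      have : x - prι (Q := Q) hW ι x = x := hx
      simpa using this
    have h1 : adjι (Q := Q) hW ι x = 0 := ι_inj hW hι (by rw [map_zero]; exact h0)
    rw [liftE_apply, h1, map_zero, sub_zero, map_zero, add_zero]

/-- Elements of the orthogonal group of a nondegenerate hyperplane. -/
theorem level_of_equiv (C : Ctx Q Q₈ p R) {W : Type z} [AddCommGroup W] [Module F W] [FiniteDimensional F W]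
    {QW : QuadraticForm F W} (hW : (polarBilin QW).Nondegenerate) (e : W →ₗ[F] Y) (he : ∀ x, Q₈ (e x) = QW x)
    {g : W ≃ₗ[F] W} (hg : IsOm QW g) : orderOf g ∈ R := by
  have h1 := C.hR.r1 _ (isOm_liftE hW he C.h2 C.hY hg)
  rwa [orderOf_liftE] at h1

theorem pM_of_emb [Fact p.Prime] [CharP F p] (C : Ctx Q Q₈ p R) {W : Type z} [AddCommGroup W] [Module F W]
    [FiniteDimensional F W] {QW : QuadraticForm F W} (hW : (polarBilin QW).Nondegenerate)
    (hdim : finrank F W + 1 ≤ 9) {g : W ≃ₗ[F] W} (hg : IsOm QW g) (j : ℕ)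
    (hb : p ^ j + 2 + finrank F W ≤ 9) : Nat.lcm (orderOf g) (p ^ (j + 1)) ∈ R := by
  obtain ⟨h, ρ, hm, hr, hs, hρ, hrk, hfix, ho⟩ := emb_fix C hW hdim hg.mem
  have hOm : IsOm Q h := ⟨hm, by rw [hr, hg.rp0], by rw [hs, hg.sn0]⟩
  have := lemmaM C hOm hρ hfix j (by omega)
  rwa [ho] at this

/-- The order of `h` and a power of the characteristic, with a corrected element. -/
theorem pM_of_pad [Fact p.Prime] [CharP F p] (C : Ctx Q Q₈ p R) {W : Type z} [AddCommGroup W] [Module F W]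
    [FiniteDimensional F W] {QW : QuadraticForm F W} (hW : (polarBilin QW).Nondegenerate)
    (hdim : finrank F W + 1 ≤ 9) {g : W ≃ₗ[F] W} (hg : g ∈ isoGroup QW) (hr0 : rp g = 0) (j : ℕ)
    (hb : p ^ j + 4 + finrank F W ≤ 9) : Nat.lcm (orderOf g) (p ^ (j + 1)) ∈ R := by
  obtain ⟨h, ρ, hm, hr, hs, hρ, hrk, hfix, ho⟩ := emb_fix C hW hdim hg
  obtain ⟨h₃, π₂, hOm, hπ₂, hrk₂, hfix₂, hd⟩ := pad C hm (by rw [hr, hr0]) hρ hfix (by
    have : 1 ≤ p ^ j := Nat.one_le_pow _ _ (Fact.out : p.Prime).pos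
    omega)
  have := lemmaM C hOm hπ₂ hfix₂ j (by omega)
  rw [ho] at hd
  exact C.hR.dvd _ this _ (Nat.lcm_dvd (hd.trans (Nat.dvd_lcm_left _ _)) (Nat.dvd_lcm_right _ _))

end abstract

section products

variable {F : Type u} [Field F] [Fintype F] {A : Type v} {B : Type w} [AddCommGroup A] [Module F A] [AddCommGroup B]
  [Module F B] [FiniteDimensional F A] [FiniteDimensional F B] {Q₁ : QuadraticForm F A} {Q₂ : QuadraticForm F B}

/-- A product with compensation in the second factor. -/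
theorem prodGenR (h2 : (2 : F) ≠ 0) (h₁ : (polarBilin Q₁).Nondegenerate) (h₂ : (polarBilin Q₂).Nondegenerate)
    (hdA : Even (finrank F A)) (hdB : Even (finrank F B)) {r s : ℕ} (hr : Odd r) (hx : Tor Q₁ s) (hy : Tor Q₂ (2 * r))
    (hneg : sn Q₂ (negE (F := F) B) = 1) (hc : Nat.Coprime s r) :
    ∃ g, IsOm (Q₁.prod Q₂) g ∧ s * r ∣ orderOf g := by
  obtain ⟨x, hxm, hrx, hox⟩ := tor_part hdA hx
  obtain ⟨y, hym, hry, hsy, hdy⟩ := tor_flex h2 h₂ hdB hr hy hneg (sn Q₁ x)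
  refine ⟨_, isOm_prod h₁ h₂ h2 hxm hym hrx hry hsy.symm, ?_⟩
  apply hc.mul_dvd_of_dvd_of_dvd
  · rw [← hox]
    exact dvd_order_left _ _
  · exact hdy.trans (dvd_order_right _ _)

/-- A product with compensation in the first factor. -/
theorem prodGenL (h2 : (2 : F) ≠ 0) (h₁ : (polarBilin Q₁).Nondegenerate) (h₂ : (polarBilin Q₂).Nondegenerate)
    (hdA : Even (finrank F A)) (hdB : Even (finrank F B)) {r s : ℕ} (hr : Odd r) (hx : Tor Q₂ s) (hy : Tor Q₁ (2 * r))
    (hneg : sn Q₁ (negE (F := F) A) = 1) (hc : Nat.Coprime r s) :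
    ∃ g, IsOm (Q₁.prod Q₂) g ∧ r * s ∣ orderOf g := by
  obtain ⟨x, hxm, hrx, hox⟩ := tor_part hdB hx
  obtain ⟨y, hym, hry, hsy, hdy⟩ := tor_flex h2 h₁ hdA hr hy hneg (sn Q₂ x)
  refine ⟨_, isOm_prod h₁ h₂ h2 hym hxm hry hrx hsy, ?_⟩
  apply hc.mul_dvd_of_dvd_of_dvd
  · exact hdy.trans (dvd_order_left _ _)
  · rw [← hox]
    exact dvd_order_right _ _

end products

section numbers

theorem bez {a x b y : ℕ} (h : a * x + 1 = b * y) : Nat.Coprime x y := by
  have h1 : Nat.gcd x y ∣ a * x := (Nat.gcd_dvd_left x y).mul_left a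
  have h2 : Nat.gcd x y ∣ b * y := (Nat.gcd_dvd_right x y).mul_left b
  rw [← h] at h2
  have h3 : Nat.gcd x y ∣ 1 := (Nat.dvd_add_right h1).1 h2
  exact Nat.dvd_one.1 h3

end numbers

section exponents

variable {F : Type u} [Field F] [Fintype F] {V : Type v} [AddCommGroup V] [Module F V] [FiniteDimensional F V]
  {Q : QuadraticForm F V} {a b : F} {p : ℕ} {R : Set ℕ} {t : ℕ}

theorem level8 {k l : ℕ} (hab : ∀ z₁ z₂ : F, z₁ ^ 2 + a * z₁ * z₂ + b * z₂ ^ 2 = 0 → z₁ = 0 ∧ z₂ = 0)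
    (C : Ctx Q (qMinus (k + l) a b) p R) {g} (hg : IsOm ((qMinus k a b).prod (qPlus l F)) g) : orderOf g ∈ R :=
  level_of_equiv C (nondeg_prod (nondegM k hab) (nondegP l)) (minusSum k l).toLinearMap
    (fun x => by
      rw [QuadraticMap.prod_apply]
      exact minusSum_isom k l a b x) hg

theorem evenM (k : ℕ) : Even (finrank F ((Fin k ⊕ Fin k) ⊕ Fin 2 → F)) := by
  rw [finrankM]
  exact even_two_mul _

theorem evenP (k : ℕ) : Even (finrank F (Fin k ⊕ Fin k → F)) := by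
  rw [finrankP]
  exact even_two_mul _

theorem neg_not_square {z : F} (h1 : IsSquare (-1 : F)) (hz : ¬ IsSquare z) : ¬ IsSquare (- z) := by
  intro h
  apply hz
  have h3 : z = (-1) * (-z) := by ring
  rw [h3]
  exact h1.mul h

theorem not_dvd_of_cast [Fact p.Prime] [CharP F p] {n : ℕ} (h : (n : F) ≠ 0) : Nat.Coprime p n := by
  rw [(Fact.out : p.Prime).coprime_iff_not_dvd]
  intro hd
  exact h ((CharP.cast_eq_zero_iff F p n).2 hd)

/-- The values in the set of orders. -/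
structure Expos (p t : ℕ) (R : Set ℕ) : Prop where
  e1 : R1 t ∈ R
  e2 : R2p t ∈ R
  e3 : R2m t ∈ R
  e4 : p * a2 t ∈ R
  e5 : p * r8m t ∈ R
  e6 : p * r8p t ∈ R
  e7 : p = 3 → 9 * a1 t ∈ R
  e8 : p = 3 → 9 * b1 t ∈ R

variable [hpf : Fact p.Prime] [CharP F p]
  (hab : ∀ z₁ z₂ : F, z₁ ^ 2 + a * z₁ * z₂ + b * z₂ ^ 2 = 0 → z₁ = 0 ∧ z₂ = 0)
  (ht : Fintype.card F = 2 * t + 1) (C : Ctx Q (qMinus 3 a b) p R)

include hab ht C

theorem expR1 : R1 t ∈ R := by
  have h2 := h2_of ht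
  have hneg : sn (qMinus 1 a b) (negE (F := F) _) = 1 := by
    apply sn_neg_minus h2 1 hab
    have h3 := not_square_disc h2 hab
    have h4 : (-1 : F) ^ 1 * (4 * b - a ^ 2) = a ^ 2 - 4 * b := by ring
    rwa [h4]
  have hodd : Odd (2 * t ^ 2 + 2 * t + 1) := ⟨t ^ 2 + t, by ring⟩
  obtain ⟨g, hg, hd⟩ := prodGenL h2 (nondegM 1 hab) (nondegP 2) (evenM 1) (evenP 2) hodd (torP2 ht) (torM1 hab ht) hneg
    (bez (a := t ^ 2 + t + 1) (b := 2 * t ^ 2 + 2 * t + 1) (by unfold a2; ring)).symm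
  refine C.hR.dvd _ (level8 (k := 1) (l := 2) hab C hg) _ ?_
  have h5 : R1 t = (2 * t ^ 2 + 2 * t + 1) * a2 t := by
    unfold R1 a2
    ring
  rw [h5]
  exact hd

theorem sq_of_even (h : Even t) : IsSquare (-1 : F) := by
  rw [FiniteField.isSquare_neg_one_iff, ht]
  obtain ⟨s, rfl⟩ := h
  omega

theorem not_sq_of_odd (h : Odd t) : ¬ IsSquare (-1 : F) := by
  rw [FiniteField.isSquare_neg_one_iff, ht]
  obtain ⟨s, rfl⟩ := h
  omega

theorem expR2p : R2p t ∈ R := by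
  have h2 := h2_of ht
  have hT := not_square_disc h2 hab
  have hcd : Nat.Coprime (t + 1) (4 * t ^ 2 + 6 * t + 3) := bez (a := 4 * t + 2) (b := 1) (by ring)
  have hcs : Nat.Coprime t (t + 1) := by simp
  rcases Nat.even_or_odd t with he | ho
  · have hneg : sn (qMinus 0 a b) (negE (F := F) _) = 1 := by
      apply sn_neg_minus h2 0 hab
      have h4 : (-1 : F) ^ 0 * (4 * b - a ^ 2) = - (a ^ 2 - 4 * b) := by ring
      rw [h4]
      exact neg_not_square (sq_of_even hab ht C he) hT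
    have hodd : Odd (t + 1) := he.add_one
    have hM := torM0 hab ht
    unfold b1 at hM
    have hP := torP3 ht
    obtain ⟨g, hg, hd⟩ := prodGenL h2 (nondegM 0 hab) (nondegP 3) (evenM 0) (evenP 3) hodd hP hM hneg
      (by
        unfold a3
        apply Nat.Coprime.mul_right (Nat.Coprime.mul_right _ hcs.symm) hcd
        exact (Nat.coprime_two_right.2 hodd))
    refine C.hR.dvd _ (level8 (k := 0) (l := 3) hab C hg) _ ?_
    have h5 : R2p t = (t + 1) * a3 t := by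
      unfold R2p a3
      ring
    rw [h5]
    exact hd
  · have hneg : sn (qPlus 3 F) (negE (F := F) _) = 1 := by
      apply sn_neg_plus h2 3
      have h4 : (-1 : F) ^ 3 = -1 := by ring
      rw [h4]
      exact not_sq_of_odd hab ht C ho
    have hodd : Odd (t * (4 * t ^ 2 + 6 * t + 3)) := by
      apply ho.mul
      exact ⟨2 * t ^ 2 + 3 * t + 1, by ring⟩
    have hM := torM0 hab ht
    have hP := torP3 ht
    have hP' : Tor (qPlus 3 F) (2 * (t * (4 * t ^ 2 + 6 * t + 3))) := by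
      have h5 : 2 * (t * (4 * t ^ 2 + 6 * t + 3)) = a3 t := by
        unfold a3
        ring
      rwa [h5]
    obtain ⟨g, hg, hd⟩ := prodGenR h2 (nondegM 0 hab) (nondegP 3) (evenM 0) (evenP 3) hodd hM hP' hneg
      (by
        unfold b1
        apply Nat.Coprime.symm
        apply Nat.Coprime.mul_right _ _
        · exact Nat.coprime_two_right.2 hodd
        · exact Nat.Coprime.mul_left hcs hcd.symm)
    refine C.hR.dvd _ (level8 (k := 0) (l := 3) hab C hg) _ ?_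
    have h5 : R2p t = b1 t * (t * (4 * t ^ 2 + 6 * t + 3)) := by
      unfold R2p b1
      ring
    rw [h5]
    exact hd

theorem expR2m : R2m t ∈ R := by
  have h2 := h2_of ht
  have hT := not_square_disc h2 hab
  have hce : Nat.Coprime t (4 * t ^ 2 + 2 * t + 1) := bez (a := 4 * t + 2) (b := 1) (by ring)
  have hcs : Nat.Coprime t (t + 1) := by simp
  rcases Nat.even_or_odd t with he | ho
  · have hneg : sn (qMinus 2 a b) (negE (F := F) _) = 1 := by
      apply sn_neg_minus h2 2 hab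
      have h4 : (-1 : F) ^ 2 * (4 * b - a ^ 2) = - (a ^ 2 - 4 * b) := by ring
      rw [h4]
      exact neg_not_square (sq_of_even hab ht C he) hT
    have hodd1 : Odd (t + 1) := he.add_one
    have hodd : Odd ((t + 1) * (4 * t ^ 2 + 2 * t + 1)) := by
      apply hodd1.mul
      exact ⟨2 * t ^ 2 + t, by ring⟩
    have hM := torM2 hab ht
    have hM' : Tor (qMinus 2 a b) (2 * ((t + 1) * (4 * t ^ 2 + 2 * t + 1))) := by
      have h5 : 2 * ((t + 1) * (4 * t ^ 2 + 2 * t + 1)) = b3 t := by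
        unfold b3
        ring
      rwa [h5]
    have hP := torP1 ht
    obtain ⟨g, hg, hd⟩ := prodGenL h2 (nondegM 2 hab) (nondegP 1) (evenM 2) (evenP 1) hodd hP hM' hneg
      (by
        unfold a1
        apply Nat.Coprime.mul_right
        · exact Nat.coprime_two_right.2 hodd
        · exact Nat.Coprime.mul_left hcs.symm hce.symm)
    refine C.hR.dvd _ (level8 (k := 2) (l := 1) hab C hg) _ ?_
    have h5 : R2m t = ((t + 1) * (4 * t ^ 2 + 2 * t + 1)) * a1 t := by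
      unfold R2m a1
      ring
    rw [h5]
    exact hd
  · have hneg : sn (qPlus 1 F) (negE (F := F) _) = 1 := by
      apply sn_neg_plus h2 1
      have h4 : (-1 : F) ^ 1 = -1 := by ring
      rw [h4]
      exact not_sq_of_odd hab ht C ho
    have hM := torM2 hab ht
    have hP := torP1 ht
    unfold a1 at hP
    obtain ⟨g, hg, hd⟩ := prodGenR h2 (nondegM 2 hab) (nondegP 1) (evenM 2) (evenP 1) ho hM hP hneg
      (by
        unfold b3
        apply Nat.Coprime.symm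
        apply Nat.Coprime.mul_right (Nat.Coprime.mul_right _ hcs) hce
        exact Nat.coprime_two_right.2 ho)
    refine C.hR.dvd _ (level8 (k := 2) (l := 1) hab C hg) _ ?_
    have h5 : R2m t = b3 t * t := by
      unfold R2m b3
      ring
    rw [h5]
    exact hd

theorem expP2 : p * a2 t ∈ R := by
  have h2 := h2_of ht
  have hc0 := cast_zero ht
  obtain ⟨x, hxm, hrx, hox⟩ := tor_part (evenP 2) (torP2 (F := F) ht)
  have h1 := pM_of_pad C (nondegP 2) (by rw [finrankP]; norm_num) hxm hrx 0 (by rw [finrankP]; norm_num)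
  have hcast : ((a2 t : ℕ) : F) ≠ 0 := by
    have h3 : ((a2 t : ℕ) : F) = -1 := by
      unfold a2
      push_cast
      linear_combination (2 * (t : F) + 1) * hc0
    rw [h3]
    simp
  have hcop := not_dvd_of_cast (p := p) hcast
  rw [hox, pow_one, hcop.symm.lcm_eq_mul, mul_comm] at h1
  exact h1

theorem expP3m : p * r8m t ∈ R := by
  have h2 := h2_of ht
  have hc0 := cast_zero ht
  have hneg : sn (qMinus 1 a b) (negE (F := F) _) = 1 := by
    apply sn_neg_minus h2 1 hab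
    have h3 := not_square_disc h2 hab
    have h4 : (-1 : F) ^ 1 * (4 * b - a ^ 2) = a ^ 2 - 4 * b := by ring
    rwa [h4]
  have hodd : Odd (2 * t ^ 2 + 2 * t + 1) := ⟨t ^ 2 + t, by ring⟩
  have hcc : Nat.Coprime t (2 * t ^ 2 + 2 * t + 1) := bez (a := 2 * t + 2) (b := 1) (by ring)
  obtain ⟨g, hg, hd⟩ := prodGenR h2 (nondegP 1) (nondegM 1 hab) (evenP 1) (evenM 1) hodd (torP1 ht) (torM1 hab ht) hneg
    (by
      unfold a1
      exact Nat.Coprime.mul_left (Nat.coprime_two_left.2 hodd) hcc)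
  have h1 := pM_of_emb C (nondeg_prod (nondegP 1) (nondegM 1 hab)) (by
    rw [Module.finrank_prod, finrankP, finrankM]; norm_num) hg 0 (by
    rw [Module.finrank_prod, finrankP, finrankM]; norm_num)
  have hcast : ((r8m t : ℕ) : F) ≠ 0 := by
    have h3 : ((r8m t : ℕ) : F) = t := by
      unfold r8m
      push_cast
      linear_combination (t : F) * (2 * (t : F) + 1) * hc0
    rw [h3]
    intro h4
    rw [h4] at hc0
    simp at hc0
  have hcop := not_dvd_of_cast (p := p) hcast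
  refine C.hR.dvd _ h1 _ ?_
  rw [pow_one]
  apply hcop.mul_dvd_of_dvd_of_dvd (Nat.dvd_lcm_right _ _)
  refine dvd_trans ?_ (Nat.dvd_lcm_left _ _)
  have h5 : r8m t = a1 t * (2 * t ^ 2 + 2 * t + 1) := by
    unfold r8m a1
    ring
  rw [h5]
  exact hd

theorem expP3p : p * r8p t ∈ R := by
  have h2 := h2_of ht
  have hc0 := cast_zero ht
  have hneg : sn (qMinus 1 a b) (negE (F := F) _) = 1 := by
    apply sn_neg_minus h2 1 hab
    have h3 := not_square_disc h2 hab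
    have h4 : (-1 : F) ^ 1 * (4 * b - a ^ 2) = a ^ 2 - 4 * b := by ring
    rwa [h4]
  have hodd : Odd (2 * t ^ 2 + 2 * t + 1) := ⟨t ^ 2 + t, by ring⟩
  have hcc : Nat.Coprime (t + 1) (2 * t ^ 2 + 2 * t + 1) := bez (a := 2 * t) (b := 1) (by ring)
  obtain ⟨g, hg, hd⟩ := prodGenR h2 (nondegM 0 hab) (nondegM 1 hab) (evenM 0) (evenM 1) hodd (torM0 hab ht) (torM1 hab ht) hneg
    (by
      unfold b1
      exact Nat.Coprime.mul_left (Nat.coprime_two_left.2 hodd) hcc)
  have h1 := pM_of_emb C (nondeg_prod (nondegM 0 hab) (nondegM 1 hab)) (by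
    rw [Module.finrank_prod, finrankM, finrankM]; norm_num) hg 0 (by
    rw [Module.finrank_prod, finrankM, finrankM]; norm_num)
  have hcast : ((r8p t : ℕ) : F) ≠ 0 := by
    have h3 : ((r8p t : ℕ) : F) = - t := by
      unfold r8p
      push_cast
      linear_combination (2 * (t : F) ^ 2 + 3 * (t : F) + 2) * hc0
    rw [h3]
    intro h4
    rw [neg_eq_zero] at h4
    rw [h4] at hc0
    simp at hc0
  have hcop := not_dvd_of_cast (p := p) hcast
  refine C.hR.dvd _ h1 _ ?_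
  rw [pow_one]
  apply hcop.mul_dvd_of_dvd_of_dvd (Nat.dvd_lcm_right _ _)
  refine dvd_trans ?_ (Nat.dvd_lcm_left _ _)
  have h5 : r8p t = b1 t * (2 * t ^ 2 + 2 * t + 1) := by
    unfold r8p b1
    ring
  rw [h5]
  exact hd

theorem expNa (hp3 : p = 3) : 9 * a1 t ∈ R := by
  have hc0 := cast_zero ht
  obtain ⟨x, hxm, hrx, hox⟩ := tor_part (evenP 1) (torP1 (F := F) ht)
  have h1 := pM_of_pad C (nondegP 1) (by rw [finrankP]; norm_num) hxm hrx 1 (by rw [finrankP, hp3]; norm_num)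
  have hcast : ((a1 t : ℕ) : F) ≠ 0 := by
    have h3 : ((a1 t : ℕ) : F) = -1 := by
      unfold a1
      push_cast
      linear_combination hc0
    rw [h3]
    simp
  have hcop := not_dvd_of_cast (p := p) hcast
  have hcop2 : Nat.Coprime (p ^ (1 + 1)) (a1 t) := hcop.pow_left _
  rw [hox, hcop2.symm.lcm_eq_mul, hp3, mul_comm] at h1
  exact h1

theorem expNb (hp3 : p = 3) : 9 * b1 t ∈ R := by
  have hc0 := cast_zero ht
  obtain ⟨x, hxm, hrx, hox⟩ := tor_part (evenM 0) (torM0 hab ht)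
  have h1 := pM_of_pad C (nondegM 0 hab) (by rw [finrankM]; norm_num) hxm hrx 1 (by rw [finrankM, hp3]; norm_num)
  have hcast : ((b1 t : ℕ) : F) ≠ 0 := by
    have h3 : ((b1 t : ℕ) : F) = 1 := by
      unfold b1
      push_cast
      linear_combination hc0
    rw [h3]
    simp
  have hcop := not_dvd_of_cast (p := p) hcast
  have hcop2 : Nat.Coprime (p ^ (1 + 1)) (b1 t) := hcop.pow_left _
  rw [hox, hcop2.symm.lcm_eq_mul, hp3, mul_comm] at h1
  exact h1

theorem expos : Expos p t R :=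
  ⟨expR1 hab ht C, expR2p hab ht C, expR2m hab ht C, expP2 hab ht C, expP3m hab ht C, expP3p hab ht C,
    expNa hab ht C, expNb hab ht C⟩

end exponents

end Cfsg.Agent.Lib.OmNine.Expo
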