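import Mathlib
import Cfsg.Agent.Lib.OmNine.Expo
import Cfsg.Agent.Lib.Orth.Gram

set_option autoImplicit false
set_option linter.unusedSectionVars false
set_option linter.unusedVariables false
set_option linter.unusedSimpArgs false
set_option linter.style.haveILetI false

/-!
Elements without fixed vectors on the hyperbolic space of dimension eight.
-/

namespace Cfsg.Agent.Lib.OmNine.PolyStar

open Polynomial Module QuadraticMap Matrix
open Cfsg.Agent.Lib.Classical.QuadOrders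
open Cfsg.Agent.Lib.Orth.Spin Cfsg.Agent.Lib.Orth.Wall Cfsg.Agent.Lib.Orth.Gram
open Cfsg.Agent.Lib.Witt.Quadratic
open Cfsg.Agent.Lib.SpSpec.Recip Cfsg.Agent.Lib.SpEight.Poly
open Cfsg.Agent.Lib.OmNine.Proj Cfsg.Agent.Lib.OmNine.Lift Cfsg.Agent.Lib.OmNine.Split Cfsg.Agent.Lib.OmNine.RSet
  Cfsg.Agent.Lib.OmNine.PolyO Cfsg.Agent.Lib.OmNine.Models Cfsg.Agent.Lib.OmNine.Expo

universe u v

section recip

variable {F : Type u} [Field F]

theorem recip_of_reverse {χ : F[X]} (hm : χ.Monic) {c : F} (hc0 : c ≠ 0) (hc : χ = C c * χ.reverse) :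
    χ.coeff 0 ≠ 0 ∧ pstar χ = χ := by
  have h0' : χ.coeff 0 = c := by
    have h3 : χ.coeff 0 = c * χ.reverse.coeff 0 := by
      conv_lhs => rw [hc]
      rw [coeff_C_mul]
    rw [h3, coeff_zero_reverse, hm.leadingCoeff, mul_one]
  have h0 : χ.coeff 0 ≠ 0 := by rw [h0']; exact hc0
  refine ⟨h0, ?_⟩
  have hrev : χ.reverse = C c⁻¹ * χ := by
    nth_rewrite 2 [hc]
    rw [← mul_assoc, ← C_mul, inv_mul_cancel₀ hc0, C_1, one_mul]
  have h1 : pstar χ = C (c⁻¹ * c⁻¹) * χ := by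
    unfold pstar
    rw [h0', hrev, ← mul_assoc, ← C_mul]
  have h2 := congrArg leadingCoeff h1
  rw [(pstar_monic h0).leadingCoeff, leadingCoeff_mul, leadingCoeff_C, hm.leadingCoeff, mul_one] at h2
  rw [h1, ← h2, C_1, one_mul]

theorem charpoly_recip {ι : Type*} [Fintype ι] [DecidableEq ι] {M G : Matrix ι ι F} (hG : G.det ≠ 0)
    (hM : M.transpose * G * M = G) : M.charpoly.coeff 0 ≠ 0 ∧ pstar M.charpoly = M.charpoly := by
  have hdet : M.det ≠ 0 := by
    intro h
    have := congrArg Matrix.det hM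
    rw [Matrix.det_mul, Matrix.det_mul, h, mul_zero] at this
    exact hG this.symm
  have hu : IsUnit M := (Matrix.isUnit_iff_isUnit_det M).2 hdet.isUnit
  have hGu : IsUnit G.det := hG.isUnit
  have hinv : M⁻¹ = G⁻¹ * M.transpose * G := by
    apply Matrix.inv_eq_left_inv
    rw [mul_assoc, mul_assoc, ← mul_assoc M.transpose, hM, Matrix.nonsing_inv_mul _ hGu]
  have h2 : (M⁻¹).charpoly = M.charpoly := by
    let u : (Matrix ι ι F)ˣ := ⟨G⁻¹, G, Matrix.nonsing_inv_mul _ hGu, Matrix.mul_nonsing_inv _ hGu⟩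
    have h3 := Matrix.charpoly_units_conj u M.transpose
    have h4 : (u : Matrix ι ι F)⁻¹ = G := Matrix.nonsing_inv_nonsing_inv _ hGu
    rw [Matrix.charpoly_transpose, h4] at h3
    rw [hinv]
    exact h3
  have h3 := Matrix.charpoly_inv M hu
  rw [h2, ← Matrix.reverse_charpoly, Ring.inverse_eq_inv'] at h3
  apply recip_of_reverse (Matrix.charpoly_monic M) (c := (-1) ^ Fintype.card ι * M.det⁻¹)
  · exact mul_ne_zero (pow_ne_zero _ (by simp)) (inv_ne_zero hdet)
  · have h5 : ((-1 : F[X]) ^ Fintype.card ι * C M.det⁻¹) = C ((-1) ^ Fintype.card ι * M.det⁻¹) := by simp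
    rw [← h5]
    exact h3

variable {ι : Type} [Fintype ι] [DecidableEq ι] {Q : QuadraticForm F (ι → F)} {G : Matrix ι ι F}

theorem toMatrix_mulVec_eq (g : (ι → F) ≃ₗ[F] (ι → F)) (x : ι → F) :
    LinearMap.toMatrix' (g : (ι → F) →ₗ[F] (ι → F)) *ᵥ x = g x :=
  LinearMap.toMatrix'_mulVec _ _

theorem matrix_isom (hG : ∀ u v, polar ⇑Q u v = u ⬝ᵥ (G *ᵥ v)) {g : (ι → F) ≃ₗ[F] (ι → F)} (hg : g ∈ isoGroup Q) :
    (LinearMap.toMatrix' (g : (ι → F) →ₗ[F] (ι → F))).transpose * G * LinearMap.toMatrix' (g : (ι → F) →ₗ[F] (ι → F)) = G := by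
  set M := LinearMap.toMatrix' (g : (ι → F) →ₗ[F] (ι → F)) with hM
  ext i j
  have h1 := polar_eq_of_preserves g hg (Pi.single i 1) (Pi.single j 1)
  have key : ∀ N : Matrix ι ι F, (Pi.single i 1 : ι → F) ⬝ᵥ (N *ᵥ Pi.single j 1) = N i j := fun N => by
    simp [Matrix.mulVec_single_one]
  have hmov : ∀ u w : ι → F, (M *ᵥ u) ⬝ᵥ w = u ⬝ᵥ (M.transpose *ᵥ w) := fun u w => by
    rw [Matrix.dotProduct_mulVec, Matrix.vecMul_transpose]
  rw [hG, hG, ← toMatrix_mulVec_eq g, ← toMatrix_mulVec_eq g, ← hM, hmov, Matrix.mulVec_mulVec, Matrix.mulVec_mulVec,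
    key, key] at h1
  exact h1

theorem sn_fixfree [Finite F] (hQ : (polarBilin Q).Nondegenerate) (hG : ∀ u v, polar ⇑Q u v = u ⬝ᵥ (G *ᵥ v))
    {g : (ι → F) ≃ₗ[F] (ι → F)} (hg : g ∈ isoGroup Q) (hfree : ∀ x, g x = x → x = 0) :
    sn Q g = sqc (G.det * (LinearMap.toMatrix' (g : (ι → F) →ₗ[F] (ι → F))).charpoly.eval 1) := by
  classical
  apply sn_eq hQ hg
  set M := LinearMap.toMatrix' (g : (ι → F) →ₗ[F] (ι → F)) with hM
  refine ⟨ι, inferInstance, inferInstance, ⇑(Pi.basisFun F ι), ⟨(Pi.basisFun F ι).linearIndependent, ?_⟩, ?_⟩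
  · have h1 : Submodule.span F (Set.range ⇑(Pi.basisFun F ι)) = ⊤ := (Pi.basisFun F ι).span_eq
    have h3 : fixSp g = ⊥ := by
      rw [eq_bot_iff]
      intro x hx
      exact hfree x (mem_fixSp.1 hx)
    rw [h1, h3]
    exact isCompl_top_bot
  · have h1 : Cfsg.Agent.Lib.Orth.Wall.gram Q g ⇑(Pi.basisFun F ι) = G * (1 - M) := by
      ext i j
      rw [Cfsg.Agent.Lib.Orth.Wall.gram_apply, wall_apply, hG, ← toMatrix_mulVec_eq g, ← hM]
      have h3 : (Pi.basisFun F ι) j - M *ᵥ (Pi.basisFun F ι) j = (1 - M) *ᵥ (Pi.basisFun F ι) j := by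
        rw [Matrix.sub_mulVec, Matrix.one_mulVec]
      rw [h3, Matrix.mulVec_mulVec]
      simp [Matrix.mulVec_single_one]
    rw [h1, Matrix.det_mul, Matrix.eval_charpoly]
    simp

/-- Elements without fixed vectors have no root one. -/
theorem not_root_one {g : (ι → F) ≃ₗ[F] (ι → F)} (hfree : ∀ x, g x = x → x = 0) :
    (LinearMap.toMatrix' (g : (ι → F) →ₗ[F] (ι → F))).charpoly.eval 1 ≠ 0 := by
  classical
  set M := LinearMap.toMatrix' (g : (ι → F) →ₗ[F] (ι → F)) with hM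
  intro h
  rw [Matrix.eval_charpoly] at h
  obtain ⟨v, hv, hv0⟩ := Matrix.exists_mulVec_eq_zero_iff.2 h
  apply hv
  apply hfree
  rw [← toMatrix_mulVec_eq g, ← hM]
  have h3 : (Matrix.scalar ι (1 : F) - M) *ᵥ v = v - M *ᵥ v := by
    rw [Matrix.sub_mulVec]
    simp
  rw [h3] at hv0
  exact (sub_eq_zero.1 hv0).symm

end recip

section deg4

variable {F : Type u} [Field F] [Fintype F]

theorem deg4_dvd {π : F[X]} (hπ : Irreducible π) (hm : π.Monic) (hd : π.natDegree = 4) (h0 : π.coeff 0 ≠ 0)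
    (hs : IsSquare (π.coeff 0)) {t : ℕ} (ht : Fintype.card F = 2 * t + 1) : π ∣ X ^ R1 t - 1 := by
  classical
  haveI : Fact (Irreducible π) := ⟨hπ⟩
  let pb := AdjoinRoot.powerBasis hπ.ne_zero
  haveI : Module.Finite F (AdjoinRoot π) := pb.finite
  haveI : Finite (AdjoinRoot π) := Module.finite_of_finite F
  letI : Fintype (AdjoinRoot π) := Fintype.ofFinite _
  have hfr : finrank F (AdjoinRoot π) = 4 := by
    rw [PowerBasis.finrank pb]
    simp [pb, AdjoinRoot.powerBasis_dim, hd]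
  have hcard : Nat.card (AdjoinRoot π) = (2 * t + 1) ^ 4 := by
    rw [Nat.card_eq_fintype_card, ← hfr, ← ht]
    exact Module.card_eq_pow_finrank (K := F) (V := AdjoinRoot π)
  let θ : AdjoinRoot π := AdjoinRoot.root π
  have hmin : minpoly F θ = π := by
    simp only [θ]
    rw [AdjoinRoot.minpoly_root hπ.ne_zero, hm.leadingCoeff]
    simp
  have hgen : pb.gen = θ := by
    simp [pb, θ, AdjoinRoot.powerBasis_gen]
  have hdim : pb.dim = 4 := by
    simp [pb, AdjoinRoot.powerBasis_dim, hd]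
  have hnorm : Algebra.norm F θ = π.coeff 0 := by
    have h1 := Algebra.PowerBasis.norm_gen_eq_coeff_zero_minpoly pb
    rw [hgen, hdim, hmin] at h1
    rw [h1]
    norm_num
  have h1 := FiniteField.algebraMap_norm_eq_pow (K := F) (K' := AdjoinRoot π) (x := θ)
  have htpos : 1 ≤ t := t_pos ht
  have hexp : ((2 * t + 1) ^ 4 - 1) / (2 * t + 1 - 1) = 4 * (t + 1) * (2 * t ^ 2 + 2 * t + 1) := by
    have h5 : 2 * t + 1 - 1 = 2 * t := by omega
    have h6 : (2 * t + 1) ^ 4 - 1 = 2 * t * (4 * (t + 1) * (2 * t ^ 2 + 2 * t + 1)) := by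
      have h7 : (2 * t + 1) ^ 4 = 2 * t * (4 * (t + 1) * (2 * t ^ 2 + 2 * t + 1)) + 1 := by ring
      omega
    rw [h5, h6]
    exact Nat.mul_div_cancel_left _ (by omega)
  rw [hnorm, hcard, Nat.card_eq_fintype_card, ht, hexp] at h1
  have hθ : θ ^ R1 t = 1 := by
    have h5 : R1 t = 4 * (t + 1) * (2 * t ^ 2 + 2 * t + 1) * t := by
      unfold R1
      ring
    rw [h5, pow_mul, ← h1, ← map_pow]
    obtain ⟨w, hw⟩ := hs
    have hw0 : w ≠ 0 := by
      rintro rfl
      rw [mul_zero] at hw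
      exact h0 hw
    have h6 : (π.coeff 0) ^ t = 1 := by
      rw [hw, ← pow_two, ← pow_mul]
      have h7 := FiniteField.pow_card_sub_one_eq_one w hw0
      rw [ht] at h7
      simpa using h7
    rw [h6, map_one]
  have h4 : AdjoinRoot.mk π (X ^ R1 t - 1) = 0 := by
    rw [map_sub, map_pow, AdjoinRoot.mk_X, map_one]
    exact sub_eq_zero.2 hθ
  exact AdjoinRoot.mk_eq_zero.1 h4

end deg4

section free

variable {F : Type u} [Field F] {V : Type v} [AddCommGroup V] [Module F V]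

theorem order_dvd_of_free (C : Subgroup (V ≃ₗ[F] V)) (S : Set V) (hS : ∀ c ∈ C, ∀ x ∈ S, c x ∈ S)
    (hfree : ∀ c ∈ C, ∀ x ∈ S, c x = x → c = 1) : Nat.card C ∣ Nat.card S := by
  classical
  let T : SubMulAction C V :=
    { carrier := S
      smul_mem' := fun c x hx => hS c c.2 x hx }
  have hfr : ∀ y : T, MulAction.stabilizer C y = ⊥ := by
    intro y
    rw [eq_bot_iff]
    intro c hc
    rw [MulAction.mem_stabilizer_iff] at hc
    have h1 : c.1 y.1 = y.1 := congrArg Subtype.val hc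
    rw [Subgroup.mem_bot]
    exact Subtype.ext (hfree c.1 c.2 y.1 y.2 h1)
  have h1 : Nat.card T = Nat.card (Quotient (MulAction.orbitRel C T)) * Nat.card C := by
    rw [Nat.card_congr (MulAction.selfEquivOrbitsQuotientProd hfr), Nat.card_prod]
  have h3 : Nat.card T = Nat.card S := rfl
  rw [← h3, h1]
  exact dvd_mul_left _ _

end free

section numbers

theorem num_final {t s n : ℕ} (hs : s + 1 + (2 * t + 1) ^ 3 = (2 * t + 1) ^ (2 * 3 + 1) + (2 * t + 1) ^ (3 + 1))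
    (h1 : n ∣ (2 * t + 1) ^ 4 + 1) (h2 : n ∣ s) : n ∣ 2 := by
  obtain ⟨c, hc⟩ : ∃ c, c = 2 * t ^ 2 + 2 * t + 1 := ⟨_, rfl⟩
  obtain ⟨e, he⟩ : ∃ e, e = 4 * t ^ 2 + 2 * t + 1 := ⟨_, rfl⟩
  obtain ⟨u, hu⟩ : ∃ u, u = t * (t + 1) * c := ⟨_, rfl⟩
  obtain ⟨m, hm⟩ : ∃ m, m = 4 * u + 1 := ⟨_, rfl⟩
  have hmq : (2 * t + 1) ^ 4 + 1 = m * 2 := by
    rw [hm, hu, hc]
    ring
  have hs' : s = 2 * 2 * 2 * u * (2 * (t + 1) * e) := by
    have h3 : (2 * t + 1) ^ (2 * 3 + 1) + (2 * t + 1) ^ (3 + 1) = 2 * 2 * 2 * u * (2 * (t + 1) * e) + 1 + (2 * t + 1) ^ 3 := by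
      rw [hu, hc, he]
      ring
    omega
  have c2 : Nat.Coprime 2 m := bez (a := 2 * u) (b := 1) (by rw [hm]; ring)
  have cu : Nat.Coprime u m := bez (a := 4) (b := 1) (by rw [hm]; ring)
  have ct : Nat.Coprime (t + 1) m := bez (a := 4 * t * c) (b := 1) (by rw [hm, hu]; ring)
  have cte : Nat.Coprime t e := bez (a := 4 * t + 2) (b := 1) (by rw [he]; ring)
  have ce : Nat.Coprime e m := by
    have h3 : m + t = e * ((2 * t + 1) * (t + 1)) := by
      rw [hm, hu, hc, he]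
      ring
    have h4 : Nat.gcd e m ∣ m + t := by
      rw [h3]
      exact (Nat.gcd_dvd_left e m).mul_right _
    have h5 : Nat.gcd e m ∣ t := (Nat.dvd_add_right (Nat.gcd_dvd_right e m)).1 h4
    have h6 : Nat.gcd e m ∣ Nat.gcd t e := Nat.dvd_gcd h5 (Nat.gcd_dvd_left e m)
    rw [cte] at h6
    exact Nat.dvd_one.1 h6
  have hcop : Nat.Coprime s m := by
    rw [hs']
    exact Nat.Coprime.mul_left (Nat.Coprime.mul_left (Nat.Coprime.mul_left (Nat.Coprime.mul_left c2 c2) c2) cu)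
      (Nat.Coprime.mul_left (Nat.Coprime.mul_left c2 ct) ce)
  have hn : Nat.Coprime n m := Nat.Coprime.coprime_dvd_left h2 hcop
  rw [hmq] at h1
  exact hn.dvd_of_dvd_mul_left h1

end numbers

section main

variable {F : Type u} [Field F] [Fintype F]

/-- The hyperbolic space of dimension eight. -/
abbrev YP (F : Type u) [Field F] : Type u := Fin 4 ⊕ Fin 4 → F

theorem polar_qPlus (u v : YP F) : polar ⇑(qPlus 4 F) u v = u ⬝ᵥ (hypMat (Fin 4) F *ᵥ v) := by
  rw [coe_qPlus]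
  exact polar_quadFormPlus 4 u v

theorem det_hyp4 : (hypMat (Fin 4) F).det = 1 := by
  rw [det_hyp, Fintype.card_fin]
  norm_num

theorem eval_one_reverse (f : F[X]) : f.reverse.eval 1 = f.eval 1 := by
  haveI : Invertible (1 : F) := invertibleOne
  have h1 := eval₂_reverse_mul_pow (RingHom.id F) (1 : F) f
  simpa [eval₂_id] using h1

theorem kill_of {T : ℕ} (hT : Even T) {r : F[X]} (hnr : ¬ (X + 1) ∣ r) (hd : r ∣ X ^ T - 1) :
    (X + 1) * r ∣ X ^ T - 1 := by
  have hc : IsCoprime (X + 1 : F[X]) r := (irreducible_X_add_one.coprime_iff_not_dvd).2 hnr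
  apply hc.mul_dvd _ hd
  obtain ⟨k, rfl⟩ := hT
  have h1 : (X + 1 : F[X]) ∣ X ^ 2 - 1 := ⟨X - 1, by ring⟩
  refine h1.trans ?_
  have h3 := sub_dvd_pow_sub_pow ((X : F[X]) ^ 2) 1 k
  rw [one_pow, ← pow_mul] at h3
  rwa [two_mul] at h3

variable {p : ℕ} [hpf : Fact p.Prime] [CharP F p] {R : Set ℕ} {t : ℕ}

theorem pow_char_dvd (k m A : ℕ) (hA : A ≤ p ^ k) : (X ^ m - 1 : F[X]) ^ A ∣ X ^ (p ^ k * m) - 1 := by
  have h1 : (X ^ m - 1 : F[X]) ^ (p ^ k) = X ^ (p ^ k * m) - 1 := by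
    rw [sub_pow_char_pow, one_pow, ← pow_mul, mul_comm]
  rw [← h1]
  exact pow_dvd_pow _ hA

theorem exists_T (ht : Fintype.card F = 2 * t + 1) (hE : Expos p t R) {m A : ℕ} (hP : PO4 t m A) :
    ∃ T, T ∈ R ∧ Even T ∧ ((X ^ m - 1 : F[X]) ^ A ∣ X ^ T - 1) := by
  have hp : p.Prime := Fact.out
  have hp2 : p ≠ 2 := by
    rintro rfl
    exact h2_of ht (by exact_mod_cast CharP.cast_eq_zero F 2)
  have hp3 : 3 ≤ p := by
    have := hp.two_le
    omega
  have hp4 : p ≠ 4 := by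
    rintro rfl
    exact absurd hp (by norm_num)
  have h1 : ∀ T, A ≤ 1 → m ∣ T → (X ^ m - 1 : F[X]) ^ A ∣ X ^ T - 1 := fun T hA hm => by
    refine (pow_dvd_pow _ hA).trans ?_
    rw [pow_one]
    exact X_pow_sub_one_dvd hm
  have h2 : ∀ M, A ≤ p → m ∣ M → (X ^ m - 1 : F[X]) ^ A ∣ X ^ (p * M) - 1 := fun M hA hm => by
    have h3 := pow_char_dvd (F := F) (p := p) 1 m A (by rwa [pow_one])
    rw [pow_one] at h3
    exact h3.trans (X_pow_sub_one_dvd (Nat.mul_dvd_mul_left p hm))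
  have ea2 : Even (a2 t) := ⟨2 * t * (t + 1), by unfold a2; ring⟩
  have ea1 : Even (a1 t) := ⟨t, by unfold a1; ring⟩
  have eb1 : Even (b1 t) := ⟨t + 1, by unfold b1; ring⟩
  have er8m : Even (r8m t) := ⟨t * (2 * t ^ 2 + 2 * t + 1), by unfold r8m; ring⟩
  have er8p : Even (r8p t) := ⟨(t + 1) * (2 * t ^ 2 + 2 * t + 1), by unfold r8p; ring⟩
  obtain ⟨f0, f1, f2, f3, f4, f5, f6, f7, f8, f9, f10, f11, f12, f13, f14, f15, f16, f17, f18, f19⟩ := factsO t
  rcases hP with ⟨hA, hm⟩ | ⟨hA, hm⟩ | ⟨hA, hm⟩ | ⟨hA, hm⟩ | ⟨hA, hm⟩ | ⟨hA, hm⟩ | ⟨hA, hm⟩ | ⟨hA, hm⟩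
  · exact ⟨_, hE.e1, ⟨2 * t * (t + 1) * (2 * t ^ 2 + 2 * t + 1), by unfold R1; ring⟩, h1 _ hA hm⟩
  · exact ⟨_, hE.e2, ⟨t * (t + 1) * (4 * t ^ 2 + 6 * t + 3), by unfold R2p; ring⟩, h1 _ hA hm⟩
  · exact ⟨_, hE.e3, ⟨t * (t + 1) * (4 * t ^ 2 + 2 * t + 1), by unfold R2m; ring⟩, h1 _ hA hm⟩
  · exact ⟨_, hE.e4, ea2.mul_left p, h2 _ (by omega) hm⟩
  · exact ⟨_, hE.e5, er8m.mul_left p, h2 _ (by omega) hm⟩
  · exact ⟨_, hE.e6, er8p.mul_left p, h2 _ (by omega) hm⟩
  · by_cases hp5 : p = 3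
    · subst hp5
      refine ⟨_, hE.e7 rfl, ea1.mul_left 9, ?_⟩
      have h3 := pow_char_dvd (F := F) (p := 3) 2 m A (by omega)
      refine h3.trans (X_pow_sub_one_dvd ?_)
      norm_num
      exact Nat.mul_dvd_mul_left 9 hm
    · exact ⟨_, hE.e4, ea2.mul_left p, h2 _ (by omega) (hm.trans f0)⟩
  · by_cases hp5 : p = 3
    · subst hp5
      refine ⟨_, hE.e8 rfl, eb1.mul_left 9, ?_⟩
      have h3 := pow_char_dvd (F := F) (p := 3) 2 m A (by omega)
      refine h3.trans (X_pow_sub_one_dvd ?_)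
      norm_num
      exact Nat.mul_dvd_mul_left 9 hm
    · exact ⟨_, hE.e4, ea2.mul_left p, h2 _ (by omega) (hm.trans f6)⟩

theorem pow_eq_one_of_aeval {V : Type v} [AddCommGroup V] [Module F V] [FiniteDimensional F V] {g : V ≃ₗ[F] V} {T : ℕ}
    (h : aeval (toE V g) (X ^ T - 1 : F[X]) = 0) : g ^ T = 1 := by
  simp only [map_sub, map_pow, aeval_X, map_one] at h
  ext x
  have h1 := congrArg (fun f : Module.End F V => f x) h
  simp only [LinearMap.sub_apply, Module.End.one_apply, LinearMap.zero_apply, sub_eq_zero] at h1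
  rw [toE_pow_apply] at h1
  exact h1

/-- The case of elements without fixed vectors. -/
theorem hpoly (ht : Fintype.card F = 2 * t + 1) (hdvd : ∀ n ∈ R, ∀ d, d ∣ n → d ∈ R) (hE : Expos p t R)
    {g : YP F ≃ₗ[F] YP F} (hg : IsOm (qPlus 4 F) g) (hfree : ∀ x, g x = x → x = 0)
    (hJ : ∀ x, g (g x + x) + (g x + x) = 0 → g x + x = 0) : orderOf g ∈ R := by
  classical
  have h2 := h2_of ht
  set A : Module.End F (YP F) := toE (YP F) g with hA
  set M := LinearMap.toMatrix' (g : YP F →ₗ[F] YP F) with hM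
  have hχM : M.charpoly = A.charpoly := by
    have h1 := LinearMap.charpoly_toMatrix A (Pi.basisFun F (Fin 4 ⊕ Fin 4))
    rw [LinearMap.toMatrix_eq_toMatrix'] at h1
    exact h1
  have hmon : A.charpoly.Monic := LinearMap.charpoly_monic A
  have hdeg : A.charpoly.natDegree = 8 := by
    rw [LinearMap.charpoly_natDegree, finrankP]
  have hrec := charpoly_recip (M := M) (G := hypMat (Fin 4) F) (by rw [det_hyp4]; exact one_ne_zero)
    (matrix_isom polar_qPlus hg.mem)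
  rw [hχM] at hrec
  have hroot : A.charpoly.eval 1 ≠ 0 := by
    rw [← hχM]
    exact not_root_one hfree
  have h1χ : ¬ (X - 1) ∣ A.charpoly := by
    intro h
    apply hroot
    have h3 : (X - C (1 : F)) ∣ A.charpoly := by simpa using h
    exact dvd_iff_isRoot.1 h3
  have hCH : aeval A A.charpoly = 0 := LinearMap.aeval_self_charpoly A
  have hfin : ∀ T, T ∈ R → aeval A (X ^ T - 1 : F[X]) = 0 → orderOf g ∈ R := fun T hT h =>
    hdvd T hT _ (orderOf_dvd_of_pow_eq_one (pow_eq_one_of_aeval h))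
  have hdvdχ : ∀ T, A.charpoly ∣ X ^ T - 1 → aeval A (X ^ T - 1 : F[X]) = 0 := fun T h => by
    obtain ⟨k, hk⟩ := h
    rw [hk, map_mul, hCH, zero_mul]
  obtain ⟨μ, r, hχr, hnr, hcases⟩ := exists_expO p ht hmon hdeg hrec.1 hrec.2 h1χ
  have hstep : ∀ j x, ((A + 1) ^ (j + 1) : Module.End F (YP F)) x = 0 → (A + 1 : Module.End F (YP F)) x = 0 := by
    intro j
    induction j with
    | zero =>
      intro x hx
      simpa using hx
    | succ j ih =>
      intro x hx
      rw [pow_succ] at hx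
      have h3 := ih _ hx
      exact hJ x h3
  have hkill : aeval A ((X + 1) * r) = 0 := by
    apply LinearMap.ext
    intro w
    have h3 : aeval A ((X + 1) ^ μ * r) = 0 := by
      rw [← hχr]
      exact hCH
    rw [map_mul, map_pow, map_add, aeval_X, map_one] at h3
    rw [map_mul, map_add, aeval_X, map_one]
    have h5 : ((A + 1) ^ μ : Module.End F (YP F)) (aeval A r w) = 0 := congrArg (fun f : Module.End F (YP F) => f w) h3
    show (A + 1 : Module.End F (YP F)) (aeval A r w) = 0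
    cases μ with
    | zero =>
      have h6 : aeval A r w = 0 := by simpa using h5
      rw [h6, map_zero]
    | succ j => exact hstep j _ h5
  rcases hcases with ⟨m, B, hP, hdv⟩ | ⟨hμ, hirr⟩ | ⟨hμ, π, hπm, hπi, hπd, hπs, hχπ⟩
  · obtain ⟨T, hT, hev, hd⟩ := exists_T (R := R) ht hE hP
    obtain ⟨k, hk⟩ := kill_of hev hnr (hdv.trans hd)
    exact hfin T hT (by rw [hk, map_mul, hkill, zero_mul])
  · obtain ⟨t', ht1, ht2, ht3⟩ := selfrec_dvd p hirr hmon hrec.1 hrec.2 (by rw [hdeg]; norm_num)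
    have ht4 : t' = 4 := by
      rw [hdeg] at ht1
      omega
    subst ht4
    have hgq : g ^ ((2 * t + 1) ^ 4 + 1) = 1 := by
      rw [← ht]
      exact pow_eq_one_of_aeval (hdvdχ _ ht3)
    have hpowfix : ∀ (j : ℕ) (x : YP F), (g ^ j) x = x → x ≠ 0 → g ^ j = 1 := by
      intro j x hx hx0
      by_cases hd : A.charpoly ∣ X ^ j - 1
      · exact pow_eq_one_of_aeval (hdvdχ j hd)
      · exfalso
        obtain ⟨a, b, hab⟩ := (hirr.coprime_iff_not_dvd).2 hd
        have h3 := congrArg (aeval A) hab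
        rw [map_add, map_mul, map_mul, hCH, mul_zero, zero_add, map_one] at h3
        have h5 := congrArg (fun f : Module.End F (YP F) => f x) h3
        have h6 : aeval A (X ^ j - 1 : F[X]) x = 0 := by
          simp only [map_sub, map_pow, aeval_X, map_one, LinearMap.sub_apply, Module.End.one_apply]
          rw [toE_pow_apply, hx, sub_self]
        have h7 : (aeval A b * aeval A (X ^ j - 1 : F[X])) x = aeval A b (aeval A (X ^ j - 1 : F[X]) x) := rfl
        simp only [h7, h6, map_zero, Module.End.one_apply] at h5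
        exact hx0 h5.symm
    set Sz : Set (YP F) := {v | qPlus 4 F v = 0} with hSz
    set S : Set (YP F) := Sz \ {0} with hS
    have hzeroS : (0 : YP F) ∈ Sz := by
      show qPlus 4 F 0 = 0
      simp
    have hfo : IsOfFinOrder g := orderOf_pos_iff.1 (orderOf_pos' g)
    have hdvdS : orderOf g ∣ Nat.card S := by
      have h3 := order_dvd_of_free (Subgroup.zpowers g) S ?_ ?_
      · rwa [Nat.card_zpowers] at h3
      · intro c hc x hx
        have hcm : c ∈ isoGroup (qPlus 4 F) := (Subgroup.zpowers_le.2 hg.mem) hc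
        refine ⟨?_, ?_⟩
        · show qPlus 4 F (c x) = 0
          rw [hcm x]
          exact hx.1
        · intro h5
          apply hx.2
          have h6 : c x = 0 := h5
          rw [Set.mem_singleton_iff]
          exact (map_eq_zero_iff c c.injective).1 h6
      · intro c hc x hx hcx
        obtain ⟨j, rfl⟩ := (hfo.mem_powers_iff_mem_zpowers).2 hc
        exact hpowfix j x hcx (fun h0 => hx.2 (by rw [h0]; rfl))
    have hcardS : Nat.card S + 1 = Nat.card Sz := by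
      rw [Nat.card_coe_set_eq, Nat.card_coe_set_eq]
      exact Set.ncard_diff_singleton_add_one hzeroS (Set.toFinite _)
    have hz := card_zero_plus (F := F) (card_eq ht) 3
    have hcardZ : Nat.card Sz = Nat.card {v : Fin (3 + 1) ⊕ Fin (3 + 1) → F // Cfsg.quadFormPlus (3 + 1) F v = 0} := by
      apply Nat.card_congr
      apply Equiv.subtypeEquivRight
      intro v
      show qPlus 4 F v = 0 ↔ _
      rw [coe_qPlus]
    rw [← hcardZ, ← hcardS] at hz
    have h2d := num_final hz (orderOf_dvd_of_pow_eq_one hgq) hdvdS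
    refine hdvd _ hE.e1 _ (h2d.trans ?_)
    exact ⟨2 * t * (t + 1) * (2 * t ^ 2 + 2 * t + 1), by unfold R1; ring⟩
  · have h0π : π.coeff 0 ≠ 0 := by
      have h3 := hrec.1
      rw [hχπ, mul_coeff_zero] at h3
      exact left_ne_zero_of_mul h3
    have hsn := sn_fixfree (nondegP 4) polar_qPlus hg.mem hfree
    rw [hg.sn0, det_hyp4, one_mul] at hsn
    have hsq : IsSquare (M.charpoly.eval 1) := sqc_eq_zero_iff.1 hsn.symm
    rw [hχM, hχπ, eval_mul] at hsq
    have hroot' : π.eval 1 * (pstar π).eval 1 ≠ 0 := by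
      rw [← eval_mul, ← hχπ]
      exact hroot
    have ha₁ : π.eval 1 ≠ 0 := left_ne_zero_of_mul hroot'
    have hpe : (pstar π).eval 1 = (π.coeff 0)⁻¹ * π.eval 1 := by
      unfold pstar
      rw [eval_mul, eval_C, eval_one_reverse]
    rw [hpe] at hsq
    obtain ⟨w, hw⟩ := hsq
    have hw0 : w ≠ 0 := by
      rintro rfl
      rw [mul_zero] at hw
      exact (mul_ne_zero ha₁ (mul_ne_zero (inv_ne_zero h0π) ha₁)) hw
    have hcs : IsSquare (π.coeff 0) := by
      refine ⟨π.eval 1 / w, ?_⟩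
      field_simp
      field_simp at hw
      linear_combination - hw
    have h1 := deg4_dvd hπi hπm hπd h0π hcs ht
    have hπ'0 : (pstar π).coeff 0 = (π.coeff 0)⁻¹ := pstar_coeff_zero hπm
    have h3 := deg4_dvd (pstar_irreducible hπi h0π) (pstar_monic h0π) (by rw [pstar_natDegree h0π, hπd])
      (by rw [hπ'0]; exact inv_ne_zero h0π) (by rw [hπ'0]; exact hcs.inv) ht
    have hc : IsCoprime π (pstar π) := by
      rw [hπi.coprime_iff_not_dvd]
      intro h
      exact hπs (eq_of_monic_of_dvd_of_natDegree_le hπm (pstar_monic h0π) h (by rw [pstar_natDegree h0π]))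
    exact hfin _ hE.e1 (hdvdχ _ (by rw [hχπ]; exact hc.mul_dvd h1 h3))

end main

end Cfsg.Agent.Lib.OmNine.PolyStar
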