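import Mathlib
import Cfsg.Agent.Lib.OmNine.Dir1

set_option autoImplicit false
set_option linter.unusedSectionVars false
set_option linter.unusedVariables false
set_option linter.unusedSimpArgs false

/-!
Every element order of the orthogonal group in dimension nine lies in the set `R`, up to the elements
with a one-dimensional fixed space of square norm and no Jordan block at `-1`.
-/

namespace Cfsg.Agent.Lib.OmNine.Star

open QuadraticMap Module
open Cfsg.Agent.Lib.Witt.Quadratic Cfsg.Agent.Lib.Orth.Refl Cfsg.Agent.Lib.Orth.Spin Cfsg.Agent.Lib.Orth.Gen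
  Cfsg.Agent.Lib.Orth.Wall Cfsg.Agent.Lib.Orth.Omega Cfsg.Agent.Lib.OmNine.Proj Cfsg.Agent.Lib.OmNine.Chain
  Cfsg.Agent.Lib.OmNine.Lift Cfsg.Agent.Lib.OmNine.Split Cfsg.Agent.Lib.OmNine.RSet Cfsg.Agent.Lib.OmNine.Dir1

universe u v w

variable {F : Type u} {V : Type v} {Y : Type w} [Field F] [AddCommGroup V] [Module F V]
  [AddCommGroup Y] [Module F Y] [FiniteDimensional F V] [FiniteDimensional F Y]
  {Q : QuadraticForm F V} {Q₈ : QuadraticForm F Y}

section block

/-- A skew nilpotent map on an even dimensional nondegenerate space has index less than the dimension. -/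
theorem skew_top_zero (h2 : (2 : F) ≠ 0) (hQ : (polarBilin Q).Nondegenerate) {π : V →ₗ[F] V} (hπ : IsProj Q π)
    {A : Module.End F V} (hskew : ∀ x y, polar Q (A x) y = - polar Q x (A y)) (hc : ∀ x, π (A x) = A (π x))
    (hk : ∀ x, π x = 0 → A x = 0) {d : ℕ} (hd : finrank F (LinearMap.range π) = d + 2) (hev : Even d)
    (hz : A ^ (d + 2) = 0) : A ^ (d + 1) = 0 := by
  classical
  by_contra hne
  obtain ⟨x₀, hx₀⟩ : ∃ x₀, (A ^ (d + 1)) x₀ ≠ 0 := by
    by_contra hcon
    push Not at hcon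
    exact hne (LinearMap.ext hcon)
  -- we may assume that `x₀` lies in the range
  have hAπ : ∀ x, (A ^ (d + 1)) x = (A ^ (d + 1)) (π x) := by
    intro x
    have h1 : A (x - π x) = 0 := hk _ (by rw [map_sub, hπ.idem, sub_self])
    have h3 : (A ^ (d + 1)) (x - π x) = 0 := by
      rw [pow_succ]
      show (A ^ d) (A (x - π x)) = 0
      rw [h1, map_zero]
    rw [map_sub, sub_eq_zero] at h3
    exact h3
  set x₁ := π x₀ with hx₁
  have hπx₁ : π x₁ = x₁ := hπ.idem x₀
  have hne1 : (A ^ (d + 1)) x₁ ≠ 0 := by rwa [← hAπ]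
  have hrange : ∀ (k : ℕ) (x : V), π x = x → π ((A ^ k) x) = (A ^ k) x := by
    intro k x hx
    induction k with
    | zero => simpa using hx
    | succ k ih =>
      rw [pow_succ']
      show π (A ((A ^ k) x)) = A ((A ^ k) x)
      rw [hc, ih]
  -- skew powers
  have hskewk : ∀ (k : ℕ) (a b : V), polar Q ((A ^ k) a) b = (-1) ^ k * polar Q a ((A ^ k) b) := by
    intro k
    induction k with
    | zero => intro a b; simp
    | succ k ih =>
      intro a b
      have h5 : (A ^ (k + 1)) b = (A ^ k) (A b) := by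
        rw [pow_succ]
        rfl
      have h6 : (A ^ (k + 1)) a = A ((A ^ k) a) := by
        rw [pow_succ']
        rfl
      rw [h5, h6, hskew, ih, pow_succ]
      ring
  set e := (A ^ (d + 1)) x₁ with he
  have hπe : π e = e := hrange _ _ hπx₁
  -- the chain is independent
  let v : Fin (d + 2) → V := fun i => (A ^ (i : ℕ)) x₁
  have hv0 : ∀ k, d + 2 ≤ k → (A ^ k) x₁ = 0 := fun k hk' => by
    rw [pow_eq_zero_of_le hk' hz]
    rfl
  have hli : LinearIndependent F v := by
    rw [Fintype.linearIndependent_iff]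
    intro c hc0
    have key : ∀ n : ℕ, ∀ i : Fin (d + 2), (i : ℕ) = n → c i = 0 := by
      intro n
      induction n using Nat.strong_induction_on with
      | _ n ih =>
        intro i hi
        have h1 := congrArg (A ^ (d + 1 - n)) hc0
        rw [map_sum, map_zero, Finset.sum_eq_single i] at h1
        · rw [map_smul] at h1
          have h3 : (A ^ (d + 1 - n)) (v i) = e := by
            show (A ^ (d + 1 - n)) ((A ^ (i : ℕ)) x₁) = _
            rw [← Module.End.mul_apply, ← pow_add, hi]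
            have : d + 1 - n + n = d + 1 := by
              have := i.2
              omega
            rw [this]
          rw [h3] at h1
          exact (smul_eq_zero.1 h1).resolve_right hne1
        · intro j _ hj
          rw [map_smul]
          rcases lt_or_gt_of_ne (fun h : (j : ℕ) = (i : ℕ) => hj (Fin.ext h)) with h4 | h4
          · rw [ih j (by omega) j rfl, zero_smul]
          · have h5 : (A ^ (d + 1 - n)) (v j) = 0 := by
              show (A ^ (d + 1 - n)) ((A ^ (j : ℕ)) x₁) = 0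
              rw [← Module.End.mul_apply, ← pow_add]
              apply hv0
              have := i.2
              omega
            rw [h5, smul_zero]
        · intro h
          exact absurd (Finset.mem_univ i) h
    exact fun i => key i i rfl
  have hspan : Submodule.span F (Set.range v) = LinearMap.range π := by
    apply Submodule.eq_of_le_of_finrank_eq
    · rw [Submodule.span_le]
      rintro _ ⟨i, rfl⟩
      exact hπ.mem_range.2 (hrange _ _ hπx₁)
    · rw [finrank_span_eq_card hli, hd]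
      simp
  -- the top vector is orthogonal to the chain
  have hev1 : (-1 : F) ^ (d + 1) = -1 := Odd.neg_one_pow hev.add_one
  have hortho : ∀ i : Fin (d + 2), polar Q (v i) e = 0 := by
    intro i
    show polar Q ((A ^ (i : ℕ)) x₁) e = 0
    rw [hskewk, he, ← Module.End.mul_apply, ← pow_add]
    by_cases hi : (i : ℕ) = 0
    · rw [hi]
      simp only [pow_zero, one_mul, zero_add]
      have h3 := hskewk (d + 1) x₁ x₁
      rw [hev1, polar_comm] at h3
      have h4 : (2 : F) * polar Q x₁ ((A ^ (d + 1)) x₁) = 0 := by linear_combination h3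
      exact (mul_eq_zero.1 h4).resolve_left h2
    · rw [hv0 _ (by omega), polar_zero_right, mul_zero]
  have hle : LinearMap.range π ≤ LinearMap.ker (pol Q e) := by
    rw [← hspan, Submodule.span_le]
    rintro _ ⟨i, rfl⟩
    exact hortho i
  obtain ⟨z, hz1, hz2⟩ := exists_pair hQ hπ hne1 hπe
  apply hz2
  have h5 : pol Q e z = 0 := hle (hπ.mem_range.2 hz1)
  rw [polar_comm]
  exact h5

variable [Finite F]

/-- The block lemma. -/
theorem block (h2 : (2 : F) ≠ 0) (hQ : (polarBilin Q).Nondegenerate) {π : V →ₗ[F] V} (hπ : IsProj Q π)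
    {u : V ≃ₗ[F] V} (hu : u ∈ isoGroup Q) (hc : ∀ x, π (u x) = u (π x)) (hk : ∀ x, π x = 0 → u x = x)
    (hn : IsNilpotent (uni u)) {d : ℕ} (hd : finrank F (LinearMap.range π) = d + 2) (hev : Even d) :
    uni u ^ (d + 1) = 0 := by
  -- the skew map
  set B := uni u with hB
  set W : Module.End F V := 1 + (toE V u⁻¹) with hW
  set A : Module.End F V := B * W with hA
  have hU1 : toE V u * toE V u⁻¹ = 1 := by
    rw [← map_mul, mul_inv_cancel, map_one]
  have hU2 : toE V u⁻¹ * toE V u = 1 := by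
    rw [← map_mul, inv_mul_cancel, map_one]
  have hAeq : A = toE V u - toE V u⁻¹ := by
    rw [hA, hB, uni_eq, hW]
    noncomm_ring [hU1]
  have hcomm : Commute B W := by
    rw [hB, uni_eq, hW]
    show (toE V u - 1) * (1 + toE V u⁻¹) = (1 + toE V u⁻¹) * (toE V u - 1)
    have : (toE V u - 1) * (1 + toE V u⁻¹) = toE V u + toE V u * toE V u⁻¹ - 1 - toE V u⁻¹ := by noncomm_ring
    rw [this, hU1]
    have : (1 + toE V u⁻¹) * (toE V u - 1) = toE V u + toE V u⁻¹ * toE V u - 1 - toE V u⁻¹ := by noncomm_ring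
    rw [this, hU2]
  -- `W` is invertible
  have hWunit : IsUnit W := by
    have h3 : W = (2 : F) • (1 + (2 : F)⁻¹ • (toE V u⁻¹ - 1)) := by
      rw [smul_add, smul_smul, mul_inv_cancel₀ h2, one_smul, two_smul, hW]
      noncomm_ring
    have hnil : IsNilpotent ((2 : F)⁻¹ • (toE V u⁻¹ - 1)) := by
      have h4 : toE V u⁻¹ - 1 = - (toE V u⁻¹ * B) := by
        rw [hB, uni_eq, mul_sub, hU2]
        noncomm_ring
      have hc4 : Commute (toE V u⁻¹) B := by
        rw [hB, uni_eq]
        show toE V u⁻¹ * (toE V u - 1) = (toE V u - 1) * toE V u⁻¹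
        rw [mul_sub, sub_mul, hU1, hU2]
        noncomm_ring
      obtain ⟨n, hn'⟩ := hn
      refine ⟨n, ?_⟩
      rw [smul_pow, h4, neg_pow, hc4.mul_pow, hn', mul_zero, mul_zero, smul_zero]
    have h5 : IsUnit (1 + (2 : F)⁻¹ • (toE V u⁻¹ - 1)) := hnil.isUnit_one_add
    rw [h3]
    obtain ⟨w, hw⟩ := h5
    have h6 : IsUnit ((2 : F) • (1 : Module.End F V)) := by
      refine ⟨⟨(2 : F) • 1, (2 : F)⁻¹ • 1, ?_, ?_⟩, rfl⟩ <;> 
        simp [smul_smul, mul_inv_cancel₀ h2, inv_mul_cancel₀ h2]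
    have h7 : (2 : F) • (1 + (2 : F)⁻¹ • (toE V u⁻¹ - 1)) = ((2 : F) • (1 : Module.End F V)) * (1 + (2 : F)⁻¹ • (toE V u⁻¹ - 1)) := by
      rw [smul_mul_assoc, one_mul]
    rw [h7, ← hw]
    exact h6.mul w.isUnit
  have hAp : ∀ n, A ^ n = B ^ n * W ^ n := fun n => hcomm.mul_pow n
  have hAa : ∀ x, A x = u x - u⁻¹ x := fun x => by
    rw [hAeq]
    rfl
  have hskew : ∀ x y, polar Q (A x) y = - polar Q x (A y) := by
    intro x y
    rw [hAa, hAa, polar_sub_left, polar_sub_right, polar_inv hu, polar_inv (Subgroup.inv_mem _ hu), inv_inv]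
    ring
  have hπinv : ∀ x, π (u⁻¹ x) = u⁻¹ (π x) := by
    intro x
    apply u.injective
    rw [← hc]
    have h1 : ∀ z, u (u⁻¹ z) = z := fun z => by
      show (u * u⁻¹) z = z
      rw [mul_inv_cancel]
      rfl
    rw [h1, h1]
  have hkinv : ∀ x, π x = 0 → u⁻¹ x = x := by
    intro x hx
    apply u.injective
    have h1 : u (u⁻¹ x) = x := by
      show (u * u⁻¹) x = x
      rw [mul_inv_cancel]
      rfl
    rw [h1, hk x hx]
  have hcA : ∀ x, π (A x) = A (π x) := fun x => by
    rw [hAa, hAa, map_sub, hc, hπinv]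
  have hkA : ∀ x, π x = 0 → A x = 0 := fun x hx => by
    rw [hAa, hk x hx, hkinv x hx, sub_self]
  have hnA : IsNilpotent A := by
    obtain ⟨n, hn'⟩ := hn
    refine ⟨n, ?_⟩
    rw [hAp, hn', zero_mul]
  have hz := nil_on_range hπ hcA hkA hnA (by omega)
  rw [hd] at hz
  have h1 := skew_top_zero h2 hQ hπ hskew hcA hkA hd hev hz
  rw [hAp] at h1
  have h3 : IsUnit (W ^ (d + 1)) := hWunit.pow _
  exact h3.mul_left_eq_zero.1 h1

end block

section star

variable [Fintype F] {p : ℕ} [hpf : Fact p.Prime] [CharP F p] {R : Set ℕ} (C : Ctx Q Q₈ p R)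

/-- Powers of an element negating a vector. -/
theorem pow_neg_of_neg {g : V ≃ₗ[F] V} {x : V} (h : g x = -x) (i : ℕ) : (g ^ i) x = (-1 : F) ^ i • x := by
  induction i with
  | zero => simp
  | succ i ih =>
    rw [pow_succ]
    show (g ^ i) (g x) = _
    rw [h, map_neg, ih, pow_succ]
    simp

theorem pow_neg_odd {g : V ≃ₗ[F] V} {x : V} (h : g x = -x) {n : ℕ} (hn : Odd n) : (g ^ n) x = -x := by
  rw [pow_neg_of_neg h, hn.neg_one_pow]
  simp

theorem negE_pow_even {n : ℕ} (hn : Even n) : (negE (F := F) V) ^ n = 1 := by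
  obtain ⟨k, rfl⟩ := hn
  have h1 : (negE (F := F) V) * negE V = 1 := by
    ext x
    show - - x = x
    rw [neg_neg]
  rw [← two_mul, pow_mul, pow_two, h1, one_pow]

include C

theorem zmod2_eq_of_add {a b : ZMod 2} (h : 0 = a + b) : a = b := by
  revert a b
  decide

/-- The elements fixing a nonsingular vector: either `R` contains the order or there are no Jordan blocks at `-1`. -/
theorem star {g : V ≃ₗ[F] V} (hg : IsOm Q g) {e : V} (he : Q e ≠ 0) (hge : g e = e)
    (H : (∀ x, g (g x + x) + (g x + x) = 0 → g x + x = 0) → orderOf g ∈ R) : orderOf g ∈ R := by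
  have hp : p.Prime := Fact.out
  have h2 := C.h2
  have hQ := C.hQ
  obtain ⟨k, m, hkm, hm⟩ := exists_pk (p := p) g
  have hPo := prime_pow_odd C k
  have hrm : (g ^ p ^ k) ^ m = 1 := by
    rw [← pow_mul, ← hkm, pow_orderOf_eq_one]
  set N := negE (F := F) V with hN
  have hNr : ∀ (t : V ≃ₗ[F] V), N * t = t * N := negE_mul_comm
  set z := N * g ^ p ^ k with hz
  have hzpow : z ^ (2 * m) = 1 := by
    rw [hz, (show Commute N (g ^ p ^ k) from hNr _).mul_pow, negE_pow_even (even_two_mul m), mul_comm 2 m, pow_mul,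
      hrm, one_pow, one_mul]
  have hm2 : ((2 * m : ℕ) : F) ≠ 0 := by
    push_cast
    exact mul_ne_zero h2 hm
  have hzmem : z ∈ isoGroup Q := Subgroup.mul_mem _ negE_mem (Subgroup.pow_mem _ hg.mem _)
  have hπ := avg_isProj hzmem hzpow hm2
  set π := avgLin z (2 * m) with hπdef
  have hπz : ∀ x, π x = x ↔ z x = x := avg_fix_iff hzpow hm2
  have hzap : ∀ x, z x = - (g ^ p ^ k) x := fun x => rfl
  have hπr : ∀ x, π x = x ↔ (g ^ p ^ k) x = -x := fun x => by
    rw [hπz, hzap, neg_eq_iff_eq_neg]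
  have hcomz : ∀ t : V ≃ₗ[F] V, t * g ^ p ^ k = g ^ p ^ k * t → t * z = z * t := by
    intro t ht
    rw [hz, ← mul_assoc, ← hNr t, mul_assoc, mul_assoc, ht]
  have hcg : ∀ x, π (g x) = g (π x) := fun x =>
    avg_comm (hcomz g (Commute.pow_right (Commute.refl g) _)) x
  have hcN : ∀ x, π (N x) = N (π x) := comm_neg
  have hcA : ∀ x, π ((N * g) x) = (N * g) (π x) := comm_mul hcN hcg
  have hNg : Commute N g := hNr g
  -- the three pieces
  set e₁ := Gl hπ N 1 hcN comm_one with he₁
  set u := Gl hπ (N * g) 1 hcA comm_one with hu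
  set hR := Gl hπ 1 g comm_one hcg with hhR
  have he₁m : e₁ ∈ isoGroup Q := Gl_mem hπ _ _ negE_mem (Subgroup.one_mem _)
  have hum : u ∈ isoGroup Q := Gl_mem hπ _ _ (Subgroup.mul_mem _ negE_mem hg.mem) (Subgroup.one_mem _)
  have hRm : hR ∈ isoGroup Q := Gl_mem hπ _ _ (Subgroup.one_mem _) hg.mem
  have hRa : ∀ x, hR x = π x + g (x - π x) := fun x => rfl
  have hua : ∀ x, u x = - g (π x) + (x - π x) := fun x => rfl
  have hea : ∀ x, e₁ x = - π x + (x - π x) := fun x => rfl
  have hg_eq : g = e₁ * (u * hR) := by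
    ext x
    show g x = e₁ (u (hR x))
    have h1 : π (hR x) = π x := proj_Gl hπ _ _ x
    have h3 : π (u (hR x)) = (N * g) (π x) := by
      rw [hu, proj_Gl hπ, h1]
    rw [hea, h3, hua, h1, hRa]
    show g x = - (- g (π x)) + (- g (π x) + (π x + g (x - π x) - π x) - (- g (π x)))
    rw [map_sub]
    abel
  -- the power of `u`
  have huP : u ^ p ^ k = 1 := by
    ext x
    rw [hu, Gl_pow_apply, one_pow, hNg.mul_pow]
    have h1 : (g ^ p ^ k) (π x) = - π x := (hπr _).1 (hπ.idem x)
    show (N ^ p ^ k) ((g ^ p ^ k) (π x)) + (x - π x) = x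
    rw [h1, map_neg, hN, negE_pow_odd hPo, neg_neg]
    abel
  have huOm : IsOm Q u := isOm_of_odd h2 hQ hum hPo huP
  have hmulm : u * hR ∈ isoGroup Q := Subgroup.mul_mem _ hum hRm
  -- invariants
  have hrpeq : rp e₁ = rp hR := by
    have h1 := rpM h2 hQ he₁m hmulm
    rw [← hg_eq, hg.rp0, rpM h2 hQ hum hRm, huOm.rp0, zero_add] at h1
    exact zmod2_eq_of_add C h1
  have hsneq : sn Q e₁ = sn Q hR := by
    have h1 := snM h2 hQ he₁m hmulm
    rw [← hg_eq, hg.sn0, snM h2 hQ hum hRm, huOm.sn0, zero_add] at h1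
    exact zmod2_eq_of_add C h1
  have hrke₁ : rk e₁ = finrank F (LinearMap.range π) := by
    apply rk_of_fix_ker hπ
    intro x
    rw [hea]
    constructor
    · intro h
      have h3 : (2 : F) • π x = 0 := by
        rw [two_smul]
        have : - π x + (x - π x) - x = - (π x + π x) := by abel
        rw [← neg_eq_zero, ← this, h, sub_self]
      exact (smul_eq_zero.1 h3).resolve_left h2
    · intro h
      rw [h]
      simp
  -- parity
  set a := Gl hπ 1 N comm_one hcN with ha
  set xR := Gl hπ 1 (N * g) comm_one hcA with hxR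
  have hamem : a ∈ isoGroup Q := Gl_mem hπ _ _ (Subgroup.one_mem _) negE_mem
  have hxR_eq : xR = a * hR := by
    ext x
    show xR x = a (hR x)
    have h1 : π (hR x) = π x := proj_Gl hπ _ _ x
    show π x + (- g (x - π x)) = π (hR x) + - (hR x - π (hR x))
    rw [h1, hRa, add_sub_cancel_left]
  have hrka : rk a + finrank F (LinearMap.range π) = finrank F V := by
    apply rk_of_fix_range hπ
    intro x
    show π x + (- (x - π x)) = x ↔ _
    constructor
    · intro h
      have h3 : (2 : F) • (x - π x) = 0 := by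
        rw [two_smul]
        have : x - π x + (x - π x) = - (π x + (- (x - π x)) - x) := by abel
        rw [this, h, sub_self, neg_zero]
      have h4 := (smul_eq_zero.1 h3).resolve_left h2
      exact (sub_eq_zero.1 h4).symm
    · intro h
      rw [h, sub_self]
      simp
  have hrkx : rk xR + finrank F (LinearMap.range π) = finrank F V := by
    apply rk_of_fix_range hπ
    intro x
    show π x + (- g (x - π x)) = x ↔ _
    constructor
    · intro h
      have h3 : g (x - π x) = - (x - π x) := by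
        have : - g (x - π x) = x - π x := eq_sub_of_add_eq' h
        exact neg_eq_iff_eq_neg.1 this
      have h4 := pow_neg_odd h3 hPo
      have h5 := (hπr _).2 h4
      rw [map_sub, hπ.idem, sub_self] at h5
      exact (sub_eq_zero.1 h5.symm).symm
    · intro h
      rw [h, sub_self, map_zero]
      simp
  have hrpR : rp hR = 0 := by
    have h1 := rpM h2 hQ hamem hRm
    rw [← hxR_eq] at h1
    have h3 : rk a = rk xR := by omega
    have h4 : rp a = rp xR := by
      show ((rk a : ℕ) : ZMod 2) = ((rk xR : ℕ) : ZMod 2)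
      rw [h3]
    rw [← h4] at h1
    have h5 : ∀ a b : ZMod 2, a = a + b → b = 0 := by decide
    exact h5 _ _ h1
  have hdev : Even (finrank F (LinearMap.range π)) := by
    have h1 : rp e₁ = 0 := by rw [hrpeq, hrpR]
    have h3 : ((rk e₁ : ℕ) : ZMod 2) = 0 := h1
    rw [hrke₁] at h3
    exact (ZMod.natCast_eq_zero_iff_even).1 h3
  have hnilu : IsNilpotent (uni u) := ⟨p ^ k, pow_eq_one_iff_uni.1 huP⟩
  have hcu : ∀ x, π (u x) = u (π x) := fun x => by
    rw [hu, proj_Gl hπ, Gl_proj hπ]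
  have hku : ∀ x, π x = 0 → u x = x := fun x hx => by
    rw [hua, hx, map_zero, neg_zero, zero_add, sub_zero]
  -- cases according to the dimension
  by_cases hd4 : 4 ≤ finrank F (LinearMap.range π)
  swap
  · -- no large block
    apply H
    have hu1 : u = 1 := by
      have hd2 : finrank F (LinearMap.range π) = 0 ∨ finrank F (LinearMap.range π) = 2 := by
        obtain ⟨t, ht⟩ := hdev
        omega
      rcases hd2 with hd0 | hd2
      · have h1 : LinearMap.range π = ⊥ := Submodule.finrank_eq_zero.1 hd0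
        ext x
        have h3 : π x = 0 := (Submodule.mem_bot F).1 (h1 ▸ (⟨x, rfl⟩ : π x ∈ LinearMap.range π))
        exact hku x h3
      · have h1 := block h2 hQ hπ hum hcu hku hnilu (d := 0) (by omega) (by simp)
        rw [zero_add, pow_one] at h1
        exact uni_eq_zero.1 h1
    have hgneg : ∀ x, g (π x) + π x = 0 := by
      intro x
      have h1 : u (π x) = π x := by rw [hu1]; rfl
      rw [hua, hπ.idem, sub_self, add_zero] at h1
      rw [neg_eq_iff_eq_neg.1 h1]
      simp
    intro x hx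
    set w := x - π x with hw
    have hxw : x = π x + w := by rw [hw]; abel
    have h1 : g x + x = g w + w := by
      conv_lhs => rw [hxw, map_add]
      have := hgneg x
      calc g (π x) + g w + (π x + w) = (g (π x) + π x) + (g w + w) := by abel
        _ = g w + w := by rw [this, zero_add]
    rw [h1] at hx ⊢
    have h3 : g (g w + w) = - (g w + w) := eq_neg_of_add_eq_zero_left hx
    have h4 := (hπr _).2 (pow_neg_odd h3 hPo)
    have hπw : π w = 0 := by rw [hw, map_sub, hπ.idem, sub_self]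
    rw [map_add, hcg, hπw, map_zero, add_zero] at h4
    exact h4.symm
  -- a large block: remove the reflections
  have hπe : π e = 0 := by
    have h1 : (g ^ p ^ k) e = e := pow_fix hge _
    have h3 : π ((g ^ p ^ k) e) = (g ^ p ^ k) (π e) :=
      avg_comm (hcomz _ rfl) e
    rw [h1] at h3
    have h4 : (g ^ p ^ k) (π e) = - π e := (hπr _).1 (hπ.idem e)
    rw [h4] at h3
    have h5 : (2 : F) • π e = 0 := by
      rw [two_smul]
      nth_rewrite 1 [h3]
      simp
    exact (smul_eq_zero.1 h5).resolve_left h2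
  have hρ := isProj_add_pU h2 hπ he hπe
  have hrkρ := rank_add_pU h2 hπ he hπe
  set ρ := π + pU Q e with hρdef
  have hRfix : ∀ x, ρ x = x → hR x = x := by
    intro x hx
    have h1 : hR (π x) = π x := by
      rw [hRa, hπ.idem, sub_self, map_zero, add_zero]
    have h3 : hR e = e := by
      rw [hRa, hπe, zero_add, sub_zero, hge]
    rw [← hx, hρdef, LinearMap.add_apply, map_add, h1, pU_apply, map_smul, h3]
  obtain ⟨u₁, hu₁, hQu₁⟩ := exists_nonsing h2 hQ hρ (by omega)
  have hρ₁ := sub_pU h2 hρ hQu₁ hu₁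
  have hrkρ₁ := finrank_sub_pU h2 hρ hQu₁ hu₁
  obtain ⟨c, hc0, hc⟩ : ∃ c : F, c ≠ 0 ∧ sqc c = sn Q hR + sqc (Q u₁) := by
    have hν0 := C.ne
    by_cases h1 : sn Q hR + sqc (Q u₁) = 0
    · exact ⟨1, one_ne_zero, by rw [h1, sqc_one]⟩
    · refine ⟨Q C.v₀, hν0, ?_⟩
      rw [sqc_eq_one_iff.2 C.hν]
      have h5 : ∀ a : ZMod 2, a ≠ 0 → 1 = a := by decide
      exact h5 _ h1
  obtain ⟨u₂, hu₂, hQu₂⟩ := exists_value h2 hQ hρ₁ (by omega) c
  have hQu₂0 : Q u₂ ≠ 0 := by rw [hQu₂]; exact hc0
  have hπ₂ := sub_pU h2 hρ₁ hQu₂0 hu₂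
  have hrkπ₂ := finrank_sub_pU h2 hρ₁ hQu₂0 hu₂
  have hu₂ρ := sub_pU_le h2 hρ hQu₁ hu₁ hu₂
  have h12 := sub_pU_ortho h2 hρ hQu₁ hu₁ hu₂
  set h₃ := refl Q u₁ * (refl Q u₂ * hR) with hh₃
  have hm2R : refl Q u₂ * hR ∈ isoGroup Q := Subgroup.mul_mem _ (refl_mem Q u₂) hRm
  have hh₃Om : IsOm Q h₃ := by
    refine ⟨Subgroup.mul_mem _ (refl_mem Q u₁) hm2R, ?_, ?_⟩
    · rw [hh₃, rp_refl_mul hQ hm2R hQu₁, rp_refl_mul hQ hRm hQu₂0, hrpR]
      decide
    · rw [hh₃, sn_refl_mul hQ hm2R hQu₁, sn_refl_mul hQ hRm hQu₂0, hQu₂, hc]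
      generalize sn Q hR = s
      generalize sqc (Q u₁) = t
      revert s t
      decide
  have hh₃fix : ∀ x, ((ρ - pU Q u₁) - pU Q u₂) x = x → h₃ x = x := by
    intro x hx
    have h1 := sub_pU_le h2 hρ₁ hQu₂0 hu₂ hx
    have h3 := sub_pU_ortho h2 hρ₁ hQu₂0 hu₂ hx
    have h4 := sub_pU_le h2 hρ hQu₁ hu₁ h1
    have h5 := sub_pU_ortho h2 hρ hQu₁ hu₁ h1
    show refl Q u₁ (refl Q u₂ (hR x)) = x
    rw [hRfix x h4, refl_fix Q h3, refl_fix Q h5]
  -- orders
  have hu₁0 : u₁ ≠ 0 := fun h0 => hQu₁ (by rw [h0, map_zero])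
  have hh₃u₁ : h₃ u₁ = - u₁ := by
    show refl Q u₁ (refl Q u₂ (hR u₁)) = _
    have h5 : refl Q u₂ u₁ = u₁ := refl_fix Q (by rw [polar_comm]; exact h12)
    rw [hRfix u₁ hu₁, h5, refl_self Q hQu₁]
  have hh₃even : Even (orderOf h₃) := by
    by_contra hcon
    have h1 := pow_neg_odd hh₃u₁ (Nat.not_even_iff_odd.1 hcon)
    rw [pow_orderOf_eq_one] at h1
    have h3 : u₁ = - u₁ := h1
    have h4 : (2 : F) • u₁ = 0 := by
      rw [two_smul]
      nth_rewrite 1 [h3]
      simp
    exact hu₁0 ((smul_eq_zero.1 h4).resolve_left h2)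
  have hρR : ∀ x, ρ (hR x) = ρ x := proj_of_fix hQ hρ hRm hRfix
  have hh₃ker : ∀ x, ρ x = 0 → h₃ x = hR x := by
    intro x hx
    have h1 : ρ (hR x) = 0 := by rw [hρR, hx]
    have h3 : polar Q (hR x) u₂ = 0 := by
      rw [← hu₂ρ, ← hρ.adj, h1, polar_zero_left]
    have h4 : polar Q (hR x) u₁ = 0 := by
      rw [← hu₁, ← hρ.adj, h1, polar_zero_left]
    show refl Q u₁ (refl Q u₂ (hR x)) = _
    rw [refl_fix Q h3, refl_fix Q h4]
  have hpowker : ∀ (i : ℕ) (x : V), ρ x = 0 → (h₃ ^ i) x = (hR ^ i) x := by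
    intro i
    induction i with
    | zero => intro x _; rfl
    | succ i ih =>
      intro x hx
      rw [pow_succ, pow_succ]
      show (h₃ ^ i) (h₃ x) = (hR ^ i) (hR x)
      rw [hh₃ker x hx, ih _ (by rw [hρR, hx])]
  have hRdvd : orderOf hR ∣ orderOf h₃ := by
    apply orderOf_dvd_of_pow_eq_one
    ext x
    have h1 : x = ρ x + (x - ρ x) := by abel
    have h3 : ρ (x - ρ x) = 0 := by rw [map_sub, hρ.idem, sub_self]
    have h4 : (hR ^ orderOf h₃) (x - ρ x) = x - ρ x := by
      rw [← hpowker _ _ h3, pow_orderOf_eq_one]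
      rfl
    have h5 : (hR ^ orderOf h₃) (ρ x) = ρ x := pow_fix (hRfix _ (hρ.idem x)) _
    show (hR ^ orderOf h₃) x = x
    conv_lhs => rw [h1, map_add, h5, h4]
    abel
  have hgL : ∀ L, Even L → hR ^ L = 1 → u ^ L = 1 → g ^ L = 1 := by
    intro L hL h1 h3
    ext x
    have hA : ∀ y, π y = y → (g ^ L) y = y := by
      intro y hy
      have h4 : (u ^ L) y = ((N * g) ^ L) y := by
        rw [hu, Gl_pow_apply, hy, sub_self, map_zero, add_zero]
      rw [h3, hNg.mul_pow, negE_pow_even hL, one_mul] at h4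
      exact h4.symm
    have hB : ∀ y, π y = 0 → (g ^ L) y = y := by
      intro y hy
      have h4 : (hR ^ L) y = (g ^ L) y := by
        rw [hhR, Gl_pow_apply, hy, map_zero, zero_add, sub_zero]
      rw [h1] at h4
      exact h4.symm
    show (g ^ L) x = x
    have h5 : x = π x + (x - π x) := by abel
    conv_lhs => rw [h5, map_add, hA _ (hπ.idem x), hB _ (by rw [map_sub, hπ.idem, sub_self])]
    abel
  obtain ⟨i, hi, hi2⟩ := (Nat.dvd_prime_pow hp).1 (orderOf_dvd_of_pow_eq_one huP)
  rcases Nat.eq_zero_or_pos i with hi0 | hipos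
  · -- `u = 1`
    have hu1 : u = 1 := by
      rw [hi0, pow_zero] at hi2
      exact orderOf_eq_one_iff.1 hi2
    have h1 : g ^ orderOf h₃ = 1 := hgL _ hh₃even (orderOf_dvd_iff_pow_eq_one.1 hRdvd) (by rw [hu1, one_pow])
    exact C.hR.dvd _ (C.M0 hh₃Om hπ₂ hh₃fix (by omega)) _ (orderOf_dvd_of_pow_eq_one h1)
  · -- a Jordan block
    obtain ⟨j, rfl⟩ : ∃ j, i = j + 1 := ⟨i - 1, by omega⟩
    obtain ⟨t, ht⟩ : ∃ t, finrank F (LinearMap.range π) = t + 2 := ⟨finrank F (LinearMap.range π) - 2, by omega⟩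
    have htev : Even t := by
      rw [ht] at hdev
      exact (Nat.even_add.1 hdev).2 (by decide)
    have hbl := block h2 hQ hπ hum hcu hku hnilu ht htev
    have hne : uni u ^ (p ^ j) ≠ 0 := by
      intro h0
      have h1 : u ^ (p ^ j) = 1 := pow_eq_one_iff_uni.2 h0
      have h3 := orderOf_dvd_of_pow_eq_one h1
      rw [hi2] at h3
      have h4 := (Nat.pow_dvd_pow_iff_le_right hp.one_lt).1 h3
      omega
    have hle : p ^ j ≤ t := by
      by_contra hcon
      exact hne (pow_eq_zero_of_le (by omega) hbl)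
    have hjodd := prime_pow_odd C j
    have hle2 : p ^ j + 1 ≤ t := by
      rcases hle.lt_or_eq with h1 | h1
      · exact h1
      · exfalso
        rw [← h1] at htev
        exact (Nat.not_even_iff_odd.2 hjodd) htev
    have hM := lemmaM C hh₃Om hπ₂ hh₃fix j (by omega)
    refine C.hR.dvd _ hM _ (orderOf_dvd_of_pow_eq_one ?_)
    apply hgL
    · exact hh₃even.trans_dvd (Nat.dvd_lcm_left _ _)
    · exact orderOf_dvd_iff_pow_eq_one.1 (hRdvd.trans (Nat.dvd_lcm_left _ _))
    · rw [← hi2]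
      exact orderOf_dvd_iff_pow_eq_one.1 (hi2 ▸ Nat.dvd_lcm_right _ _)

/-- Direction two, assuming the last case. -/
theorem dir2 (hstar : ∀ g : V ≃ₗ[F] V, IsOm Q g → ∀ e : V, Q e = 1 → g e = e → (∀ x, g x = x → ∃ c : F, x = c • e) →
      (∀ x, g (g x + x) + (g x + x) = 0 → g x + x = 0) → orderOf g ∈ R) {g : V ≃ₗ[F] V} (hg : IsOm Q g) :
    orderOf g ∈ R := by
  have hp : p.Prime := Fact.out
  have h2 := C.h2
  have hQ := C.hQ
  obtain ⟨π, τ, h, k, hπ, hτm, hhm, hmul, hcomm, hf1, hf2, hτ1, hτ2, hτP, hhc, hgf, hone, -⟩ :=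
    split (p := p) hQ hg.mem
  have hPo := prime_pow_odd C k
  have hτOm : IsOm Q τ := isOm_of_odd h2 hQ hτm hPo hτP
  have hhOm : IsOm Q h := by
    refine ⟨hhm, ?_, ?_⟩
    · have h1 := rpM h2 hQ hτm hhm
      rw [← hmul, hg.rp0, hτOm.rp0, zero_add] at h1
      exact h1.symm
    · have h1 := snM h2 hQ hτm hhm
      rw [← hmul, hg.sn0, hτOm.sn0, zero_add] at h1
      exact h1.symm
  have hrkh := rk_of_fix_range hπ (g := h) (fun z => ⟨hf2 z, hf1 z⟩)
  rw [C.hV9] at hrkh
  have hdodd : Odd (finrank F (LinearMap.range π)) := by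
    have h1 : ((rk h : ℕ) : ZMod 2) = 0 := hhOm.rp0
    have h3 : Even (rk h) := (ZMod.natCast_eq_zero_iff_even).1 h1
    rcases Nat.even_or_odd (finrank F (LinearMap.range π)) with h4 | h4
    · exfalso
      have h5 : Even (rk h + finrank F (LinearMap.range π)) := h3.add h4
      rw [hrkh] at h5
      exact absurd h5 (by decide)
    · exact h4
  have hd1 : 1 ≤ finrank F (LinearMap.range π) := hdodd.pos
  by_cases hτ : τ = 1
  · have hgh : g = h := by rw [hmul, hτ, one_mul]
    by_cases hd2 : 2 ≤ finrank F (LinearMap.range π)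
    · rw [hgh]
      exact C.M0 hhOm hπ hf1 hd2
    · have hd : finrank F (LinearMap.range π) = 1 := by omega
      obtain ⟨w, hw, hQw⟩ := exists_nonsing h2 hQ hπ hd1
      have hgw : g w = w := by rw [hgh]; exact hf1 w hw
      by_cases hs : IsSquare (Q w)
      · obtain ⟨s, hs⟩ := hs
        have hs0 : s ≠ 0 := by
          rintro rfl
          apply hQw
          rw [hs, mul_zero]
        have hQe : Q (s⁻¹ • w) = 1 := by
          rw [QuadraticMap.map_smul, hs, smul_eq_mul]
          field_simp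
        refine star C hg (by rw [hQe]; exact one_ne_zero) (by rw [map_smul, hgw]) (hstar g hg _ hQe (by rw [map_smul, hgw]) ?_)
        intro x hx
        have hπx : π x = x := hgf x hx
        have hw0 : (⟨w, hπ.mem_range.2 hw⟩ : LinearMap.range π) ≠ 0 := by
          intro h0
          apply hQw
          have : w = 0 := congrArg Subtype.val h0
          rw [this, map_zero]
        obtain ⟨c, hc⟩ := (finrank_eq_one_iff_of_nonzero' _ hw0).1 hd ⟨x, hπ.mem_range.2 hπx⟩
        refine ⟨c * s, ?_⟩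
        have h3 : c • w = x := congrArg Subtype.val hc
        rw [← h3, smul_smul, mul_assoc, mul_inv_cancel₀ hs0, mul_one]
      · -- a nonsquare
        have h3 : IsSquare (Q C.v₀ * (Q w)⁻¹) := by
          rw [← sqc_eq_zero_iff, sqc_mul C.ne (inv_ne_zero hQw), sqc_inv hQw, sqc_eq_one_iff.2 C.hν, sqc_eq_one_iff.2 hs]
          decide
        obtain ⟨s, hs2⟩ := h3
        refine C.r1' hg (v := s • w) (by rw [map_smul, hgw]) ?_
        rw [QuadraticMap.map_smul, smul_eq_mul, ← hs2, mul_assoc, inv_mul_cancel₀ hQw, mul_one]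
  · -- a nontrivial unipotent part
    obtain ⟨i, hi, hi2⟩ := (Nat.dvd_prime_pow hp).1 (orderOf_dvd_of_pow_eq_one hτP)
    have hipos : i ≠ 0 := by
      rintro rfl
      rw [pow_zero] at hi2
      exact hτ (orderOf_eq_one_iff.1 hi2)
    obtain ⟨j, rfl⟩ : ∃ j, i = j + 1 := ⟨i - 1, by omega⟩
    have hne : uni τ ^ (p ^ j) ≠ 0 := by
      intro h0
      have h1 : τ ^ (p ^ j) = 1 := pow_eq_one_iff_uni.2 h0
      have h3 := orderOf_dvd_of_pow_eq_one h1
      rw [hi2] at h3
      have h4 := (Nat.pow_dvd_pow_iff_le_right hp.one_lt).1 h3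
      omega
    have hnil : uni τ ^ finrank F (LinearMap.range π) = 0 :=
      nil_on_range hπ (fun z => by rw [uni_apply, uni_apply, map_sub, hτ2])
        (fun z hz => by rw [uni_apply, hτ1 z hz, sub_self])
        ⟨p ^ k, pow_eq_one_iff_uni.1 hτP⟩ hd1
    have hle : p ^ j < finrank F (LinearMap.range π) := by
      by_contra hcon
      exact hne (pow_eq_zero_of_le (by omega) hnil)
    have hjodd := prime_pow_odd C j
    have hle2 : p ^ j + 2 ≤ finrank F (LinearMap.range π) := by
      obtain ⟨s, hs⟩ := hjodd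
      obtain ⟨t, ht⟩ := hdodd
      omega
    have hM := lemmaM C hhOm hπ hf1 j hle2
    rw [Nat.lcm_comm, ← hi2] at hM
    rw [hmul]
    exact C.hR.dvd _ hM _ hcomm.orderOf_mul_dvd_lcm

end star

end Cfsg.Agent.Lib.OmNine.Star
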