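import Mathlib
import Cfsg.Agent.Lib.OmNine.PolyStar
import Cfsg.Agent.Lib.OmNine.Star

set_option autoImplicit false
set_option linter.unusedSectionVars false
set_option linter.unusedVariables false
set_option linter.unusedSimpArgs false
set_option linter.style.haveILetI false

/-!
The remaining case of the main argument, reduced to the hyperbolic space of dimension eight.
-/

namespace Cfsg.Agent.Lib.OmNine.HStar

open Module QuadraticMap
open Cfsg.Agent.Lib.Classical.QuadOrders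
open Cfsg.Agent.Lib.Orth.Spin Cfsg.Agent.Lib.Orth.Refl
open Cfsg.Agent.Lib.Witt.Quadratic
open Cfsg.Agent.Lib.OmNine.Proj Cfsg.Agent.Lib.OmNine.Lift Cfsg.Agent.Lib.OmNine.Split Cfsg.Agent.Lib.OmNine.RSet
  Cfsg.Agent.Lib.OmNine.PolyO Cfsg.Agent.Lib.OmNine.Models Cfsg.Agent.Lib.OmNine.Expo Cfsg.Agent.Lib.OmNine.PolyStar

universe u v w

variable {F : Type u} [Field F] [Fintype F] {V : Type v} [AddCommGroup V] [Module F V] [FiniteDimensional F V]
  {Y : Type w} [AddCommGroup Y] [Module F Y] [FiniteDimensional F Y] {Q : QuadraticForm F V}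
  {Q₈ : QuadraticForm F Y} {p : ℕ} [Fact p.Prime] [CharP F p] {R : Set ℕ} {t : ℕ}

theorem hstar_of (C : Ctx Q Q₈ p R) (ht : Fintype.card F = 2 * t + 1) (hE : Expos p t R) {ιp : YP F →ₗ[F] V}
    (hιp : ∀ y, Q (ιp y) = qPlus 4 F y) {e₀ : V} (he₀ : Q e₀ = 1) (hv : ∀ y, polar Q e₀ (ιp y) = 0)
    (g : V ≃ₗ[F] V) (hg : IsOm Q g) (e : V) (he : Q e = 1) (hge : g e = e) (hfix : ∀ x, g x = x → ∃ c : F, x = c • e)
    (hJ : ∀ x, g (g x + x) + (g x + x) = 0 → g x + x = 0) : orderOf g ∈ R := by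
  have hYP : (polarBilin (qPlus 4 F)).Nondegenerate := nondegP 4
  have hdim : finrank F V = finrank F (YP F) + 1 := by
    rw [C.hV9, finrankP]
  have he₀' : e₀ ≠ 0 := by
    rintro rfl
    rw [map_zero] at he₀
    exact zero_ne_one he₀
  obtain ⟨s, hs, hse⟩ := witt_one C.hQ (u := e) (u' := e₀) (by rw [he]; exact one_ne_zero) (by rw [he, he₀])
  have hsinv : ∀ x, s⁻¹ (s x) = x := fun x => by
    show (s⁻¹ * s) x = x
    rw [inv_mul_cancel]
    rfl
  have hsinv' : ∀ x, s (s⁻¹ x) = x := fun x => by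
    show (s * s⁻¹) x = x
    rw [mul_inv_cancel]
    rfl
  have hconj : ∀ x, (s * g * s⁻¹) x = s (g (s⁻¹ x)) := fun x => rfl
  set g' := s * g * s⁻¹ with hg'
  have hOm' : IsOm Q g' := IsOm.conj' C.h2 C.hQ hg hs
  have hfixe : g' e₀ = e₀ := by
    rw [hconj, ← hse, hsinv, hge]
  obtain ⟨g₁, hg₁, hlift⟩ := exists_lift_of_fix hYP hιp C.hQ hOm'.mem (fun x hx => by
    obtain ⟨c, rfl⟩ := adj_zero_of_hyperplane C.hQ hYP hιp hdim he₀' hv hx
    rw [map_smul, hfixe])
  have hOm₁ : IsOm (qPlus 4 F) g₁ := by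
    refine ⟨hg₁, ?_, ?_⟩
    · rw [← rp_liftE hYP hιp C.h2 C.hQ hg₁, hlift, hOm'.rp0]
    · rw [← sn_liftE hYP hιp C.h2 C.hQ hg₁, hlift, hOm'.sn0]
  have hact : ∀ y, g' (ιp y) = ιp (g₁ y) := fun y => by
    rw [← hlift, liftE_ι]
  have hinj := ι_inj (Q := Q) hYP hιp
  have hfree : ∀ y, g₁ y = y → y = 0 := by
    intro y hy
    have h1 : g (s⁻¹ (ιp y)) = s⁻¹ (ιp y) := by
      have h3 := hact y
      rw [hy, hconj] at h3
      have h5 := congrArg (fun z => (s⁻¹ : V ≃ₗ[F] V) z) h3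
      simpa only [hsinv] using h5
    obtain ⟨c, hc⟩ := hfix _ h1
    have h3 : ιp y = c • e₀ := by
      rw [← hsinv' (ιp y), hc, map_smul, hse]
    have h4 := hv y
    rw [h3, polar_smul_right, polar_self_eq, he₀, smul_eq_mul] at h4
    have hc0 : c = 0 := by
      rcases mul_eq_zero.1 h4 with h5 | h5
      · exact h5
      · exact absurd h5 (by simpa using C.h2)
    rw [hc0, zero_smul] at h3
    exact hinj (by rw [h3, map_zero])
  have hJ₁ : ∀ y, g₁ (g₁ y + y) + (g₁ y + y) = 0 → g₁ y + y = 0 := by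
    intro y hy
    have h1 : ∀ z : YP F, s⁻¹ (ιp (g₁ z)) = g (s⁻¹ (ιp z)) := fun z => by
      rw [← hact, hconj, hsinv]
    set x := s⁻¹ (ιp y) with hx
    have h3 : g (g x + x) + (g x + x) = 0 := by
      have h5 := congrArg (fun z => s⁻¹ (ιp z)) hy
      simp only [map_add, map_zero, h1] at h5
      rw [map_add]
      exact h5
    have h5 := hJ x h3
    apply hinj
    rw [map_zero]
    apply s⁻¹.injective
    rw [map_zero, map_add, map_add, h1]
    exact h5
  have h1 := hpoly ht C.hR.dvd hE hOm₁ hfree hJ₁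
  have h3 : orderOf g₁ = orderOf g := by
    rw [← orderOf_liftE hYP hιp g₁, hlift]
    exact MulEquiv.orderOf_eq (MulAut.conj s) g
  rwa [h3] at h1

end Cfsg.Agent.Lib.OmNine.HStar
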