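import Mathlib
import Cfsg.Agent.Lib.OmNine.HStar
import Cfsg.Agent.Lib.Orth.Bridge
import Cfsg.Agent.Lib.Orth.Forms
import Cfsg.Agent.Lib.Classical.QuadEichBridge

set_option autoImplicit false
set_option linter.unusedSectionVars false
set_option linter.unusedVariables false
set_option linter.unusedSimpArgs false
set_option linter.style.haveILetI false

/-!
Assembly: the element orders of the semidirect product, of the quotient, and the main statement.
-/

namespace Cfsg.Agent.Lib.OmNine.Final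

open Module QuadraticMap Matrix
open Cfsg.Agent.Lib.Classical.QuadOrders
open Cfsg.Agent.Lib.Orth.Spin Cfsg.Agent.Lib.Orth.Refl Cfsg.Agent.Lib.Orth.Bridge Cfsg.Agent.Lib.Orth.Forms
open Cfsg.Agent.Lib.Witt.Quadratic
open Cfsg.Agent.Lib.OmNine.Proj Cfsg.Agent.Lib.OmNine.Lift Cfsg.Agent.Lib.OmNine.Split Cfsg.Agent.Lib.OmNine.RSet
  Cfsg.Agent.Lib.OmNine.PolyO Cfsg.Agent.Lib.OmNine.Models Cfsg.Agent.Lib.OmNine.Expo Cfsg.Agent.Lib.OmNine.PolyStar
  Cfsg.Agent.Lib.OmNine.HStar Cfsg.Agent.Lib.OmNine.Dir1 Cfsg.Agent.Lib.OmNine.Star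

universe u

section sd

variable {F : Type u} [Field F] [Fintype F] {ι : Type} [Fintype ι] [DecidableEq ι] (Q : QuadraticForm F (ι → F))

/-- The action on the natural module. -/
noncomputable abbrev phi : ↥(Cfsg.Omega F ⇑Q) →* MulAut (Multiplicative (ι → F)) :=
  (MulAutMultiplicative (ι → F)).symm.toMonoidHom.comp
    ((DistribMulAction.toAddAut (LinearMap.GeneralLinearGroup F (ι → F)) (ι → F)).comp
      (Matrix.GeneralLinearGroup.toLin.toMonoidHom.comp
        ((Cfsg.isometryGroup F ⇑Q).subtype.comp (Cfsg.Omega F ⇑Q).subtype)))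

/-- The semidirect product. -/
abbrev SD : Type u := Multiplicative (ι → F) ⋊[phi Q] ↥(Cfsg.Omega F ⇑Q)

/-- From matrices to linear automorphisms. -/
noncomputable def tau : ↥(Cfsg.Omega F ⇑Q) →* ((ι → F) ≃ₗ[F] (ι → F)) :=
  (isoGroup Q).subtype.comp ((toIso Q).toMonoidHom.comp (Cfsg.Omega F ⇑Q).subtype)

theorem tau_injective : Function.Injective (tau Q) := by
  intro x y h
  apply Subtype.ext
  apply (toIso Q).injective
  apply Subtype.ext
  exact h

theorem orderOf_tau (h : ↥(Cfsg.Omega F ⇑Q)) : orderOf (tau Q h) = orderOf h :=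
  orderOf_injective (tau Q) (tau_injective Q) h

theorem toAdd_phi (h : ↥(Cfsg.Omega F ⇑Q)) (w : Multiplicative (ι → F)) :
    Multiplicative.toAdd ((phi Q h) w) = tau Q h (Multiplicative.toAdd w) := rfl

instance finite_SD : Finite (SD Q) :=
  Finite.of_equiv _ (SemidirectProduct.equivProd (φ := phi Q)).symm

theorem pow_left (x : SD Q) (k : ℕ) :
    Multiplicative.toAdd (x ^ k).left = ∑ i ∈ Finset.range k, ((tau Q x.right) ^ i) (Multiplicative.toAdd x.left) := by
  induction k with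
  | zero => rfl
  | succ k ih =>
    rw [pow_succ', SemidirectProduct.mul_left, toAdd_mul, toAdd_phi, ih, Finset.sum_range_succ', map_sum, add_comm]
    congr 1
    apply Finset.sum_congr rfl
    intro i _
    rw [pow_succ']
    rfl

theorem pow_right (x : SD Q) (k : ℕ) : (x ^ k).right = x.right ^ k := by
  induction k with
  | zero => rfl
  | succ k ih =>
    rw [pow_succ', SemidirectProduct.mul_right, ih, pow_succ']

variable {Q}

theorem orderOf_of_zero (x : SD Q)
    (hN : ∑ i ∈ Finset.range (orderOf (tau Q x.right)), ((tau Q x.right) ^ i) (Multiplicative.toAdd x.left) = 0) :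
    orderOf x = orderOf x.right := by
  apply Nat.dvd_antisymm
  · apply orderOf_dvd_of_pow_eq_one
    have h1 := pow_left Q x (orderOf x.right)
    rw [← orderOf_tau, hN] at h1
    rw [← orderOf_tau]
    apply SemidirectProduct.ext
    · exact h1
    · rw [pow_right, orderOf_tau, pow_orderOf_eq_one]
      rfl
  · exact orderOf_map_dvd (SemidirectProduct.rightHom (φ := phi Q)) x

theorem orderOf_of_ne {p : ℕ} [hp : Fact p.Prime] [CharP F p] (x : SD Q)
    (hN : ∑ i ∈ Finset.range (orderOf (tau Q x.right)), ((tau Q x.right) ^ i) (Multiplicative.toAdd x.left) ≠ 0) :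
    orderOf x = p * orderOf x.right := by
  set n := orderOf x.right with hn
  have hdn : n ∣ orderOf x := orderOf_map_dvd (SemidirectProduct.rightHom (φ := phi Q)) x
  have hn0 : n ≠ 0 := (orderOf_pos x.right).ne'
  have hxn : (x ^ n).right = 1 := by
    rw [pow_right, hn, pow_orderOf_eq_one]
  have hleft : Multiplicative.toAdd (x ^ n).left ≠ 0 := by
    rw [pow_left, hn, ← orderOf_tau]
    exact hN
  have hy1 : x ^ n ≠ 1 := by
    intro h
    apply hleft
    rw [h]
    rfl
  have hyp : (x ^ n) ^ p = 1 := by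
    apply SemidirectProduct.ext
    · have h1 := pow_left Q (x ^ n) p
      rw [hxn, map_one] at h1
      simp only [one_pow, LinearEquiv.coe_one, id_eq, Finset.sum_const, Finset.card_range] at h1
      have h3 : p • Multiplicative.toAdd (x ^ n).left = 0 := by
        rw [← Nat.cast_smul_eq_nsmul F, CharP.cast_eq_zero F p, zero_smul]
      rw [h3] at h1
      exact h1
    · rw [pow_right, hxn, one_pow]
      rfl
  have h1 : orderOf (x ^ n) = p := orderOf_eq_prime hyp hy1
  rw [orderOf_pow_of_dvd hn0 hdn] at h1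
  rw [← h1, mul_comm]
  exact (Nat.mul_div_cancel' hdn).symm

theorem isOm_tau (hQ : (polarBilin Q).Nondegenerate) (hc : Fintype.card F ≠ 2) (h : ↥(Cfsg.Omega F ⇑Q)) :
    IsOm Q (tau Q h) := by
  have h1 := (mem_Omega_iff Q hQ (Or.inl hc) h.1).1 h.2
  exact ⟨(toIso Q h.1).2, h1.1, h1.2⟩

theorem exists_tau (hQ : (polarBilin Q).Nondegenerate) (hc : Fintype.card F ≠ 2) {T : (ι → F) ≃ₗ[F] (ι → F)}
    (hT : IsOm Q T) : ∃ h, tau Q h = T := by
  have h1 : (toIso Q) ((toIso Q).symm ⟨T, hT.mem⟩) = ⟨T, hT.mem⟩ := (toIso Q).apply_symm_apply _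
  refine ⟨⟨(toIso Q).symm ⟨T, hT.mem⟩, (mem_Omega_iff Q hQ (Or.inl hc) _).2 ?_⟩, ?_⟩
  · rw [h1]
    exact ⟨hT.rp0, hT.sn0⟩
  · show ((toIso Q) ((toIso Q).symm ⟨T, hT.mem⟩)).1 = T
    rw [h1]

theorem isR_SD {p : ℕ} [hp : Fact p.Prime] [CharP F p] (hQ : (polarBilin Q).Nondegenerate) (hc : Fintype.card F ≠ 2) :
    IsR Q p (Set.range (orderOf : SD Q → ℕ)) where
  dvd := by
    rintro _ ⟨x, rfl⟩ d hd
    exact ⟨x ^ (orderOf x / d), orderOf_pow_orderOf_div (orderOf_pos x).ne' hd⟩
  r1 := by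
    intro T hT
    obtain ⟨h, rfl⟩ := exists_tau hQ hc hT
    refine ⟨SemidirectProduct.inr h, ?_⟩
    rw [orderOf_tau]
    exact orderOf_injective (SemidirectProduct.inr (φ := phi Q)) SemidirectProduct.inr_injective h
  r2 := by
    intro T v hT hN
    obtain ⟨h, rfl⟩ := exists_tau hQ hc hT
    refine ⟨⟨Multiplicative.ofAdd v, h⟩, ?_⟩
    rw [orderOf_tau]
    exact orderOf_of_ne (p := p) ⟨Multiplicative.ofAdd v, h⟩ hN
  el := by
    rintro _ ⟨x, rfl⟩
    refine ⟨tau Q x.right, isOm_tau hQ hc _, ?_⟩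
    by_cases hN : ∑ i ∈ Finset.range (orderOf (tau Q x.right)), ((tau Q x.right) ^ i) (Multiplicative.toAdd x.left) = 0
    · left
      rw [orderOf_tau]
      exact orderOf_of_zero x hN
    · right
      refine ⟨_, hN, ?_⟩
      rw [orderOf_tau]
      exact orderOf_of_ne x hN

theorem range_Omega (hQ : (polarBilin Q).Nondegenerate) (hc : Fintype.card F ≠ 2) :
    Set.range (orderOf : ↥(Cfsg.Omega F ⇑Q) → ℕ) = {n | ∃ g, IsOm Q g ∧ orderOf g = n} := by
  ext n
  constructor
  · rintro ⟨h, rfl⟩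
    exact ⟨tau Q h, isOm_tau hQ hc h, orderOf_tau Q h⟩
  · rintro ⟨g, hg, rfl⟩
    obtain ⟨h, rfl⟩ := exists_tau hQ hc hg
    exact ⟨h, (orderOf_tau Q h).symm⟩

end sd

section quotient

theorem range_quotient_center {G : Type*} [Group G] (h : Subgroup.center G = ⊥) :
    Set.range (orderOf : G ⧸ Subgroup.center G → ℕ) = Set.range (orderOf : G → ℕ) := by
  have e : (G ⧸ Subgroup.center G) ≃* G :=
    (QuotientGroup.quotientMulEquivOfEq h).trans QuotientGroup.quotientBot
  ext n
  constructor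
  · rintro ⟨x, rfl⟩
    exact ⟨e x, e.orderOf_eq x⟩
  · rintro ⟨y, rfl⟩
    exact ⟨e.symm y, e.symm.orderOf_eq y⟩

end quotient

section concrete

variable {F : Type u} [Field F] [Fintype F]

/-- The space of dimension nine. -/
abbrev V9 (F : Type u) [Field F] : Type u := Unit ⊕ (Fin 4 ⊕ Fin 4) → F

/-- The space of dimension eight. -/
abbrev Y8 (F : Type u) [Field F] : Type u := (Fin 3 ⊕ Fin 3) ⊕ Fin 2 → F

/-- The embedding of the minus-type hyperplane. -/
noncomputable def iota8 (c δ : F) : Y8 F →ₗ[F] V9 F where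
  toFun w := Sum.elim (fun _ => w (Sum.inr 0) + c * w (Sum.inr 1))
    (Sum.elim ![w (Sum.inl (Sum.inl 0)), w (Sum.inl (Sum.inl 1)), w (Sum.inl (Sum.inl 2)), w (Sum.inr 1)]
      ![w (Sum.inl (Sum.inr 0)), w (Sum.inl (Sum.inr 1)), w (Sum.inl (Sum.inr 2)), δ * w (Sum.inr 1)])
  map_add' x y := by
    funext s
    rcases s with u | i | i
    · simp only [Sum.elim_inl, Pi.add_apply]
      ring
    · fin_cases i <;> simp
    · fin_cases i <;> simp
      ring
  map_smul' r x := by
    funext s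
    rcases s with u | i | i
    · simp only [Sum.elim_inl, Pi.smul_apply, smul_eq_mul, RingHom.id_apply]
      ring
    · fin_cases i <;> simp
    · fin_cases i <;> simp
      ring

theorem iota8_isom {a b c δ : F} (hc : a = 2 * c) (hδ : b = δ + c ^ 2) (w : Y8 F) :
    oddForm 4 F (iota8 c δ w) = qMinus 3 a b w := by
  rw [coe_oddForm, coe_qMinus]
  simp [Cfsg.quadFormOdd, Cfsg.quadFormMinus, iota8, Fin.sum_univ_four, Fin.sum_univ_three, hc, hδ]
  ring

/-- The vector orthogonal to the hyperplane. -/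
noncomputable def v0 (δ : F) : V9 F :=
  Sum.elim (fun _ => 0) (Sum.elim ![0, 0, 0, 1] ![0, 0, 0, - δ])

theorem v0_Q (δ : F) : oddForm 4 F (v0 δ) = - δ := by
  rw [coe_oddForm]
  simp [Cfsg.quadFormOdd, v0, Fin.sum_univ_four]

theorem v0_polar (c δ : F) (w : Y8 F) : polar (oddForm 4 F) (v0 δ) (iota8 c δ w) = 0 := by
  rw [polar, coe_oddForm]
  simp [Cfsg.quadFormOdd, v0, iota8, Fin.sum_univ_four]
  ring

/-- The hyperbolic subspace. -/
noncomputable def iotaP : YP F →ₗ[F] V9 F where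
  toFun y := Sum.elim (fun _ => 0) y
  map_add' x y := by
    funext s
    rcases s with u | i
    · simp
    · simp
  map_smul' r x := by
    funext s
    rcases s with u | i
    · simp
    · simp

theorem iotaP_isom (y : YP F) : oddForm 4 F (iotaP y) = qPlus 4 F y := by
  rw [coe_oddForm, coe_qPlus]
  simp [Cfsg.quadFormOdd, Cfsg.quadFormPlus, iotaP]

/-- The point. -/
noncomputable def e0 : V9 F := Sum.elim (fun _ => 1) 0

theorem e0_Q : oddForm 4 F (e0 (F := F)) = 1 := by
  rw [coe_oddForm]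
  simp [Cfsg.quadFormOdd, e0]

theorem e0_polar (y : YP F) : polar (oddForm 4 F) (e0 (F := F)) (iotaP y) = 0 := by
  rw [polar, coe_oddForm]
  simp [Cfsg.quadFormOdd, e0, iotaP]

end concrete

section main

variable {F : Type u} [Field F] [Fintype F]

theorem center_odd (h2 : (2 : F) ≠ 0) : Subgroup.center (Cfsg.Omega F ⇑(oddForm 4 F)) = ⊥ := by
  apply Subgroup.eq_bot_of_card_eq
  exact Cfsg.Agent.Lib.Classical.QuadEichBridge.card_center_of_not_neg (oddForm 4 F) (oddForm_nondeg 4 h2) (by simp)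
    (Cfsg.Agent.Lib.Classical.QuadEichBridge.not_neg_of_odd_card _ h2 (by simp; decide))

/-- The main statement. -/
theorem main (hF : Odd (Fintype.card F)) (a b : F)
    (hab : ∀ z₁ z₂ : F, z₁ ^ 2 + a * z₁ * z₂ + b * z₂ ^ 2 = 0 → z₁ = 0 ∧ z₂ = 0) :
    Set.range (orderOf : Cfsg.POmega F ⇑(oddForm 4 F) → ℕ) = Set.range (orderOf : SD (minusForm 3 F a b) → ℕ) := by
  classical
  obtain ⟨t, ht⟩ := hF
  obtain ⟨p, hpc⟩ := CharP.exists F
  haveI : Fact p.Prime := ⟨CharP.char_is_prime F p⟩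
  have h2 : (2 : F) ≠ 0 := h2_of ht
  have hc2 : Fintype.card F ≠ 2 := by omega
  have hQ := oddForm_nondeg 4 h2
  obtain ⟨c, hac⟩ : ∃ c : F, a = 2 * c := ⟨a / 2, by field_simp⟩
  obtain ⟨δ, hbδ⟩ : ∃ δ : F, b = δ + c ^ 2 := ⟨b - c ^ 2, by ring⟩
  have hR : IsR (qMinus 3 a b) p (Set.range (orderOf : SD (minusForm 3 F a b) → ℕ)) := by
    rw [qMinus_eq]
    exact isR_SD (minusForm_nondeg 3 hab) hc2
  have hν : ¬ IsSquare (oddForm 4 F (v0 δ)) := by
    rw [v0_Q]
    rintro ⟨s, hs⟩
    apply not_square_disc h2 hab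
    refine ⟨2 * s, ?_⟩
    rw [hac, hbδ]
    linear_combination 4 * hs
  let C : Ctx (oddForm 4 F) (qMinus 3 a b) p (Set.range (orderOf : SD (minusForm 3 F a b) → ℕ)) :=
    { h2 := h2
      hQ := hQ
      hY := nondegM 3 hab
      hV9 := by
        rw [Module.finrank_fintype_fun_eq_card]
        simp
      hY8 := finrankM 3
      ι := iota8 c δ
      hι := iota8_isom hac hbδ
      v₀ := v0 δ
      hv₀ := v0_polar c δ
      hν := hν
      hR := hR }
  have hE := expos hab ht C
  have hstar := hstar_of C ht hE iotaP_isom e0_Q e0_polar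
  rw [range_quotient_center (center_odd h2), range_Omega hQ hc2]
  ext n
  constructor
  · rintro ⟨g, hg, rfl⟩
    exact dir2 C hstar hg
  · intro hn
    exact dir1 C hn

end main

end Cfsg.Agent.Lib.OmNine.Final
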